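import Cfsg.Agent.SpClassCount.Arith

/-! The recursion bounding the number of classes of orthogonal groups, `q` odd (owner: helper23). -/

set_option autoImplicit false

namespace Cfsg.Agent.OClassCount

open Finset Cfsg.Agent.SpClassCount

/-- The weight of a unit of the layer `j`. -/
def wtO (j : ℕ) : ℕ := if j % 2 = 1 then j else 2 * j

theorem wtO_pos {j : ℕ} (h : 2 ≤ j) : 1 ≤ wtO j := by
  unfold wtO
  split_ifs <;> omega

/-- The number of palindromic polynomials of a degree. -/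
def pal (q d : ℕ) : ℕ := if d % 2 = 0 then q ^ (d / 2) else 0

/-- Layers with signs. -/
def layO (q j d : ℕ) : ℕ := if j % 2 = 1 then psi q d else q ^ d

/-- Layers without signs. -/
def layT (q j d : ℕ) : ℕ := if j % 2 = 1 then pal q d else q ^ d

/-- Tuples of layers `2, …, J + 1`. -/
def cW (L : ℕ → ℕ → ℕ) : ℕ → ℕ → ℕ
  | 0, n => if n = 0 then 1 else 0
  | J + 1, n => ∑ d ∈ range (n / wtO (J + 2) + 1), L (J + 2) d * cW L J (n - wtO (J + 2) * d)

/-- All layers. -/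
def conv (u : ℕ → ℕ) (c : ℕ → ℕ) (N : ℕ) : ℕ := ∑ d ∈ range (N + 1), u d * c (N - d)

/-- Euler factors with signs. -/
def facO (q : ℕ) (s : ℚ) (j : ℕ) : ℚ :=
  (if j % 2 = 1 then (1 + s ^ j) ^ 4 else 1) / (1 - q * s ^ (2 * j))

/-- Euler factors without signs. -/
def facT (q : ℕ) (s : ℚ) (j : ℕ) : ℚ := 1 / (1 - q * s ^ (2 * j))

theorem psi_sum_le {q : ℕ} {z : ℚ} (hz : 0 ≤ z) (h : (q : ℚ) * z ^ 2 < 1) (D : ℕ) :
    ∑ d ∈ range (D + 1), (psi q d : ℚ) * z ^ d ≤ (1 + z) ^ 4 / (1 - q * z ^ 2) := by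
  simp only [psi, Nat.cast_sum, Finset.sum_mul]
  rw [Finset.sum_comm]
  refine le_trans (Finset.sum_le_sum fun b _ => shifted_le hz h (cnt b.1 + cnt b.2) D) (le_of_eq ?_)
  rw [← Finset.sum_mul, div_eq_mul_one_div ((1 + z) ^ 4)]
  congr 1
  simp only [Fintype.sum_prod_type, Fintype.sum_bool, cnt, Bool.toNat_true, Bool.toNat_false]
  ring

theorem pow_sum_le {q : ℕ} {z : ℚ} (hz : 0 ≤ z) (h : (q : ℚ) * z < 1) (D : ℕ) :
    ∑ d ∈ range (D + 1), ((q ^ d : ℕ) : ℚ) * z ^ d ≤ 1 / (1 - q * z) := by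
  refine le_trans (le_of_eq (Finset.sum_congr rfl fun d _ => ?_)) (SpClassCount.geom_le (x := (q : ℚ) * z) (by positivity) h _)
  push_cast
  rw [mul_pow]

theorem pal_sum_le {q : ℕ} {z : ℚ} (hz : 0 ≤ z) (h : (q : ℚ) * z ^ 2 < 1) (D : ℕ) :
    ∑ d ∈ range (D + 1), (pal q d : ℚ) * z ^ d ≤ 1 / (1 - q * z ^ 2) := by
  refine le_trans (le_of_eq (Finset.sum_congr rfl fun d _ => ?_))
    ((shifted_le hz h 0 D).trans (le_of_eq (by rw [pow_zero, one_mul])))
  simp only [pal, Nat.sub_zero, zero_le, true_and, Nat.dvd_iff_mod_eq_zero]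

theorem layO_le {q : ℕ} {s : ℚ} (hs : 0 ≤ s) {j : ℕ} (h : (q : ℚ) * s ^ (2 * j) < 1) (D : ℕ) :
    ∑ d ∈ range (D + 1), (layO q j d : ℚ) * (s ^ wtO j) ^ d ≤ facO q s j := by
  unfold layO wtO facO
  split_ifs with hj
  · have e : (s ^ j) ^ 2 = s ^ (2 * j) := by rw [← pow_mul, mul_comm]
    have h1 := psi_sum_le (pow_nonneg hs j) (by rwa [e]) D
    rwa [e] at h1
  · exact pow_sum_le (pow_nonneg hs _) h D

theorem layT_le {q : ℕ} {s : ℚ} (hs : 0 ≤ s) {j : ℕ} (h : (q : ℚ) * s ^ (2 * j) < 1) (D : ℕ) :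
    ∑ d ∈ range (D + 1), (layT q j d : ℚ) * (s ^ wtO j) ^ d ≤ facT q s j := by
  unfold layT wtO facT
  split_ifs with hj
  · have e : (s ^ j) ^ 2 = s ^ (2 * j) := by rw [← pow_mul, mul_comm]
    have h1 := pal_sum_le (pow_nonneg hs j) (by rwa [e]) D
    rwa [e] at h1
  · exact pow_sum_le (pow_nonneg hs _) h D

/-- The truncated Euler product. -/
def eul (f : ℕ → ℚ) (J : ℕ) : ℚ := ∏ i ∈ range J, f (i + 2)

attribute [local irreducible] wtO in
theorem weighted_le {L : ℕ → ℕ → ℕ} {f : ℕ → ℚ} {s : ℚ} (hs : 0 ≤ s) (hf : ∀ j, 2 ≤ j → 1 ≤ f j)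
    (h : ∀ j, 2 ≤ j → ∀ D, ∑ d ∈ range (D + 1), (L j d : ℚ) * (s ^ wtO j) ^ d ≤ f j) :
    ∀ J N, ∑ m ∈ range (N + 1), (cW L J m : ℚ) * s ^ m ≤ eul f J
  | 0, N => by
    rw [Finset.sum_eq_single 0 (fun m _ hm => by simp [cW, hm]) (by simp)]
    simp [cW, eul]
  | J + 1, N => by
    have hw := wtO_pos (show 2 ≤ J + 2 by omega)
    rw [show eul f (J + 1) = eul f J * f (J + 2) from Finset.prod_range_succ _ _, mul_comm]
    refine le_trans ?_ (mul_le_mul (h (J + 2) (by omega) N) (weighted_le hs hf h J N)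
      (Finset.sum_nonneg fun m _ => by positivity) (zero_le_one.trans (hf _ (by omega))))
    rw [Finset.sum_mul_sum, ← Finset.sum_product']
    simp only [cW, Nat.cast_sum, Finset.sum_mul, Nat.cast_mul]
    rw [Finset.sum_sigma']
    refine le_trans (le_of_eq ?_) (Finset.sum_le_sum_of_subset_of_nonneg
      (s := (((range (N + 1)).sigma fun m => range (m / wtO (J + 2) + 1)).image
        fun x => (x.2, x.1 - wtO (J + 2) * x.2))) ?_ fun x _ _ => by positivity)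
    · rw [Finset.sum_image]
      · refine Finset.sum_congr rfl fun x hx => ?_
        obtain ⟨m, d⟩ := x
        simp only [Finset.mem_sigma, Finset.mem_range] at hx ⊢
        have hle : wtO (J + 2) * d ≤ m :=
          le_trans (Nat.mul_le_mul_left _ (by omega)) (Nat.mul_div_le m (wtO (J + 2)))
        conv_lhs => rw [← Nat.add_sub_of_le hle, pow_add, pow_mul]
        simp only [Nat.add_sub_of_le hle]
        ring
      · rintro ⟨m, d⟩ hx ⟨m', d'⟩ hx' e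
        simp only [Finset.mem_coe, Finset.mem_sigma, Finset.mem_range] at hx hx'
        simp only [Prod.mk.injEq] at e
        obtain ⟨rfl, e⟩ := e
        have h1 : wtO (J + 2) * d ≤ m := le_trans (Nat.mul_le_mul_left _ (by omega)) (Nat.mul_div_le m _)
        have h2 : wtO (J + 2) * d ≤ m' := le_trans (Nat.mul_le_mul_left _ (by omega)) (Nat.mul_div_le m' _)
        obtain rfl : m = m' := by omega
        rfl
    · intro x hx
      simp only [Finset.mem_image, Finset.mem_sigma, Finset.mem_range] at hx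
      obtain ⟨⟨m, d⟩, ⟨hm, hd⟩, rfl⟩ := hx
      dsimp only at hm hd
      simp only [Finset.mem_product, Finset.mem_range]
      have h2 := Nat.div_le_self m (wtO (J + 2))
      exact ⟨by omega, by omega⟩

theorem one_le_facT {q : ℕ} {s : ℚ} {j : ℕ} (hs : 0 ≤ s) (h : (q : ℚ) * s ^ (2 * j) < 1) : 1 ≤ facT q s j := by
  have h1 : (0 : ℚ) ≤ q * s ^ (2 * j) := by positivity
  rw [facT, le_div_iff₀ (by linarith)]
  linarith

theorem facT_le_facO {q : ℕ} {s : ℚ} {j : ℕ} (hs : 0 ≤ s) (h : (q : ℚ) * s ^ (2 * j) < 1) : facT q s j ≤ facO q s j := by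
  rw [facT, facO]
  refine div_le_div_of_nonneg_right ?_ (by linarith)
  have hp := pow_nonneg hs j
  split_ifs
  · exact one_le_pow₀ (by linarith)
  · exact le_rfl

theorem facO_le_linear {q : ℕ} {s : ℚ} {j J₀ : ℕ} (hs : 0 ≤ s) (hs1 : s ≤ 1) (hj : J₀ ≤ j)
    (hq : ((q : ℚ) + 11) * s ^ J₀ ≤ 1 / 4) : facO q s j ≤ 1 + 6 * s ^ j := by
  set x := s ^ j with hxdef
  have hx : 0 ≤ x := pow_nonneg hs j
  have hxJ : x ≤ s ^ J₀ := pow_le_pow_of_le_one hs hs1 hj
  have hq0 : (0 : ℚ) ≤ q := Nat.cast_nonneg q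
  have hb : ((q : ℚ) + 11) * x ≤ 1 / 4 := le_trans (mul_le_mul_of_nonneg_left hxJ (by linarith)) hq
  have hx1 : x ≤ 1 / 44 := by linarith [mul_nonneg hq0 hx]
  have hqx : (q : ℚ) * x ≤ 1 / 4 := by linarith
  have h2 : s ^ (2 * j) = x * x := by rw [hxdef, two_mul, pow_add]
  rw [facO, h2, div_le_iff₀ (by linarith [mul_le_mul_of_nonneg_right hqx hx])]
  have hnum : (if j % 2 = 1 then (1 + x) ^ 4 else 1) ≤ 1 + (9 / 2) * x := by
    split_ifs
    · nlinarith [mul_le_mul_of_nonneg_left hx1 hx, mul_le_mul_of_nonneg_left hx1 (mul_nonneg hx hx),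
        mul_le_mul_of_nonneg_left hx1 (mul_nonneg hx (mul_nonneg hx hx))]
    · linarith
  nlinarith [mul_le_mul_of_nonneg_right hqx hx, mul_nonneg hx hx, mul_le_mul_of_nonneg_right hqx (mul_nonneg hx hx),
    mul_le_mul_of_nonneg_left hx1 (mul_nonneg hq0 (mul_nonneg hx hx))]

theorem eul_le {f : ℕ → ℚ} {s B K C : ℚ} (J₀ : ℕ) (hs : 0 ≤ s) (hs1 : s ≤ 1) (hK : 0 ≤ K) (hC : 0 ≤ C)
    (hf : ∀ j, 2 ≤ j → 1 ≤ f j) (hlin : ∀ j, J₀ + 2 ≤ j → f j ≤ 1 + K * s ^ j)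
    (hstep : K + C * s + K * C * s ^ (J₀ + 3) ≤ C) (hB : eul f J₀ * (1 + C * s ^ (J₀ + 2)) ≤ B) (J : ℕ) :
    eul f J ≤ B := by
  have hnn : ∀ J, 0 ≤ eul f J := fun J => Finset.prod_nonneg fun i _ => zero_le_one.trans (hf _ (by omega))
  have hmono : Monotone (eul f) := monotone_nat_of_le_succ fun k => by
    rw [show eul f (k + 1) = eul f k * _ from Finset.prod_range_succ _ _]
    exact le_mul_of_one_le_right (hnn _) (hf _ (by omega))
  have key : ∀ k, eul f (J₀ + k) * (1 + C * s ^ (J₀ + k + 2)) ≤ B := by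
    intro k
    induction k with
    | zero => exact hB
    | succ k ih =>
      set j := J₀ + k + 2 with hjd
      rw [show eul f (J₀ + (k + 1)) = eul f (J₀ + k) * f j from Finset.prod_range_succ _ _,
        show J₀ + (k + 1) + 2 = j + 1 by omega, mul_assoc]
      refine le_trans (mul_le_mul_of_nonneg_left ?_ (hnn _)) ih
      refine le_trans (mul_le_mul_of_nonneg_right (hlin j (by omega)) (by positivity)) ?_
      have h3 : K * C * s ^ (j + 1) ≤ K * C * s ^ (J₀ + 3) :=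
        mul_le_mul_of_nonneg_left (pow_le_pow_of_le_one hs hs1 (by omega)) (by positivity)
      have h4 : s ^ j * (K + C * s + K * C * s ^ (j + 1)) ≤ s ^ j * C :=
        mul_le_mul_of_nonneg_left (by linarith) (pow_nonneg hs _)
      calc (1 + K * s ^ j) * (1 + C * s ^ (j + 1)) = 1 + s ^ j * (K + C * s + K * C * s ^ (j + 1)) := by ring
        _ ≤ 1 + C * s ^ j := by linarith
  refine le_trans (hmono (show J ≤ J₀ + J by omega)) (le_trans ?_ (key J))
  exact le_mul_of_one_le_right (hnn _) (le_add_of_nonneg_right (by positivity))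

theorem lt_one_pow {q : ℕ} {s : ℚ} (hs : 0 ≤ s) (hs1 : s ≤ 1) (h : (q : ℚ) * s ^ 4 < 1) (j : ℕ) (hj : 2 ≤ j) :
    (q : ℚ) * s ^ (2 * j) < 1 :=
  lt_of_le_of_lt (mul_le_mul_of_nonneg_left (pow_le_pow_of_le_one hs hs1 (by omega)) (Nat.cast_nonneg q)) h

theorem sumO_le {q : ℕ} {s B C : ℚ} (hs : 0 ≤ s) (hs1 : s ≤ 1) (hC : 0 ≤ C) (h : (q : ℚ) * s ^ 4 < 1)
    (hq : ((q : ℚ) + 11) * s ^ 22 ≤ 1 / 4) (hstep : 6 + C * s + 6 * C * s ^ 23 ≤ C)
    (hB : eul (facO q s) 20 * (1 + C * s ^ 22) ≤ B) (J N : ℕ) :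
    ∑ m ∈ range (N + 1), (cW (layO q) J m : ℚ) * s ^ m ≤ B :=
  (weighted_le hs (fun j hj => (one_le_facT hs (lt_one_pow hs hs1 h j hj)).trans (facT_le_facO hs (lt_one_pow hs hs1 h j hj)))
    (fun j hj D => layO_le hs (lt_one_pow hs hs1 h j hj) D) J N).trans
    (eul_le 20 hs hs1 (by norm_num) hC
      (fun j hj => (one_le_facT hs (lt_one_pow hs hs1 h j hj)).trans (facT_le_facO hs (lt_one_pow hs hs1 h j hj)))
      (fun j hj => facO_le_linear hs hs1 hj hq) hstep hB J)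

theorem sumT_le {q : ℕ} {s B C : ℚ} (hs : 0 ≤ s) (hs1 : s ≤ 1) (hC : 0 ≤ C) (h : (q : ℚ) * s ^ 4 < 1)
    (hq : ((q : ℚ) + 11) * s ^ 22 ≤ 1 / 4) (hstep : 6 + C * s + 6 * C * s ^ 23 ≤ C)
    (hB : eul (facT q s) 20 * (1 + C * s ^ 22) ≤ B) (J N : ℕ) :
    ∑ m ∈ range (N + 1), (cW (layT q) J m : ℚ) * s ^ m ≤ B :=
  (weighted_le hs (fun j hj => one_le_facT hs (lt_one_pow hs hs1 h j hj))
    (fun j hj D => layT_le hs (lt_one_pow hs hs1 h j hj) D) J N).trans
    (eul_le 20 hs hs1 (by norm_num) hC (fun j hj => one_le_facT hs (lt_one_pow hs hs1 h j hj))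
      (fun j hj => (facT_le_facO hs (lt_one_pow hs hs1 h j (by omega))).trans (facO_le_linear hs hs1 hj hq)) hstep hB J)

/-- The Euler product bound for the convolution. -/
theorem conv_le {q N n : ℕ} {s M : ℚ} (hs : 0 ≤ s) (hqs : 1 ≤ (q : ℚ) * s ^ 2) (u c : ℕ → ℕ) (Ae Ao : ℚ)
    (he : ∀ k, 2 * k ≤ N → (u (2 * k) : ℚ) ≤ Ae * (q : ℚ) ^ k)
    (ho : ∀ k, 2 * k + 1 ≤ N → (u (2 * k + 1) : ℚ) ≤ Ao * (q : ℚ) ^ k) (hAe : 0 ≤ Ae) (hAo : 0 ≤ Ao)
    (hM : N = 2 * n ∧ Ae ≤ M ∧ Ao * s ≤ M ∨ N = 2 * n + 1 ∧ Ae ≤ M * s ∧ Ao ≤ M ∧ 0 < s) :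
    (conv u c N : ℚ) ≤ M * (q : ℚ) ^ n * ∑ m ∈ range (N + 1), (c m : ℚ) * s ^ m := by
  have hpow : ∀ k l, k + l = n → (q : ℚ) ^ k ≤ (q : ℚ) ^ n * s ^ (2 * l) := by
    intro k l hkl
    rw [← hkl, pow_add, mul_assoc, pow_mul, ← mul_pow]
    exact le_mul_of_one_le_right (by positivity) (one_le_pow₀ hqs)
  rw [conv, Nat.cast_sum, ← Finset.sum_range_reflect (fun m => (c m : ℚ) * s ^ m), Finset.mul_sum]
  refine Finset.sum_le_sum fun d hd => ?_
  have hdN : d ≤ N := Nat.le_of_lt_succ (Finset.mem_range.1 hd)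
  rw [show N + 1 - 1 - d = N - d by omega, Nat.cast_mul]
  suffices key : (u d : ℚ) ≤ M * (q : ℚ) ^ n * s ^ (N - d) by
    calc (u d : ℚ) * c (N - d) ≤ M * (q : ℚ) ^ n * s ^ (N - d) * c (N - d) := mul_le_mul_of_nonneg_right key (by positivity)
      _ = _ := by ring
  rcases hM with ⟨hN, h1, h2⟩ | ⟨hN, h1, h2, hs0⟩ <;> rcases Nat.even_or_odd' d with ⟨k, rfl | rfl⟩
  · refine (he k hdN).trans (le_trans (mul_le_mul h1 (hpow k (n - k) (by omega)) (by positivity) (hAe.trans h1)) (le_of_eq ?_))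
    rw [show N - 2 * k = 2 * (n - k) by omega]
    ring
  · refine (ho k hdN).trans (le_trans (mul_le_mul_of_nonneg_left (hpow k (n - k) (by omega)) hAo) (le_trans (le_of_eq ?_)
      (mul_le_mul_of_nonneg_right h2 (by positivity : (0 : ℚ) ≤ (q : ℚ) ^ n * s ^ (N - (2 * k + 1)))) |>.trans (le_of_eq (by ring))))
    rw [show 2 * (n - k) = N - (2 * k + 1) + 1 by omega, pow_succ]
    ring
  · refine (he k hdN).trans (le_trans (mul_le_mul h1 (hpow k (n - k) (by omega)) (by positivity) (hAe.trans h1)) (le_of_eq ?_))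
    rw [show N - 2 * k = 2 * (n - k) + 1 by omega, pow_succ]
    ring
  · refine (ho k hdN).trans (le_trans (mul_le_mul h2 (hpow k (n - k) (by omega)) (by positivity) (hAo.trans h2)) (le_of_eq ?_))
    rw [show N - (2 * k + 1) = 2 * (n - k) by omega]
    ring

/-- The summands of `psi`. -/
def psiTerm (q d b : ℕ) : ℕ := if b ≤ d ∧ 2 ∣ d - b then q ^ ((d - b) / 2) else 0

theorem psi_eq (q d : ℕ) :
    psi q d = psiTerm q d 0 + 4 * psiTerm q d 1 + 6 * psiTerm q d 2 + 4 * psiTerm q d 3 + psiTerm q d 4 := by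
  simp only [psi, psiTerm, Fintype.sum_prod_type, Fintype.sum_bool, cnt, Bool.toNat_true, Bool.toNat_false]
  ring

theorem psiTerm_pos {q d b : ℕ} (k : ℕ) (h : d = b + 2 * k) : psiTerm q d b = q ^ k := by
  rw [psiTerm, if_pos ⟨by omega, by omega⟩, show (d - b) / 2 = k by omega]

theorem psiTerm_neg {q d b : ℕ} (h : d < b ∨ (d - b) % 2 = 1) : psiTerm q d b = 0 := by
  rw [psiTerm, if_neg (by omega)]

theorem psi_even (q k : ℕ) : psi q (2 * (k + 2)) = q ^ (k + 2) + 6 * q ^ (k + 1) + q ^ k := by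
  rw [psi_eq, psiTerm_pos (k + 2) (by omega), psiTerm_neg (b := 1) (by omega), psiTerm_pos (b := 2) (k + 1) (by omega),
    psiTerm_neg (b := 3) (by omega), psiTerm_pos (b := 4) k (by omega)]
  ring

theorem psi_odd (q k : ℕ) : psi q (2 * (k + 1) + 1) = 4 * q ^ (k + 1) + 4 * q ^ k := by
  rw [psi_eq, psiTerm_neg (b := 0) (by omega), psiTerm_pos (b := 1) (k + 1) (by omega), psiTerm_neg (b := 2) (by omega),
    psiTerm_pos (b := 3) k (by omega), psiTerm_neg (b := 4) (by omega)]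
  ring

theorem psi_zero (q : ℕ) : psi q 0 = 1 := by simp [psi_eq, psiTerm]
theorem psi_one (q : ℕ) : psi q 1 = 4 := by simp [psi_eq, psiTerm]
theorem psi_two (q : ℕ) : psi q 2 = q + 6 := by simp [psi_eq, psiTerm]

theorem psi_three_le : (∀ k : ℕ, (psi 3 (2 * k) : ℚ) ≤ 28 / 9 * 3 ^ k) ∧ ∀ k : ℕ, (psi 3 (2 * k + 1) : ℚ) ≤ 16 / 3 * 3 ^ k := by
  constructor <;> intro k
  · rcases k with _ | _ | k
    · norm_num [psi_zero]
    · norm_num [psi_two]
    · rw [show k + 1 + 1 = k + 2 from rfl, psi_even]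
      push_cast
      rw [pow_add, pow_add]
      linarith [pow_nonneg (show (0 : ℚ) ≤ 3 by norm_num) k]
  · rcases k with _ | k
    · norm_num [psi_one]
    · rw [psi_odd]
      push_cast
      rw [pow_add]
      linarith [pow_nonneg (show (0 : ℚ) ≤ 3 by norm_num) k]

theorem psi_five_le : (∀ k : ℕ, (psi 5 (2 * k) : ℚ) ≤ 56 / 25 * 5 ^ k) ∧ ∀ k : ℕ, (psi 5 (2 * k + 1) : ℚ) ≤ 24 / 5 * 5 ^ k := by
  constructor <;> intro k
  · rcases k with _ | _ | k
    · norm_num [psi_zero]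
    · norm_num [psi_two]
    · rw [show k + 1 + 1 = k + 2 from rfl, psi_even]
      push_cast
      rw [pow_add, pow_add]
      linarith [pow_nonneg (show (0 : ℚ) ≤ 5 by norm_num) k]
  · rcases k with _ | k
    · norm_num [psi_one]
    · rw [psi_odd]
      push_cast
      rw [pow_add]
      linarith [pow_nonneg (show (0 : ℚ) ≤ 5 by norm_num) k]

end Cfsg.Agent.OClassCount
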