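import Cfsg.Agent.OClassCount.Bounds

/-! The numerical bound for `Ω_{2n+1}(3)` (owner: helper23). -/

set_option autoImplicit false

namespace Cfsg.Agent.OClassCount

open Finset Cfsg.Agent.SpClassCount

/-- Palindromic polynomials of degree `2e` without roots `1`, `-1`. -/
def nz (q e : ℕ) : ℕ := if e = 0 then 1 else if e = 1 then q - 2 else (q - 1) ^ 2 * q ^ (e - 2)

/-- The first layer with simple roots at `1` and `-1`. -/
def psR (q d : ℕ) : ℕ :=
  if d % 2 = 0 then nz q (d / 2) + (if d = 0 then 0 else 4 * nz q (d / 2 - 1)) else 4 * nz q (d / 2)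

/-- Tuples with signs and simple roots in the first layer. -/
def totR (q J N : ℕ) : ℕ := conv (psR q) (cW (layO q) J) N

/-- The combined first layer. -/
def mix (d : ℕ) : ℕ := psi 3 d + 3 * psR 3 d

theorem small_mix : ∀ n ∈ List.range 18,
    10 * (totO 3 (2 * n + 1) (2 * n + 1) + 3 * totR 3 (2 * n + 1) (2 * n + 1)) ≤ 584 * 3 ^ n := by decide +kernel

theorem sumO_sigma (J N : ℕ) : ∑ m ∈ range (N + 1), (cW (layO 3) J m : ℚ) * (7 / 10 : ℚ) ^ m ≤ 91 :=
  sumO_le (C := 22) (by norm_num) (by norm_num) (by norm_num) (by norm_num) (by norm_num) (by norm_num)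
    (by norm_num [eul, facO, Finset.prod_range_succ]) J N

theorem odd_bound_three (n : ℕ) :
    10 * (totO 3 (2 * n + 1) (2 * n + 1) + 3 * totR 3 (2 * n + 1) (2 * n + 1)) ≤ 584 * 3 ^ n := by
  rcases Nat.lt_or_ge n 18 with hn | hn
  · exact small_mix n (List.mem_range.2 hn)
  set N := 2 * n + 1 with hN
  set c := cW (layO 3) N with hc
  clear_value c
  let u' : ℕ → ℕ := fun d => if d = 1 then 10 else if d = 2 then 18 else mix d
  let ex : ℕ → ℕ := fun d => (if d = 1 then 6 else 0) + if d = 2 then 6 else 0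
  have hsplit : totO 3 N N + 3 * totR 3 N N = conv u' c N + (6 * c (N - 1) + 6 * c (N - 2)) := by
    have e : ∀ d, mix d = u' d + ex d := by
      intro d
      simp only [u', ex]
      split_ifs with h1 h2
      · omega
      · subst h1; simp [mix, psi_one, psR, nz]
      · rename_i h3; subst h3; simp [mix, psi_two, psR, nz]
      · simp
    have hexs : conv ex c N = 6 * c (N - 1) + 6 * c (N - 2) := by
      simp only [conv, ex, add_mul, Finset.sum_add_distrib, ite_mul, zero_mul, Finset.sum_ite_eq', Finset.mem_range]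
      rw [if_pos (by omega), if_pos (by omega)]
    rw [← hexs]
    rw [hc]
    simp only [totO, totR, conv, Finset.mul_sum, ← Finset.sum_add_distrib]
    refine Finset.sum_congr rfl fun d _ => ?_
    rw [← add_mul, ← e, mix]
    ring
  have heven : ∀ k, 2 * k ≤ N → (u' (2 * k) : ℚ) ≤ 56 / 9 * ((3 : ℕ) : ℚ) ^ k := by
    intro k _
    rcases k with _ | _ | _ | k
    · norm_num [u', mix, psi_zero, psR, nz]
    · norm_num [u']
    · norm_num [u', mix, psR, nz, show psi 3 4 = 28 by simp [psi_eq, psiTerm]]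
    · have e : 2 * (k + 1 + 1 + 1) = 2 * (k + 1 + 2) := by ring
      simp only [u', if_neg (show ¬ 2 * (k + 1 + 1 + 1) = 1 by omega), if_neg (show ¬ 2 * (k + 1 + 1 + 1) = 2 by omega), mix, psR,
        if_pos (show 2 * (k + 1 + 1 + 1) % 2 = 0 by omega), if_neg (show ¬ 2 * (k + 1 + 1 + 1) = 0 by omega),
        show 2 * (k + 1 + 1 + 1) / 2 = k + 3 by omega, nz, if_neg (show ¬ k + 3 = 0 by omega), if_neg (show ¬ k + 3 = 1 by omega),
        if_neg (show ¬ k + 3 - 1 = 0 by omega), if_neg (show ¬ k + 3 - 1 = 1 by omega)]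
      rw [e, psi_even, show k + 3 - 2 = k + 1 by omega, show k + 3 - 1 - 2 = k by omega]
      push_cast
      norm_num
      simp only [pow_add]
      linarith [pow_nonneg (show (0 : ℚ) ≤ 3 by norm_num) k]
  have hodd : ∀ k, 2 * k + 1 ≤ N → (u' (2 * k + 1) : ℚ) ≤ 32 / 3 * ((3 : ℕ) : ℚ) ^ k := by
    intro k _
    rcases k with _ | _ | k
    · norm_num [u']
    · norm_num [u', mix, psR, nz, show psi 3 3 = 16 by simp [psi_eq, psiTerm]]
    · simp only [u', if_neg (show ¬ 2 * (k + 1 + 1) + 1 = 1 by omega), if_neg (show ¬ 2 * (k + 1 + 1) + 1 = 2 by omega), mix, psR,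
        if_neg (show ¬ (2 * (k + 1 + 1) + 1) % 2 = 0 by omega),
        show (2 * (k + 1 + 1) + 1) / 2 = k + 2 by omega, nz, if_neg (show ¬ k + 2 = 0 by omega), if_neg (show ¬ k + 2 = 1 by omega)]
      rw [psi_odd, show k + 2 - 2 = k by omega]
      push_cast
      norm_num
      simp only [pow_add]
      linarith [pow_nonneg (show (0 : ℚ) ≤ 3 by norm_num) k]
  have hO := conv_le (q := 3) (N := N) (n := n) (s := 26 / 45) (M := 140 / 13) (by norm_num) (by norm_num) u' c
    (56 / 9) (32 / 3) heven hodd (by norm_num) (by norm_num) (Or.inr ⟨rfl, by norm_num, by norm_num, by norm_num⟩)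
  have h1 := mul_le_mul_of_nonneg_left (hc ▸ sumO_three N N) (by positivity : (0 : ℚ) ≤ 140 / 13 * ((3 : ℕ) : ℚ) ^ n)
  have hterm : ∀ m, m ≤ N → (c m : ℚ) * (7 / 10 : ℚ) ^ m ≤ 91 := fun m hm =>
    (Finset.single_le_sum (f := fun m => (c m : ℚ) * (7 / 10 : ℚ) ^ m) (fun m _ => by positivity)
      (Finset.mem_range.2 (Nat.lt_succ_of_le hm))).trans (hc ▸ sumO_sigma N N)
  have h2 : ((c (N - 1) + c (N - 2) : ℕ) : ℚ) * (7 / 10) ^ (2 * n) ≤ 91 * (1 + 7 / 10) := by
    have a1 := hterm (N - 1) (by omega)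
    have a2 := hterm (N - 2) (by omega)
    rw [show N - 1 = (N - 2) + 1 by omega] at a1
    rw [show 2 * n = (N - 2) + 1 by omega, show N - 1 = (N - 2) + 1 by omega]
    push_cast
    rw [pow_succ] at a1 ⊢
    nlinarith
  have h3 : (147 / 100 : ℚ) ^ 18 ≤ (147 / 100 : ℚ) ^ n := pow_le_pow_right₀ (by norm_num) hn
  have h4 : ((c (N - 1) + c (N - 2) : ℕ) : ℚ) * (147 / 100) ^ 18 ≤ 91 * (1 + 7 / 10) * (3 : ℚ) ^ n := by
    refine (mul_le_mul_of_nonneg_left h3 (by positivity)).trans ?_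
    rw [show (147 / 100 : ℚ) = (7 / 10) ^ 2 * 3 by norm_num, mul_pow, ← pow_mul, ← mul_assoc]
    exact mul_le_mul_of_nonneg_right h2 (by positivity)
  have key : ((10 * (totO 3 N N + 3 * totR 3 N N) : ℕ) : ℚ) ≤ ((584 * 3 ^ n : ℕ) : ℚ) := by
    rw [hsplit]
    push_cast at hO h1 h4 ⊢
    have hp : (0 : ℚ) ≤ (3 : ℚ) ^ n := by positivity
    norm_num at h4
    nlinarith
  exact_mod_cast key

end Cfsg.Agent.OClassCount
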