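import Cfsg.Agent.OClassCount.Arith

/-! Numerical bounds for orthogonal groups, `q` odd (owner: helper23). -/

set_option autoImplicit false

namespace Cfsg.Agent.OClassCount

open Finset Cfsg.Agent.SpClassCount

/-- Comparing a monomial count. -/
theorem psiTerm_mono {q q₀ : ℕ} (hq : q₀ ≤ q) {d b a : ℕ} (h : d ≤ 2 * a + b) :
    psiTerm q d b * q₀ ^ a ≤ psiTerm q₀ d b * q ^ a := by
  unfold psiTerm
  split_ifs with hb
  · obtain ⟨r, hr⟩ := Nat.exists_eq_add_of_le (show (d - b) / 2 ≤ a by omega)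
    calc q ^ ((d - b) / 2) * q₀ ^ a = (q ^ ((d - b) / 2) * q₀ ^ ((d - b) / 2)) * q₀ ^ r := by rw [hr, pow_add]; ring
      _ ≤ (q ^ ((d - b) / 2) * q₀ ^ ((d - b) / 2)) * q ^ r := Nat.mul_le_mul_left _ (Nat.pow_le_pow_left hq r)
      _ = _ := by rw [hr, pow_add]; ring
  · simp

theorem psi_mono {q q₀ : ℕ} (hq : q₀ ≤ q) {d a : ℕ} (h : d ≤ 2 * a + 1) (h0 : d % 2 = 0 → d ≤ 2 * a) :
    psi q d * q₀ ^ a ≤ psi q₀ d * q ^ a := by
  rw [psi_eq, psi_eq, add_mul, add_mul, add_mul, add_mul, add_mul, add_mul, add_mul, add_mul]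
  have key : ∀ b, psiTerm q d b * q₀ ^ a ≤ psiTerm q₀ d b * q ^ a := fun b => by
    rcases Nat.eq_zero_or_pos b with rfl | hb
    · rcases Nat.even_or_odd' d with ⟨k, rfl | rfl⟩
      · exact psiTerm_mono hq (by have := h0 (by omega); omega)
      · simp [psiTerm_neg (q := q) (d := 2 * k + 1) (b := 0) (by omega)]
    · exact psiTerm_mono hq (by omega)
  simp only [mul_assoc]
  exact Nat.add_le_add (Nat.add_le_add (Nat.add_le_add (Nat.add_le_add (key 0) (Nat.mul_le_mul_left _ (key 1)))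
    (Nat.mul_le_mul_left _ (key 2))) (Nat.mul_le_mul_left _ (key 3))) (key 4)

theorem pal_mono {q q₀ : ℕ} (hq : q₀ ≤ q) {d a : ℕ} (h : d % 2 = 0 → d ≤ 2 * a) :
    pal q d * q₀ ^ a ≤ pal q₀ d * q ^ a := by
  unfold pal
  split_ifs with hd
  · have hk : d / 2 ≤ a := by have := h hd; omega
    obtain ⟨r, hr⟩ := Nat.exists_eq_add_of_le hk
    calc q ^ (d / 2) * q₀ ^ a = (q ^ (d / 2) * q₀ ^ (d / 2)) * q₀ ^ r := by rw [hr, pow_add]; ring
      _ ≤ (q ^ (d / 2) * q₀ ^ (d / 2)) * q ^ r := Nat.mul_le_mul_left _ (Nat.pow_le_pow_left hq r)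
      _ = _ := by rw [hr, pow_add]; ring
  · simp

theorem cW_mono {q q₀ : ℕ} (hq : q₀ ≤ q) (L : ℕ → ℕ → ℕ → ℕ) (hL0 : ∀ q j, L q j 0 = 1)
    (hL : ∀ j d a, 2 ≤ j → 1 ≤ d → wtO j * d ≤ 2 * a + 2 → L q j d * q₀ ^ a ≤ L q₀ j d * q ^ a) :
    ∀ J m k, m ≤ 2 * k + 1 → cW (L q) J m * q₀ ^ k ≤ cW (L q₀) J m * q ^ k
  | 0, m, k, _ => by
    by_cases hm : m = 0
    · simp [cW, hm, Nat.pow_le_pow_left hq k]
    · simp [cW, hm]
  | J + 1, m, k, hk => by
    simp only [cW, Finset.sum_mul]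
    refine Finset.sum_le_sum fun d hd => ?_
    rcases Nat.eq_zero_or_pos d with rfl | hd0
    · rw [hL0, hL0, one_mul, one_mul]
      exact cW_mono hq L hL0 hL J _ k (by omega)
    · have hle : wtO (J + 2) * d ≤ m :=
        le_trans (Nat.mul_le_mul_left _ (Nat.le_of_lt_succ (Finset.mem_range.1 hd))) (Nat.mul_div_le m _)
      set w := wtO (J + 2) * d with hw
      obtain ⟨a, ha, hak, hrest⟩ : ∃ a, w ≤ 2 * a + 2 ∧ a ≤ k ∧ m - w ≤ 2 * (k - a) + 1 :=
        ⟨(w - 1) / 2, by omega, by omega, by omega⟩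
      have h1 := hL (J + 2) d a (by omega) hd0 ha
      have h2 := cW_mono hq L hL0 hL J (m - w) (k - a) hrest
      calc L q (J + 2) d * cW (L q) J (m - w) * q₀ ^ k
          = (L q (J + 2) d * q₀ ^ a) * (cW (L q) J (m - w) * q₀ ^ (k - a)) := by
            rw [mul_mul_mul_comm, ← pow_add, Nat.add_sub_cancel' hak]
        _ ≤ (L q₀ (J + 2) d * q ^ a) * (cW (L q₀) J (m - w) * q ^ (k - a)) := Nat.mul_le_mul h1 h2
        _ = _ := by rw [mul_mul_mul_comm, ← pow_add, Nat.add_sub_cancel' hak]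

theorem cO_mono {q q₀ : ℕ} (hq : q₀ ≤ q) (J m k : ℕ) (hk : m ≤ 2 * k + 1) :
    cW (layO q) J m * q₀ ^ k ≤ cW (layO q₀) J m * q ^ k := by
  refine cW_mono hq layO (fun q j => by simp [layO, psi_zero]) (fun j d a hj hd ha => ?_) J m k hk
  unfold wtO at ha
  unfold layO
  split_ifs at ha ⊢ with hodd
  · have h3 : 3 * d ≤ j * d := Nat.mul_le_mul_right _ (by omega)
    exact psi_mono hq (by omega) (by omega)
  · obtain ⟨r, hr⟩ := Nat.exists_eq_add_of_le (show d ≤ a by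
      have h4 : 4 * d ≤ 2 * j * d := Nat.mul_le_mul_right _ (by omega)
      omega)
    calc q ^ d * q₀ ^ a = (q ^ d * q₀ ^ d) * q₀ ^ r := by rw [hr, pow_add]; ring
      _ ≤ (q ^ d * q₀ ^ d) * q ^ r := Nat.mul_le_mul_left _ (Nat.pow_le_pow_left hq r)
      _ = _ := by rw [hr, pow_add]; ring

theorem cT_mono {q q₀ : ℕ} (hq : q₀ ≤ q) (J m k : ℕ) (hk : m ≤ 2 * k + 1) :
    cW (layT q) J m * q₀ ^ k ≤ cW (layT q₀) J m * q ^ k := by
  refine cW_mono hq layT (fun q j => by simp [layT, pal]) (fun j d a hj hd ha => ?_) J m k hk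
  unfold wtO at ha
  unfold layT
  split_ifs at ha ⊢ with hodd
  · have h3 : 3 * d ≤ j * d := Nat.mul_le_mul_right _ (by omega)
    exact pal_mono hq (by omega)
  · obtain ⟨r, hr⟩ := Nat.exists_eq_add_of_le (show d ≤ a by
      have h4 : 4 * d ≤ 2 * j * d := Nat.mul_le_mul_right _ (by omega)
      omega)
    calc q ^ d * q₀ ^ a = (q ^ d * q₀ ^ d) * q₀ ^ r := by rw [hr, pow_add]; ring
      _ ≤ (q ^ d * q₀ ^ d) * q ^ r := Nat.mul_le_mul_left _ (Nat.pow_le_pow_left hq r)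
      _ = _ := by rw [hr, pow_add]; ring

theorem conv_mono {q q₀ n N : ℕ} (u c u₀ c₀ : ℕ → ℕ) (hN : N ≤ 2 * n + 1)
    (hu : ∀ d a, d ≤ 2 * a + 1 → (d % 2 = 0 → d ≤ 2 * a) → u d * q₀ ^ a ≤ u₀ d * q ^ a)
    (hc : ∀ m k, m ≤ 2 * k + 1 → c m * q₀ ^ k ≤ c₀ m * q ^ k) :
    conv u c N * q₀ ^ n ≤ conv u₀ c₀ N * q ^ n := by
  simp only [conv, Finset.sum_mul]
  refine Finset.sum_le_sum fun d hd => ?_
  have hd' := Finset.mem_range.1 hd
  obtain ⟨a, ha⟩ : ∃ a, a = d / 2 := ⟨_, rfl⟩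
  have han : a ≤ n := by omega
  calc u d * c (N - d) * q₀ ^ n = (u d * q₀ ^ a) * (c (N - d) * q₀ ^ (n - a)) := by
        rw [mul_mul_mul_comm, ← pow_add, Nat.add_sub_cancel' han]
    _ ≤ (u₀ d * q ^ a) * (c₀ (N - d) * q ^ (n - a)) := Nat.mul_le_mul (hu d a (by omega) (by omega)) (hc _ _ (by omega))
    _ = _ := by rw [mul_mul_mul_comm, ← pow_add, Nat.add_sub_cancel' han]

/-- Tuples with signs. -/
def totO (q J N : ℕ) : ℕ := conv (psi q) (cW (layO q) J) N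

/-- Tuples without signs. -/
def totT (q J N : ℕ) : ℕ := conv (pal q) (cW (layT q) J) N

theorem sumO_three (J N : ℕ) : ∑ m ∈ range (N + 1), (cW (layO 3) J m : ℚ) * (26 / 45 : ℚ) ^ m ≤ 53 / 10 :=
  sumO_le (C := 16) (by norm_num) (by norm_num) (by norm_num) (by norm_num) (by norm_num) (by norm_num)
    (by norm_num [eul, facO, Finset.prod_range_succ]) J N

theorem sumT_three (J N : ℕ) : ∑ m ∈ range (N + 1), (cW (layT 3) J m : ℚ) * (26 / 45 : ℚ) ^ m ≤ 18 / 10 :=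
  sumT_le (C := 16) (by norm_num) (by norm_num) (by norm_num) (by norm_num) (by norm_num) (by norm_num)
    (by norm_num [eul, facT, Finset.prod_range_succ]) J N

theorem sumO_five (J N : ℕ) : ∑ m ∈ range (N + 1), (cW (layO 5) J m : ℚ) * (9 / 20 : ℚ) ^ m ≤ 207 / 100 :=
  sumO_le (C := 12) (by norm_num) (by norm_num) (by norm_num) (by norm_num) (by norm_num) (by norm_num)
    (by norm_num [eul, facO, Finset.prod_range_succ]) J N

theorem even_bound {q : ℕ} (hq : 3 ≤ q) (J n : ℕ) : totO q J (2 * n) + totT q J (2 * n) ≤ 19 * q ^ n := by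
  have h3 : totO 3 J (2 * n) + totT 3 J (2 * n) ≤ 19 * 3 ^ n := by
    have hO := conv_le (q := 3) (N := 2 * n) (n := n) (s := 26 / 45) (M := 28 / 9) (by norm_num) (by norm_num) (psi 3)
      (cW (layO 3) J) (28 / 9) (16 / 3) (fun k _ => psi_three_le.1 k) (fun k _ => psi_three_le.2 k) (by norm_num) (by norm_num)
      (Or.inl ⟨rfl, le_rfl, by norm_num⟩)
    have hT := conv_le (q := 3) (N := 2 * n) (n := n) (s := 26 / 45) (M := 1) (by norm_num) (by norm_num) (pal 3)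
      (cW (layT 3) J) 1 0 (fun k _ => by simp [pal, Nat.mul_mod_right]) (fun k _ => by simp [pal, Nat.add_mod])
      zero_le_one le_rfl (Or.inl ⟨rfl, le_rfl, by norm_num⟩)
    have h1 := mul_le_mul_of_nonneg_left (sumO_three J (2 * n)) (by positivity : (0 : ℚ) ≤ 28 / 9 * ((3 : ℕ) : ℚ) ^ n)
    have h2 := mul_le_mul_of_nonneg_left (sumT_three J (2 * n)) (by positivity : (0 : ℚ) ≤ 1 * ((3 : ℕ) : ℚ) ^ n)
    have h0 : (0 : ℚ) ≤ ((3 : ℕ) : ℚ) ^ n := by positivity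
    have key : ((totO 3 J (2 * n) + totT 3 J (2 * n) : ℕ) : ℚ) ≤ ((19 * 3 ^ n : ℕ) : ℚ) := by
      push_cast
      unfold totO totT
      push_cast at hO hT h1 h2 h0
      nlinarith
    exact_mod_cast key
  refine Nat.le_of_mul_le_mul_right ?_ (show 0 < 3 ^ n by positivity)
  calc (totO q J (2 * n) + totT q J (2 * n)) * 3 ^ n ≤ (totO 3 J (2 * n) + totT 3 J (2 * n)) * q ^ n := by
        rw [add_mul, add_mul]
        exact Nat.add_le_add (conv_mono _ _ _ _ (by omega) (fun d a h h' => psi_mono hq h h') (cO_mono hq J))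
          (conv_mono _ _ _ _ (by omega) (fun d a _ h' => pal_mono hq h') (cT_mono hq J))
    _ ≤ 19 * 3 ^ n * q ^ n := Nat.mul_le_mul_right _ h3
    _ = _ := by ring

theorem odd_bound_five {q : ℕ} (hq : 5 ≤ q) (J n : ℕ) : 10 * totO q J (2 * n + 1) ≤ 146 * q ^ n := by
  have h5 : 10 * totO 5 J (2 * n + 1) ≤ 146 * 5 ^ n := by
    have hO := conv_le (q := 5) (N := 2 * n + 1) (n := n) (s := 9 / 20) (M := 51 / 10) (by norm_num) (by norm_num) (psi 5)
      (cW (layO 5) J) (56 / 25) (24 / 5) (fun k _ => psi_five_le.1 k) (fun k _ => psi_five_le.2 k) (by norm_num) (by norm_num)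
      (Or.inr ⟨rfl, by norm_num, by norm_num, by norm_num⟩)
    have h1 := mul_le_mul_of_nonneg_left (sumO_five J (2 * n + 1)) (by positivity : (0 : ℚ) ≤ 51 / 10 * ((5 : ℕ) : ℚ) ^ n)
    have h0 : (0 : ℚ) ≤ ((5 : ℕ) : ℚ) ^ n := by positivity
    have key : ((10 * totO 5 J (2 * n + 1) : ℕ) : ℚ) ≤ ((146 * 5 ^ n : ℕ) : ℚ) := by
      push_cast
      unfold totO
      push_cast at hO h1 h0
      nlinarith
    exact_mod_cast key
  refine Nat.le_of_mul_le_mul_right ?_ (show 0 < 5 ^ n by positivity)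
  calc 10 * totO q J (2 * n + 1) * 5 ^ n ≤ 10 * (totO 5 J (2 * n + 1) * q ^ n) := by
        rw [mul_assoc]
        exact Nat.mul_le_mul_left _ (conv_mono _ _ _ _ le_rfl (fun d a h h' => psi_mono hq h h') (cO_mono hq J))
    _ ≤ 146 * 5 ^ n * q ^ n := by rw [← mul_assoc]; exact Nat.mul_le_mul_right _ h5
    _ = _ := by ring

end Cfsg.Agent.OClassCount
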