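import Cfsg.Agent.OClassCount.Groups
import Cfsg.Agent.Classical.OrthForms
import Cfsg.Agent.Classical.OrthIndex
import Cfsg.Agent.Classical.OrthCount

/-! Transport to the forms of the Prelude (owner: helper23). -/

set_option autoImplicit false
set_option linter.style.haveILetI false
set_option linter.unusedSectionVars false

namespace Cfsg.Agent.OClassCount

open QuadraticMap
open Cfsg.Agent.Classical

universe u

variable {F : Type u} [Field F]

theorem card_classes_congr {G H : Type*} [Group G] [Group H] (e : G ≃* H) :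
    Nat.card (ConjClasses G) = Nat.card (ConjClasses H) :=
  Nat.card_congr
    { toFun := ConjClasses.map e.toMonoidHom
      invFun := ConjClasses.map e.symm.toMonoidHom
      left_inv := fun c => by
        obtain ⟨x, rfl⟩ := ConjClasses.mk_surjective c
        exact congrArg ConjClasses.mk (e.symm_apply_apply x)
      right_inv := fun c => by
        obtain ⟨x, rfl⟩ := ConjClasses.mk_surjective c
        exact congrArg ConjClasses.mk (e.apply_symm_apply x) }

theorem card_classes_commutator_congr {G H : Type*} [Group G] [Group H] (e : G ≃* H) :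
    Nat.card (ConjClasses ↥(commutator G)) = Nat.card (ConjClasses ↥(commutator H)) :=
  (card_classes_congr (e.subgroupMap (commutator G))).trans
    (card_classes_congr (MulEquiv.subgroupCongr (map_commutator_top_of_equiv e)))

theorem exists_fin_model {ι : Type} [Fintype ι] [DecidableEq ι] (f : (ι → F) → F) (Q : QuadraticForm F (ι → F))
    (hQ : ∀ v, Q v = f v) (hB : BNondeg Q) {N : ℕ} (hN : Fintype.card ι = N) :
    ∃ R : QuadraticForm F (Vec F N), (pol R).Nondegenerate ∧
      Nat.card (ConjClasses ↥(Cfsg.isometryGroup F f)) = Nat.card (ConjClasses (OQ R)) ∧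
      Nat.card (ConjClasses ↥(Cfsg.Omega F f)) = Nat.card (ConjClasses ↥(commutator (OQ R))) := by
  let e : (ι → F) ≃ₗ[F] Vec F N := LinearEquiv.funCongrLeft F F (Fintype.equivFinOfCardEq hN).symm
  let R : QuadraticForm F (Vec F N) := Q.comp (e.symm : Vec F N →ₗ[F] ι → F)
  have he : ∀ v, R (e v) = Q v := fun v => congrArg Q (e.symm_apply_apply v)
  have hR : BNondeg R := bNondeg_congr e.symm (fun v => rfl) hB
  let E : ↥(Cfsg.isometryGroup F f) ≃* OQ R := (isometryGroupEquiv f Q hQ).trans (OQCongr e he)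
  exact ⟨R, ⟨fun x hx => hR x hx, fun x hx => hR x fun y => (polar_comm R x y).trans (hx y)⟩,
    card_classes_congr E, card_classes_commutator_congr E⟩

theorem bNondeg_plus (m : ℕ) : BNondeg (plusQF m F) :=
  bNondeg_congr (plusEquiv m) (plusEquiv_spec m) (bNondeg_hypExt _ fun _ _ => Subsingleton.elim _ _)

theorem bNondeg_odd (h2 : (2 : F) ≠ 0) (m : ℕ) : BNondeg (oddQF m F) :=
  bNondeg_congr (oddEquiv m) (fun x => oddEquiv_spec m x) (bNondeg_hypExt m (fun x hx => by
    have h := hx 1
    simp only [polar, QuadraticMap.sq_apply] at h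
    ring_nf at h
    exact (mul_eq_zero.1 h).resolve_right h2))

theorem bNondeg_minus [Fintype F] (h2 : (2 : F) ≠ 0) (m : ℕ) {a b : F}
    (hab : ∀ z₁ z₂ : F, z₁ ^ 2 + a * z₁ * z₂ + b * z₂ ^ 2 = 0 → z₁ = 0 ∧ z₂ = 0) :
    BNondeg (minusQF m a b) := by
  refine bNondeg_congr (Classical.minusEquiv m) (minusEquiv_spec m a b) (bNondeg_hypExt _ fun z hz => ?_)
  have h0 := hz ![1, 0]
  have h1 := hz ![0, 1]
  simp [polar_binQF] at h0 h1
  have hdet : a ^ 2 - 4 * b ≠ 0 := binDisc_ne_zero (anisotropic_binQF hab)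
  have hz1 : z 1 = 0 := by
    refine (mul_eq_zero.1 (show (a ^ 2 - 4 * b) * z 1 = 0 by
      linear_combination a * h0 - 2 * h1)).resolve_left hdet
  have hz0 : z 0 = 0 := by
    rw [hz1] at h0
    refine (mul_eq_zero.1 (show (2 : F) * z 0 = 0 by linear_combination h0)).resolve_left h2
  funext i
  fin_cases i
  · exact hz0
  · exact hz1

theorem class_bounds_even [Fintype F] (hodd : Odd (Fintype.card F)) {ι : Type} [Fintype ι] [DecidableEq ι]
    (f : (ι → F) → F) (Q : QuadraticForm F (ι → F)) (hQ : ∀ v, Q v = f v) (hB : BNondeg Q) {n : ℕ}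
    (hn : 2 ≤ n) (hι : Fintype.card ι = 2 * n) :
    Fintype.card F ^ n ≤ 2 * Nat.card (ConjClasses ↥(Cfsg.isometryGroup F f)) ∧
      2 * Nat.card (ConjClasses ↥(Cfsg.isometryGroup F f)) ≤ 19 * Fintype.card F ^ n := by
  have hq1 := Fintype.one_lt_card (α := F)
  have h2 : (2 : F) ≠ 0 := Ring.two_ne_zero fun h => by
    have := FiniteField.even_card_of_char_two h
    rw [Nat.odd_iff] at hodd
    omega
  obtain ⟨R, hR, hk, -⟩ := exists_fin_model f Q hQ hB hι
  rw [hk]
  exact ⟨lower_even h2 hR rfl hn,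
    (two_mul_le h2 hR).trans (even_bound (by rw [Nat.odd_iff] at hodd; omega) _ n)⟩

theorem omega_bounds_odd [Fintype F] (hodd : Odd (Fintype.card F)) {ι : Type} [Fintype ι] [DecidableEq ι]
    (f : (ι → F) → F) (Q : QuadraticForm F (ι → F)) (hQ : ∀ v, Q v = f v) (hB : BNondeg Q) {n : ℕ}
    (hn : 2 ≤ n) (hι : Fintype.card ι = 2 * n + 1) :
    Fintype.card F ^ n ≤ 2 * Nat.card (ConjClasses ↥(Cfsg.Omega F f)) ∧
      10 * Nat.card (ConjClasses ↥(Cfsg.Omega F f)) ≤ 73 * Fintype.card F ^ n := by
  have hq1 := Fintype.one_lt_card (α := F)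
  have h2 : (2 : F) ≠ 0 := Ring.two_ne_zero fun h => by
    have := FiniteField.even_card_of_char_two h
    rw [Nat.odd_iff] at hodd
    omega
  obtain ⟨R, hR, -, hk⟩ := exists_fin_model f Q hQ hB hι
  rw [hk]
  obtain ⟨hu3, hu5⟩ := omega_upper h2 hR ⟨n, rfl⟩ (by omega)
  refine ⟨lower_odd h2 hR rfl (by omega), ?_⟩
  rcases eq_or_ne (Fintype.card F) 3 with h | h
  · rw [h] at hu3 ⊢
    have := odd_bound_three n
    omega
  · have hq : 5 ≤ Fintype.card F := by rw [Nat.odd_iff] at hodd; omega
    have := odd_bound_five hq (2 * n + 1) n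
    omega

end Cfsg.Agent.OClassCount
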