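import Cfsg.Agent.SympUnip.Chain

/-!
Every skew nilpotent operator of a non-degenerate symmetric space has a spanning chain
(owner: helper23; the symmetric companion of `SympUnip.Exist`).
-/

set_option autoImplicit false

namespace Cfsg.Agent.OClassCount

open Module Cfsg.Agent.SympUnip
open LinearMap (BilinForm)

variable {F : Type*} [Field F] {V : Type*} [AddCommGroup V] [Module F V]
  {B : BilinForm F V} {S : Module.End F V}

theorem swap_apply (hA : ∀ x y, B x y = B y x) (hS : IsSkew B S) (i : ℕ) (u v : V) :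
    B ((S ^ i) v) u = (-1 : F) ^ i * B ((S ^ i) u) v := by
  rw [hA, skew_pow hS i u v]
  have : (-1 : F) ^ i * (-1 : F) ^ i = 1 := by rw [← mul_pow]; simp
  linear_combination -(B u ((S ^ i) v)) * this

/-- Killing one of the lower Gram matrices of a top family. -/
theorem exists_step (hA : ∀ x y, B x y = B y x) (hS : IsSkew B S) (h2 : (2 : F) ≠ 0) {ι : Type} [Fintype ι]
    [DecidableEq ι] {K i : ℕ} (hi : i < K) {W : Submodule F V} (hWS : ∀ v ∈ W, S v ∈ W)
    (hK : ∀ v ∈ W, (S ^ (K + 1)) v = 0) (x : ι → V) (hx : ∀ a, x a ∈ W) (H : Matrix ι ι F)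
    (hH : ∀ a b, B ((S ^ K) (x a)) (x b) = H a b) (hdet : H.det ≠ 0)
    (hz : ∀ i', i < i' → i' < K → ∀ a b, B ((S ^ i') (x a)) (x b) = 0) :
    ∃ x' : ι → V, (∀ a, x' a ∈ W) ∧ (∀ a, (S ^ K) (x' a) = (S ^ K) (x a)) ∧
      (∀ a b, B ((S ^ K) (x' a)) (x' b) = H a b) ∧
      ∀ i', i ≤ i' → i' < K → ∀ a b, B ((S ^ i') (x' a)) (x' b) = 0 := by
  have hWp : ∀ (n : ℕ) v, v ∈ W → (S ^ n) v ∈ W := by
    intro n
    induction n with
    | zero => simp
    | succ n ih => intro v hv; rw [pow_succ', Module.End.mul_apply]; exact hWS _ (ih v hv)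
  set j := K - i with hj
  set G : Matrix ι ι F := Matrix.of fun a b => B ((S ^ i) (x a)) (x b) with hG
  set σ : F := (-1) ^ j with hσ
  have hσ2 : σ * σ = 1 := by rw [hσ, ← mul_pow]; simp
  set T : Matrix ι ι F := (-(σ / 2)) • (H⁻¹ * G) with hT
  let x' : ι → V := fun a => x a + ∑ c, T c a • (S ^ j) (x c)
  have hhigh : ∀ n, K + 1 ≤ n → ∀ c, (S ^ n) (x c) = 0 := fun n hn c =>
    SympUnip.pow_eq_zero_of_le (hK _ (hx c)) hn
  have hexp : ∀ i', i ≤ i' → ∀ a b, B ((S ^ i') (x' a)) (x' b) = B ((S ^ i') (x a)) (x b) +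
      ((∑ c, T c a * B ((S ^ (i' + j)) (x c)) (x b)) +
        σ * ∑ d, B ((S ^ (i' + j)) (x a)) (x d) * T d b) := by
    intro i' hi' a b
    have hsig : ∀ u w, B u ((S ^ j) w) = σ * B ((S ^ j) u) w := fun u w => by
      rw [skew_pow hS j u w, ← mul_assoc, hσ2, one_mul]
    have hquad : ∀ c d, B ((S ^ (j + (i' + j))) (x c)) (x d) = 0 := fun c d => by
      rw [hhigh _ (by omega)]; simp
    simp only [x', map_add, map_sum, map_smul, LinearMap.add_apply, LinearMap.sum_apply,
      LinearMap.smul_apply, smul_eq_mul, hsig, ← pow_add_apply, hquad, mul_zero,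
      Finset.sum_const_zero, add_zero, Finset.mul_sum]
    rw [show j + i' = i' + j by omega]
    have e : ∀ d, T d b * (σ * B ((S ^ (i' + j)) (x a)) (x d)) =
        σ * (B ((S ^ (i' + j)) (x a)) (x d) * T d b) := fun d => by ring
    simp only [e]
    ring
  have hupper : ∀ i', i < i' → ∀ a b,
      B ((S ^ i') (x' a)) (x' b) = B ((S ^ i') (x a)) (x b) := by
    intro i' hi' a b
    rw [hexp i' hi'.le]
    simp [hhigh (i' + j) (by omega)]
  refine ⟨x', fun a => add_mem (hx a) (sum_mem fun c _ => Submodule.smul_mem _ _ (hWp j _ (hx c))),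
    fun a => ?_, fun a b => (hupper K hi a b).trans (hH a b), ?_⟩
  · simp only [x', map_add, map_sum, map_smul, ← pow_add_apply]
    rw [Finset.sum_eq_zero fun c _ => by rw [hhigh _ (by omega), smul_zero], add_zero]
  intro i' hi' hi'K a b
  rcases lt_or_eq_of_le hi' with h | rfl
  · rw [hupper i' h]; exact hz i' h hi'K a b
  rw [hexp i le_rfl]
  simp only [show i + j = K by omega, hH]
  have hHT : H * T = (-(σ / 2)) • G := by
    rw [hT, Matrix.mul_smul, ← Matrix.mul_assoc, Matrix.mul_nonsing_inv _ (Ne.isUnit hdet),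
      Matrix.one_mul]
  have hHt : H.transpose = ((-1 : F) ^ K) • H := by
    ext a b
    rw [Matrix.transpose_apply, Matrix.smul_apply, smul_eq_mul, ← hH, ← hH, swap_apply hA hS]
  have hGt : G.transpose = ((-1 : F) ^ i) • G := by
    ext a b
    rw [Matrix.transpose_apply, Matrix.smul_apply, smul_eq_mul]
    simp only [hG, Matrix.of_apply]
    rw [swap_apply hA hS]
  have hεε : (-1 : F) ^ K * (-1 : F) ^ K = 1 := by rw [← mul_pow]; simp
  have hTH : T.transpose * H = (-(σ / 2) * σ) • G := by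
    have e : T.transpose * H = ((-1 : F) ^ K) • (H * T).transpose := by
      rw [Matrix.transpose_mul, hHt, Matrix.mul_smul, smul_smul, hεε, one_smul]
    rw [e, hHT, Matrix.transpose_smul, hGt, smul_smul, smul_smul]
    congr 1
    rw [show (-1 : F) ^ K = (-1) ^ i * σ by
      rw [hσ, ← pow_add]; congr 1; omega]
    have : (-1 : F) ^ i * (-1 : F) ^ i = 1 := by rw [← mul_pow]; simp
    linear_combination -(σ / 2) * σ * this
  have h1 : (T.transpose * H) a b = ∑ c, T c a * H c b := rfl
  have h2' : (H * T) a b = ∑ d, H a d * T d b := rfl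
  rw [← h1, ← h2', hTH, hHT]
  simp only [hG, Matrix.smul_apply, Matrix.of_apply, smul_eq_mul]
  field_simp
  linear_combination (-(B ((S ^ i) (x a)) (x b))) * (hσ2) * 2

/-- Killing all the lower Gram matrices. -/
theorem exists_normal (hA : ∀ x y, B x y = B y x) (hS : IsSkew B S) (h2 : (2 : F) ≠ 0) {ι : Type} [Fintype ι]
    [DecidableEq ι] {K : ℕ} {W : Submodule F V} (hWS : ∀ v ∈ W, S v ∈ W)
    (hK : ∀ v ∈ W, (S ^ (K + 1)) v = 0) (x : ι → V) (hx : ∀ a, x a ∈ W) (H : Matrix ι ι F)
    (hH : ∀ a b, B ((S ^ K) (x a)) (x b) = H a b) (hdet : H.det ≠ 0) :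
    ∀ t, t ≤ K → ∃ x' : ι → V, (∀ a, x' a ∈ W) ∧ (∀ a, (S ^ K) (x' a) = (S ^ K) (x a)) ∧
      (∀ a b, B ((S ^ K) (x' a)) (x' b) = H a b) ∧
      ∀ i', K - t ≤ i' → i' < K → ∀ a b, B ((S ^ i') (x' a)) (x' b) = 0 := by
  intro t
  induction t with
  | zero => exact fun _ => ⟨x, hx, fun _ => rfl, hH, fun i' h h' => absurd h' (by omega)⟩
  | succ t ih =>
    intro ht
    obtain ⟨y, hy, hyS, hyH, hyz⟩ := ih (by omega)
    obtain ⟨z, hz, hzS, hzH, hzz⟩ := exists_step hA hS h2 (i := K - (t + 1)) (by omega) hWS hK y hy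
      H hyH hdet (fun i' h h' => hyz i' (by omega) h')
    exact ⟨z, hz, fun a => (hzS a).trans (hyS a), hzH, fun i' h h' => hzz i' h h'⟩

/-- The statement proved by induction on the nilpotency bound. -/
def HasChain (B : BilinForm F V) (S : Module.End F V) (W : Submodule F V) (K : ℕ) : Prop :=
  ∃ (ι : Type) (_ : Fintype ι) (k : ι → ℕ) (H : Matrix ι ι F) (x : ι → V),
    (∀ a, k a ≤ K) ∧ (∀ a, x a ∈ W) ∧ Datum k H ∧ Chain B S k H x ∧
      Submodule.span F (Set.range (vecs S k x)) = W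

theorem hasChain_sub [FiniteDimensional F V] (hA : ∀ x y, B x y = B y x) (hS : IsSkew B S) (h2 : (2 : F) ≠ 0) :
    ∀ (K : ℕ) (W : Submodule F V), (∀ v ∈ W, S v ∈ W) → (∀ v ∈ W, (S ^ K) v = 0) →
      (∀ v ∈ W, (∀ w ∈ W, B v w = 0) → v = 0) → HasChain B S W K := by
  classical
  intro K
  induction K with
  | zero =>
    intro W _ h0 _
    have hW : W = ⊥ := (Submodule.eq_bot_iff _).2 fun v hv => by simpa using h0 v hv
    refine ⟨PEmpty, inferInstance, fun e => e.elim, 0, fun e => e.elim, fun e => e.elim,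
      fun e => e.elim, ⟨fun e => e.elim, fun e => e.elim, fun y _ => funext fun e => e.elim⟩,
      ⟨fun e => e.elim, fun e => e.elim⟩, ?_⟩
    simp [hW]
  | succ K ih =>
    intro W hWS hK hnd
    have hWp : ∀ (n : ℕ) v, v ∈ W → (S ^ n) v ∈ W := by
      intro n
      induction n with
      | zero => simp
      | succ n ihn => intro v hv; rw [pow_succ', Module.End.mul_apply]; exact hWS _ (ihn v hv)
    -- a complement of the kernel of `S ^ K` in `W`
    let M : Submodule F W := (LinearMap.ker (S ^ K)).comap W.subtype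
    obtain ⟨C, hC⟩ := M.exists_isCompl
    let bC := Module.finBasis F C
    set r := Module.finrank F C
    let x₀ : Fin r → V := fun a => ((bC a : W) : V)
    have hx₀ : ∀ a, x₀ a ∈ W := fun a => (bC a : W).2
    have hdec : ∀ w ∈ W, ∃ c : Fin r → F, (S ^ K) w = ∑ a, c a • (S ^ K) (x₀ a) := by
      intro w hw
      have hm : (⟨w, hw⟩ : W) ∈ M ⊔ C := by rw [hC.sup_eq_top]; exact Submodule.mem_top
      obtain ⟨m, hm, c, hc, e⟩ := Submodule.mem_sup.1 hm
      refine ⟨fun a => bC.repr ⟨c, hc⟩ a, ?_⟩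
      have e' : (m : V) + (c : V) = w := congrArg Subtype.val e
      have ec : (c : V) = ∑ a, bC.repr ⟨c, hc⟩ a • x₀ a := by
        have h := congrArg (fun z : C => ((z : W) : V)) (bC.sum_repr ⟨c, hc⟩)
        simp only [Submodule.coe_sum, Submodule.coe_smul] at h
        exact h.symm
      rw [← e', map_add, show (S ^ K) (m : V) = 0 from hm, zero_add, ec]
      simp [map_sum]
    have hind : ∀ c : Fin r → F, ∑ a, c a • (S ^ K) (x₀ a) = 0 → c = 0 := by
      intro c hc
      have hmem : (∑ a, c a • (bC a : W)) ∈ M ⊓ C := by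
        refine ⟨?_, sum_mem fun a _ => C.smul_mem _ (bC a).2⟩
        simpa [M, x₀, map_sum] using hc
      rw [hC.inf_eq_bot, Submodule.mem_bot] at hmem
      have : ∑ a, c a • bC a = 0 := by
        apply Subtype.ext
        simpa [Submodule.coe_sum] using hmem
      exact funext (Fintype.linearIndependent_iff.1 bC.linearIndependent c this)
    set H₀ : Matrix (Fin r) (Fin r) F := Matrix.of fun a b => B ((S ^ K) (x₀ a)) (x₀ b) with hH₀
    have hdet : H₀.det ≠ 0 := by
      intro h0
      obtain ⟨c, hc0, hc⟩ := Matrix.exists_vecMul_eq_zero_iff.2 h0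
      apply hc0
      refine hind c ?_
      set v := ∑ a, c a • x₀ a with hv
      have hvW : v ∈ W := sum_mem fun a _ => W.smul_mem _ (hx₀ a)
      have hSv : (S ^ K) v = ∑ a, c a • (S ^ K) (x₀ a) := by simp [hv, map_sum]
      rw [← hSv]
      refine hnd _ (hWp K v hvW) fun w hw => ?_
      obtain ⟨d, hd⟩ := hdec w hw
      rw [skew_pow hS, hd]
      simp only [map_sum, map_smul, smul_eq_mul]
      rw [Finset.sum_eq_zero, mul_zero]
      intro b _
      have h1 : B v ((S ^ K) (x₀ b)) = (-1 : F) ^ K * B ((S ^ K) v) (x₀ b) := by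
        rw [skew_pow hS, ← mul_assoc, ← mul_pow]; simp
      have h2 : B ((S ^ K) v) (x₀ b) = 0 := by
        have := congrFun hc b
        simpa [hSv, H₀, Matrix.vecMul, dotProduct] using this
      rw [h1, h2, mul_zero, mul_zero]
    obtain ⟨x, hx, hxS, hxH, hxz⟩ := exists_normal hA hS h2 hWS hK x₀ hx₀ H₀ (fun a b => rfl) hdet
      K le_rfl
    have hD : Datum (fun _ : Fin r => K + 1) H₀ := by
      refine ⟨fun _ => by omega, fun a b h => absurd rfl h, fun y hy => ?_⟩
      exact Matrix.eq_zero_of_mulVec_eq_zero hdet hy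
    have hch : Chain B S (fun _ : Fin r => K + 1) H₀ x := by
      refine ⟨fun a => hK _ (hx a), fun a b i j hi hj => ?_⟩
      have e : B ((S ^ i) (x a)) ((S ^ j) (x b)) = (-1 : F) ^ j * B ((S ^ (i + j)) (x a)) (x b) := by
        rw [add_comm i j, pow_add_apply, skew_pow hS j, ← mul_assoc, ← mul_pow]; simp
      rw [e]
      split_ifs with h
      · rw [show i + j = K by omega, hxH]
      · rcases Nat.lt_or_ge (i + j) K with h' | h'
        · rw [hxz _ (by omega) h', mul_zero]
        · rw [SympUnip.pow_eq_zero_of_le (hK _ (hx a)) (by omega)]; simp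
    set U := Submodule.span F (Set.range (vecs S (fun _ : Fin r => K + 1) x)) with hU
    have hUW : U ≤ W := Submodule.span_le.2 (by rintro _ ⟨u, rfl⟩; exact hWp _ _ (hx _))
    let W' : Submodule F V := W ⊓ B.orthogonal U
    have hW' : ∀ v, v ∈ W' ↔ v ∈ W ∧ ∀ u ∈ U, B u v = 0 := fun v => Iff.rfl
    have hU0 : ∀ v ∈ U, (∀ u ∈ U, B u v = 0) → v = 0 := by
      intro v hv h
      obtain ⟨c, rfl⟩ := (Submodule.mem_span_range_iff_exists_fun F).1 hv
      have := hch.eq_zero hD c fun u => h _ (Submodule.subset_span ⟨u, rfl⟩)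
      simp [this]
    have hsplit : ∀ w ∈ W, ∃ u ∈ U, ∃ w' ∈ W', u + w' = w := by
      intro w hw
      have hGu : IsUnit (gram (fun _ : Fin r => K + 1) H₀) := by
        rw [← Matrix.mulVec_injective_iff_isUnit]
        intro a b hab
        exact sub_eq_zero.1 (hD.gram_inj _ (by rw [Matrix.mulVec_sub, hab, sub_self]))
      obtain ⟨c, hc⟩ := (Matrix.mulVec_surjective_iff_isUnit.2 hGu)
        (fun u => B (vecs S (fun _ : Fin r => K + 1) x u) w)
      set u₀ := ∑ t, c t • vecs S (fun _ : Fin r => K + 1) x t with hu₀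
      have hu₀U : u₀ ∈ U := sum_mem fun t _ => U.smul_mem _ (Submodule.subset_span ⟨t, rfl⟩)
      refine ⟨u₀, hu₀U, w - u₀, (hW' _).2 ⟨sub_mem hw (hUW hu₀U), fun u hu => ?_⟩, by abel⟩
      induction hu using Submodule.span_induction with
      | mem u hu =>
        obtain ⟨t, rfl⟩ := hu
        have := congrFun hc t
        rw [map_sub, sub_eq_zero, ← this]
        simp only [hu₀, map_sum, map_smul, hch.vecs_gram, smul_eq_mul, Matrix.mulVec, dotProduct,
          mul_comm]
      | zero => simp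
      | add u v _ _ h1 h2 => simp only [map_add, LinearMap.add_apply, h1, h2, add_zero]
      | smul a u _ h1 => simp only [map_smul, LinearMap.smul_apply, h1, smul_zero]
    have hW'S : ∀ v ∈ W', S v ∈ W' := by
      intro v hv
      refine (hW' _).2 ⟨hWS _ ((hW' v).1 hv).1, fun u hu => ?_⟩
      have h1 := ((hW' v).1 hv).2 _ (hch.apply_mem_span hu)
      rw [hS] at h1
      simpa using h1
    have hUpow : ∀ (n : ℕ) v, v ∈ U → (S ^ n) v ∈ U := by
      intro n
      induction n with
      | zero => simp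
      | succ n ihn =>
        intro v hv; rw [pow_succ', Module.End.mul_apply]; exact hch.apply_mem_span (ihn v hv)
    have hW'pow : ∀ (n : ℕ) v, v ∈ W' → (S ^ n) v ∈ W' := by
      intro n
      induction n with
      | zero => simp
      | succ n ihn => intro v hv; rw [pow_succ', Module.End.mul_apply]; exact hW'S _ (ihn v hv)
    have hK' : ∀ v ∈ W', (S ^ K) v = 0 := by
      intro v hv
      obtain ⟨c, hc⟩ := hdec v ((hW' v).1 hv).1
      refine hU0 _ ?_ ((hW' _).1 (hW'pow K v hv)).2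
      rw [hc]
      refine sum_mem fun a _ => U.smul_mem _ ?_
      rw [← hxS]
      exact hUpow K _ (Submodule.subset_span ⟨⟨a, ⟨0, Nat.succ_pos K⟩⟩, by simp [vecs]⟩)
    have hnd' : ∀ v ∈ W', (∀ w ∈ W', B v w = 0) → v = 0 := by
      intro v hv h
      refine hnd v ((hW' v).1 hv).1 fun w hw => ?_
      obtain ⟨u, hu, w', hw', rfl⟩ := hsplit w hw
      rw [map_add, h w' hw', add_zero, hA v u, ((hW' v).1 hv).2 u hu]
    obtain ⟨ι', inst, k', H', x', hk', hx', hD', hch', hsp'⟩ := ih W' hW'S hK' hnd'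
    refine ⟨Fin r ⊕ ι', inferInstance, Sum.elim (fun _ => K + 1) k', Matrix.fromBlocks H₀ 0 0 H',
      Sum.elim x x', ?_, ?_, ⟨?_, ?_, ?_⟩, ⟨?_, ?_⟩, ?_⟩
    · rintro (a | a)
      · exact le_rfl
      · exact (hk' a).trans (by omega)
    · rintro (a | a)
      · exact hx a
      · exact ((hW' _).1 (hx' a)).1
    · rintro (a | a)
      · simp
      · exact hD'.pos a
    · rintro (a | a) (b | b) h
      · exact absurd rfl h
      · rfl
      · rfl
      · exact hD'.blocks a b h
    · intro y hy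
      rw [Matrix.fromBlocks_mulVec] at hy
      have e1 : H₀.mulVec (y ∘ Sum.inl) = 0 := funext fun a => by
        have := congrFun hy (Sum.inl a); simpa using this
      have e2 : H'.mulVec (y ∘ Sum.inr) = 0 := funext fun a => by
        have := congrFun hy (Sum.inr a); simpa using this
      have f1 := hD.inj _ e1
      have f2 := hD'.inj _ e2
      funext s
      rcases s with a | a
      · exact congrFun f1 a
      · exact congrFun f2 a
    · rintro (a | a)
      · exact hch.nil a
      · exact hch'.nil a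
    · rintro (a | a) (b | b) i j hi hj
      · exact hch.gram_eq a b i j hi hj
      · have : B ((S ^ i) (x a)) ((S ^ j) (x' b)) = 0 :=
          ((hW' _).1 (hW'pow j _ (hx' b))).2 _
            (Submodule.subset_span ⟨⟨a, ⟨i, hi⟩⟩, rfl⟩)
        simp [this]
      · have : B ((S ^ i) (x' a)) ((S ^ j) (x b)) = 0 := by
          rw [hA, ((hW' _).1 (hW'pow i _ (hx' a))).2 _
            (Submodule.subset_span ⟨⟨b, ⟨j, hj⟩⟩, rfl⟩ :
              (S ^ j) (x b) ∈ U)]
        simp [this]
      · exact hch'.gram_eq a b i j hi hj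
    · refine le_antisymm (Submodule.span_le.2 ?_) fun w hw => ?_
      · rintro _ ⟨⟨a | a, j⟩, rfl⟩
        · exact hWp _ _ (hx a)
        · exact hWp _ _ ((hW' _).1 (hx' a)).1
      · obtain ⟨u, hu, w', hw', rfl⟩ := hsplit w hw
        refine add_mem (Submodule.span_mono ?_ hu) (Submodule.span_mono ?_ (hsp'.symm ▸ hw'))
        · rintro _ ⟨⟨a, j⟩, rfl⟩; exact ⟨⟨Sum.inl a, j⟩, rfl⟩
        · rintro _ ⟨⟨a, j⟩, rfl⟩; exact ⟨⟨Sum.inr a, j⟩, rfl⟩

/-- Every skew nilpotent operator has a spanning chain. -/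
theorem hasChain [FiniteDimensional F V] (hA : ∀ x y, B x y = B y x) (hB : B.Nondegenerate) (hS : IsSkew B S)
    (h2 : (2 : F) ≠ 0) {N : ℕ} (hN : S ^ N = 0) : HasChain B S ⊤ N :=
  hasChain_sub hA hS h2 N ⊤ (fun _ _ => trivial) (fun v _ => by rw [hN]; rfl)
    fun v _ h => hB.1 v fun w => h w trivial

end Cfsg.Agent.OClassCount
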