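import Cfsg.Agent.SemiSymp.Classes
import Cfsg.Agent.GraphForms.Symm
import Cfsg.Agent.Classical.OrthBasic
import Cfsg.Agent.Forms.Orthogonal

/-! Lower bounds for the number of classes of an orthogonal group, `q` odd (owner: helper23). -/

set_option autoImplicit false
set_option linter.unusedSectionVars false
set_option linter.style.haveILetI false

namespace Cfsg.Agent.OClassCount

open Polynomial
open Cfsg.Agent.SemiSymp (lift lift_injective charpoly_twisted)
open Cfsg.Agent.Classical (OQ)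

variable {F : Type*} [Field F]

theorem exists_gamma [Finite F] {n : ℕ} (h : F[X]) (hm : h.Monic) (hd : h.natDegree = n) :
    ∃ Γ Y : Matrix (Fin n) (Fin n) F, Γ.transpose = Γ ∧ IsUnit Γ.det ∧ Γ * Y = Y.transpose * Γ ∧ Y.charpoly = h := by
  classical
  subst hd
  let pb := AdjoinRoot.powerBasis hm.ne_zero
  obtain ⟨b⟩ : Nonempty (Module.Basis (Fin h.natDegree) F (AdjoinRoot h)) := ⟨pb.basis.reindex (finCongr rfl)⟩
  let μ : AdjoinRoot h →ₗ[F] F := (Polynomial.lcoeff F (h.natDegree - 1)).comp (AdjoinRoot.modByMonicHom hm)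
  let Γ : Matrix (Fin h.natDegree) (Fin h.natDegree) F := Matrix.of fun i j => μ (b i * b j)
  let Y := Algebra.leftMulMatrix b (AdjoinRoot.root h)
  have hΓt : Γ.transpose = Γ := by ext i j; simp [Γ, mul_comm]
  have hΓa : ∀ i j, Γ i j = μ (b i * b j) := fun i j => rfl
  have hright : ∀ (z y : AdjoinRoot h), ∑ k, μ (z * b k) * b.repr y k = μ (z * y) := fun z y => by
    conv_rhs => rw [← b.sum_repr y, Finset.mul_sum, map_sum]
    exact Finset.sum_congr rfl fun k _ => by rw [mul_smul_comm, map_smul, smul_eq_mul, mul_comm]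
  have hΓY : Γ * Y = Y.transpose * Γ := by
    ext i j
    simp only [Matrix.mul_apply, Matrix.transpose_apply, hΓa, Y, Algebra.leftMulMatrix_eq_repr_mul]
    rw [hright, show ∑ k, b.repr (AdjoinRoot.root h * b i) k * μ (b k * b j) =
      ∑ k, μ (b j * b k) * b.repr (AdjoinRoot.root h * b i) k from
        Finset.sum_congr rfl fun k _ => by rw [mul_comm (b j), mul_comm], hright]
    congr 1
    ring
  have hnd : ∀ a : AdjoinRoot h, (∀ c, μ (a * c) = 0) → a = 0 := by
    intro a ha
    obtain ⟨g, rfl⟩ := AdjoinRoot.mk_surjective a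
    rw [← AdjoinRoot.mk_leftInverse hm (AdjoinRoot.mk h g), AdjoinRoot.modByMonicHom_mk]
    by_contra hne
    have hg : g %ₘ h ≠ 0 := fun e => hne (by rw [e, map_zero])
    have hlt : (g %ₘ h).natDegree < h.natDegree :=
      Polynomial.natDegree_lt_natDegree hg (Polynomial.degree_modByMonic_lt g hm)
    set r := g %ₘ h with hr
    have hmk : AdjoinRoot.mk h g = AdjoinRoot.mk h r := by
      rw [hr, ← AdjoinRoot.modByMonicHom_mk hm g, AdjoinRoot.mk_leftInverse hm]
    have h0 := ha (AdjoinRoot.mk h (X ^ (h.natDegree - 1 - r.natDegree)))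
    rw [hmk, ← map_mul] at h0
    simp only [μ, LinearMap.comp_apply, AdjoinRoot.modByMonicHom_mk, lcoeff_apply] at h0
    rw [(modByMonic_eq_self_iff hm).2 (by
        rw [degree_mul, degree_X_pow, degree_eq_natDegree hm.ne_zero, degree_eq_natDegree hg]
        exact_mod_cast (show r.natDegree + (h.natDegree - 1 - r.natDegree) < h.natDegree by omega)),
      coeff_mul_X_pow', if_pos (by omega),
      show h.natDegree - 1 - (h.natDegree - 1 - r.natDegree) = r.natDegree by omega] at h0
    exact hg (leadingCoeff_eq_zero.1 h0)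
  have hΓu : IsUnit Γ := by
    rw [← Matrix.mulVec_injective_iff_isUnit]
    intro v w hvw
    have h' : Γ.mulVec (v - w) = 0 := by rw [Matrix.mulVec_sub, hvw, sub_self]
    refine sub_eq_zero.1 ?_
    set y := b.equivFun.symm (v - w) with hy
    have hrep : ∀ k, b.repr y k = (v - w) k := fun k => by
      rw [hy, ← b.equivFun_apply, LinearEquiv.apply_symm_apply]
    have hy0 : y = 0 := by
      refine hnd y fun c => ?_
      have hb : ∀ i, μ (b i * y) = 0 := fun i => by
        rw [← hright]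
        have := congrFun h' i
        simp only [Matrix.mulVec, dotProduct, Pi.zero_apply] at this
        simpa [hΓa, hrep] using this
      rw [mul_comm, ← b.sum_repr c, Finset.sum_mul, map_sum]
      exact Finset.sum_eq_zero fun k _ => by rw [smul_mul_assoc, map_smul, hb, smul_zero]
    funext k
    rw [← hrep, hy0]
    simp
  have hΓd : IsUnit Γ.det := (Matrix.isUnit_iff_isUnit_det Γ).1 hΓu
  refine ⟨Γ, Y, hΓt, hΓd, hΓY, ?_⟩
  have hgen := charpoly_leftMulMatrix pb
  rw [AdjoinRoot.minpoly_powerBasis_gen_of_monic hm] at hgen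
  haveI : Module.Finite F (AdjoinRoot h) := hm.finite_adjoinRoot
  rw [show Y.charpoly = (Algebra.lmul F (AdjoinRoot h) (AdjoinRoot.root h)).charpoly from
    LinearMap.charpoly_toMatrix _ b]
  exact (LinearMap.charpoly_toMatrix _ pb.basis).symm.trans hgen

theorem lift_spec (n : ℕ) {h : F[X]} (hd : h.natDegree ≤ n) :
    algebraMap F[X] (FractionRing F[X]) (lift n h) =
      (algebraMap F[X] (FractionRing F[X]) X) ^ n * h.eval₂ ((algebraMap F[X] (FractionRing F[X])).comp C)
        (((algebraMap F[X] (FractionRing F[X]) X) ^ 2 + 1) / algebraMap F[X] (FractionRing F[X]) X) := by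
  set x := algebraMap F[X] (FractionRing F[X]) X with hx
  have hx0 : x ≠ 0 := fun e => X_ne_zero (IsFractionRing.injective F[X] (FractionRing F[X]) (e.trans (map_zero _).symm))
  rw [eval₂_eq_sum_range' _ (Nat.lt_succ_of_le hd), lift, Finset.mul_sum, map_sum]
  refine Finset.sum_congr rfl fun k hk => ?_
  have hk' : k ≤ n := Nat.le_of_lt_succ (Finset.mem_range.1 hk)
  rw [map_mul, map_mul, map_pow, map_pow, map_add, map_one, map_pow, RingHom.comp_apply, ← hx, div_pow]
  have e : x ^ n = x ^ (n - k) * x ^ k := by rw [← pow_add, Nat.sub_add_cancel hk']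
  rw [e]
  field_simp

theorem lift_mul {a b : ℕ} {h k : F[X]} (hh : h.natDegree ≤ a) (hk : k.natDegree ≤ b) :
    lift (a + b) (h * k) = lift a h * lift b k := by
  apply IsFractionRing.injective F[X] (FractionRing F[X])
  rw [map_mul, lift_spec _ (natDegree_mul_le.trans (Nat.add_le_add hh hk)), lift_spec _ hh, lift_spec _ hk,
    eval₂_mul, pow_add]
  ring

theorem lift_zero_one : lift (F := F) 0 1 = 1 := by simp [lift]

theorem lift_pow_linear {s : F} (hs : s * s = 1) : ∀ k : ℕ, lift k ((X - C (2 * s)) ^ k) = (X - C s) ^ (2 * k)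
  | 0 => by rw [pow_zero, lift_zero_one, pow_zero]
  | k + 1 => by
    have h1 : lift 1 (X - C (2 * s)) = (X - C s) ^ 2 := by
      have e : C s * C s = (1 : F[X]) := by rw [← C_mul, hs, C_1]
      have c0 : (X - C (2 * s)).coeff 0 = -(2 * s) := by rw [coeff_sub, coeff_X_zero, coeff_C_zero, zero_sub]
      have c1 : (X - C (2 * s)).coeff 1 = 1 := by rw [coeff_sub, coeff_X_one, coeff_C, if_neg one_ne_zero, sub_zero]
      simp only [lift, Finset.sum_range_succ, Finset.sum_range_zero]
      rw [c0, c1]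
      simp only [map_neg, map_one, map_mul, map_ofNat]
      linear_combination -e
    rw [pow_succ, lift_mul (natDegree_pow_le.trans (by rw [natDegree_X_sub_C, mul_one])) (natDegree_X_sub_C _).le,
      lift_pow_linear hs k, h1, mul_add, mul_one, pow_add]

theorem lift_coeff_zero {n : ℕ} {h : F[X]} (hm : h.Monic) (hd : h.natDegree = n) : (lift n h).coeff 0 = 1 := by
  rw [lift, finsetSum_coeff, Finset.sum_eq_single n]
  · have : h.coeff n = 1 := hd ▸ hm.coeff_natDegree
    simp [this, coeff_zero_eq_eval_zero]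
  · intro k hk hkn
    rw [coeff_zero_eq_eval_zero]
    have : 1 ≤ n - k := by have := Finset.mem_range.1 hk; omega
    simp [show n - k ≠ 0 by omega]
  · exact fun h => absurd (Finset.self_mem_range_succ n) h

theorem exists_block [Finite F] (e : ℕ) (h₀ : F[X]) (hm : h₀.Monic) (hd : h₀.natDegree = e) :
    ∃ G g : Matrix (Fin e ⊕ Fin e) (Fin e ⊕ Fin e) F, G.transpose = G ∧ g.transpose * G * g = G ∧
      g.charpoly = lift e h₀ ∧ g.det = 1 ∧
      ∃ u : F, u ≠ 0 ∧ G.det = u * u * ((-1) ^ e * (h₀.eval 2 * h₀.eval (-2))) := by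
  obtain ⟨Γ, Y, hΓt, hΓd, hΓY, hY⟩ := exists_gamma h₀ hm hd
  have hYt : Y.transpose * Γ = Γ * Y := hΓY.symm
  have hs : (Γ * Y).transpose = Γ * Y := by rw [Matrix.transpose_mul, hΓt, hYt]
  have hcp : (Matrix.fromBlocks (0 : Matrix (Fin e) (Fin e) F) (-1) 1 Y).charpoly = lift e h₀ := by
    rw [charpoly_twisted, hY]
  refine ⟨Matrix.fromBlocks ((2 : F) • Γ) (Γ * Y) (Γ * Y) ((2 : F) • Γ), Matrix.fromBlocks 0 (-1) 1 Y,
    ?_, ?_, hcp, ?_, Γ.det, hΓd.ne_zero, ?_⟩
  · rw [Matrix.fromBlocks_transpose, Matrix.transpose_smul, hΓt, hs]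
  · have h1 : Y.transpose * (Γ * Y) = Γ * Y * Y := by rw [← mul_assoc, hYt]
    rw [Matrix.fromBlocks_transpose, Matrix.fromBlocks_multiply, Matrix.fromBlocks_multiply]
    simp only [Matrix.transpose_zero, Matrix.transpose_neg, Matrix.transpose_one, Matrix.zero_mul, Matrix.one_mul,
      Matrix.mul_zero, Matrix.mul_one, Matrix.neg_mul, Matrix.mul_neg, zero_add, add_zero, Matrix.smul_mul,
      Matrix.mul_smul, h1, hYt, add_mul]
    congr 1 <;> simp only [two_smul] <;> abel
  · have h := Matrix.det_eq_sign_charpoly_coeff (Matrix.fromBlocks (0 : Matrix (Fin e) (Fin e) F) (-1) 1 Y)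
    rw [hcp, lift_coeff_zero hm hd, mul_one, Fintype.card_sum, Fintype.card_fin, ← two_mul, pow_mul] at h
    rw [h]
    simp
  · have hsplit : Matrix.fromBlocks ((2 : F) • Γ) (Γ * Y) (Γ * Y) ((2 : F) • Γ) =
        Matrix.fromBlocks Γ 0 0 Γ * Matrix.fromBlocks ((2 : F) • 1) Y Y ((2 : F) • 1) := by
      rw [Matrix.fromBlocks_multiply]
      simp
    have hred : Matrix.fromBlocks (1 : Matrix (Fin e) (Fin e) F) 0 (-1) 1 *
        Matrix.fromBlocks ((2 : F) • 1) Y Y ((2 : F) • 1) * Matrix.fromBlocks 1 0 1 1 =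
          Matrix.fromBlocks ((2 : F) • 1 + Y) Y 0 ((2 : F) • 1 - Y) := by
      rw [Matrix.fromBlocks_multiply, Matrix.fromBlocks_multiply]
      congr 1 <;> simp <;> abel
    have hdet := congrArg Matrix.det hred
    rw [Matrix.det_mul, Matrix.det_mul, Matrix.det_fromBlocks_zero₁₂, Matrix.det_fromBlocks_zero₁₂,
      Matrix.det_fromBlocks_zero₂₁, Matrix.det_one, one_mul, one_mul, mul_one] at hdet
    have e1 : ((2 : F) • (1 : Matrix (Fin e) (Fin e) F) - Y).det = h₀.eval 2 := by
      rw [← hY, Matrix.eval_charpoly, Matrix.scalar_apply, Matrix.smul_one_eq_diagonal]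
    have e2 : ((2 : F) • (1 : Matrix (Fin e) (Fin e) F) + Y).det = (-1) ^ e * h₀.eval (-2) := by
      have e' : (2 : F) • (1 : Matrix (Fin e) (Fin e) F) + Y =
          -(Matrix.scalar (Fin e) (-2 : F) - Y) := by
        rw [Matrix.scalar_apply, ← Matrix.smul_one_eq_diagonal, neg_smul]
        abel
      rw [← hY, Matrix.eval_charpoly, e', Matrix.det_neg, Fintype.card_fin]
    rw [hsplit, Matrix.det_mul, Matrix.det_fromBlocks_zero₂₁, hdet, e1, e2]
    ring

/-- An element of determinant one with a prescribed characteristic polynomial. -/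
theorem exists_elem [Finite F] (h2 : (2 : F) ≠ 0) {N n t : ℕ} (hN : N = 2 * n + t) {M : Matrix (Fin N) (Fin N) F}
    (hM : M.transpose = M) (hMd : M.det ≠ 0) (h : F[X]) (hm : h.Monic) (hd : h.natDegree = n)
    (hgood : h.eval 2 = 0 ∨ h.eval (-2) = 0 ∨ 0 < t ∨ IsSquare (M.det * ((-1) ^ n * (h.eval 2 * h.eval (-2))))) :
    ∃ T : OQ (GraphForms.toQF M), LinearMap.charpoly ((T : (Fin N → F) ≃ₗ[F] (Fin N → F)) : (Fin N → F) →ₗ[F] Fin N → F) =
      lift n h * (X - C 1) ^ t ∧
      LinearMap.det ((T : (Fin N → F) ≃ₗ[F] (Fin N → F)) : (Fin N → F) →ₗ[F] Fin N → F) = 1 := by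
  classical
  have hne : (2 : F) ≠ -2 := fun e => h2 ((mul_eq_zero.1 (show (2 : F) * 2 = 0 by linear_combination e)).elim id id)
  obtain ⟨h₁, hh₁, hn1⟩ := exists_eq_pow_rootMultiplicity_mul_and_not_dvd h hm.ne_zero 2
  set a := h.rootMultiplicity 2
  have hh₁0 : h₁ ≠ 0 := fun e => hm.ne_zero (by rw [hh₁, e, mul_zero])
  obtain ⟨h₀, hh₀, hn2⟩ := exists_eq_pow_rootMultiplicity_mul_and_not_dvd h₁ hh₁0 (-2)
  set b := h₁.rootMultiplicity (-2)
  have hhe : h = (X - C 2) ^ a * (X - C (-2)) ^ b * h₀ := by rw [mul_assoc, ← hh₀, ← hh₁]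
  have hm₀ : h₀.Monic := by
    rw [hhe] at hm
    exact (((monic_X_sub_C 2).pow a).mul ((monic_X_sub_C (-2)).pow b)).of_mul_monic_left hm
  have hev1 : h₀.eval 2 ≠ 0 := fun e => hn1 (by rw [hh₀]; exact dvd_mul_of_dvd_right (dvd_iff_isRoot.2 e) _)
  have hev2 : h₀.eval (-2) ≠ 0 := fun e => hn2 (dvd_iff_isRoot.2 e)
  set e := h₀.natDegree with he
  have hdeg : n = a + b + e := by
    rw [← hd, hhe, (((monic_X_sub_C 2).pow a).mul ((monic_X_sub_C (-2)).pow b)).natDegree_mul hm₀,
      ((monic_X_sub_C 2).pow a).natDegree_mul ((monic_X_sub_C (-2)).pow b), natDegree_pow, natDegree_pow,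
      natDegree_X_sub_C, natDegree_X_sub_C, ← he]
    ring
  obtain ⟨G₀, g₀, hG₀, hg₀, hcp₀, hdg₀, u, hu, hdG₀⟩ := exists_block e h₀ hm₀ rfl
  let ρ := Fin (2 * a + t) ⊕ Fin (2 * b)
  let δ : ρ → F := Sum.elim (fun _ => 1) (fun _ => -1)
  have hdel : ∀ i, δ i * δ i = 1 := by rintro (i | i) <;> simp [δ]
  obtain ⟨c, hc, hsq⟩ : ∃ c : ρ → F, (∀ i, c i ≠ 0) ∧ IsSquare (G₀.det * (∏ i, c i) * M.det) := by
    have hG0 : G₀.det ≠ 0 := by
      rw [hdG₀]
      exact mul_ne_zero (mul_ne_zero hu hu) (mul_ne_zero (pow_ne_zero _ (by simp)) (mul_ne_zero hev1 hev2))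
    by_cases hρ : Nonempty ρ
    · obtain ⟨i₀⟩ := hρ
      refine ⟨fun i => if i = i₀ then G₀.det * M.det else 1, fun i => ?_, G₀.det * M.det, ?_⟩
      · dsimp only
        split_ifs
        · exact mul_ne_zero hG0 hMd
        · exact one_ne_zero
      · rw [Fintype.prod_ite_eq']
        ring
    · haveI : IsEmpty ρ := not_nonempty_iff.1 hρ
      have h0 : 2 * a + t = 0 ∧ 2 * b = 0 := by
        have h1 : Fintype.card ρ = 0 := Fintype.card_eq_zero
        simp only [ρ, Fintype.card_sum, Fintype.card_fin] at h1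
        omega
      have ha0 : a = 0 := by omega
      have hb0 : b = 0 := by omega
      rw [ha0, hb0, pow_zero, pow_zero, one_mul, one_mul] at hhe
      rw [hhe] at hgood
      refine ⟨fun i => isEmptyElim i, fun i => isEmptyElim i, ?_⟩
      rcases hgood with h | h | h | h
      · exact absurd h hev1
      · exact absurd h hev2
      · omega
      · obtain ⟨r, hr⟩ := h
        refine ⟨u * r, ?_⟩
        rw [Finset.prod_of_isEmpty, hdG₀, mul_one, show e = n by omega]
        linear_combination (u * u) * hr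
  let G := Matrix.fromBlocks G₀ 0 0 (Matrix.diagonal c)
  let g := Matrix.fromBlocks g₀ 0 0 (Matrix.diagonal δ)
  let ε : (Fin e ⊕ Fin e) ⊕ ρ ≃ Fin N := Fintype.equivFinOfCardEq (by
    simp only [ρ, Fintype.card_sum, Fintype.card_fin]
    omega)
  obtain ⟨P, hP⟩ := GraphForms.exists_congr_of_isSquare h2 (A := Matrix.reindex ε ε G) (B := M)
    (by rw [Matrix.transpose_reindex, Matrix.fromBlocks_transpose, hG₀, Matrix.diagonal_transpose, Matrix.transpose_zero, Matrix.transpose_zero])
    hM (by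
      rw [Matrix.det_reindex_self, Matrix.det_fromBlocks_zero₂₁, Matrix.det_diagonal]
      refine mul_ne_zero ?_ (Finset.prod_ne_zero_iff.2 fun i _ => hc i)
      rw [hdG₀]
      exact mul_ne_zero (mul_ne_zero hu hu) (mul_ne_zero (pow_ne_zero _ (by simp)) (mul_ne_zero hev1 hev2)))
    hMd (by rw [Matrix.det_reindex_self, Matrix.det_fromBlocks_zero₂₁, Matrix.det_diagonal]; exact hsq)
  have hg : g.transpose * G * g = G := by
    simp only [g, G, Matrix.fromBlocks_transpose, Matrix.fromBlocks_multiply, Matrix.transpose_zero,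
      Matrix.diagonal_transpose, Matrix.mul_zero, Matrix.zero_mul, add_zero, zero_add, hg₀, Matrix.diagonal_mul_diagonal]
    congr 1
    congr 1
    funext i
    rw [mul_right_comm, hdel, one_mul]
  have hdetg : g.det = 1 := by
    rw [Matrix.det_fromBlocks_zero₂₁, hdg₀, Matrix.det_diagonal, Fintype.prod_sum_type]
    simp [δ, pow_mul]
  have hgu : IsUnit (Matrix.reindex ε ε g).det := by rw [Matrix.det_reindex_self, hdetg]; exact isUnit_one
  let X₀ : GL (Fin N) F := P * Matrix.nonsingInvUnit _ hgu * P⁻¹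
  have hX : (X₀ : Matrix (Fin N) (Fin N) F).transpose * M * (X₀ : Matrix (Fin N) (Fin N) F) = M := by
    have hgr : (Matrix.reindex ε ε g).transpose * Matrix.reindex ε ε G * Matrix.reindex ε ε g = Matrix.reindex ε ε G := by
      simp only [Matrix.reindex_apply, Matrix.transpose_submatrix, Matrix.submatrix_mul_equiv, hg]
    have hPi : (P : Matrix (Fin N) (Fin N) F) * (↑P⁻¹ : Matrix (Fin N) (Fin N) F) = 1 := P.mul_inv
    have e1 : (↑P⁻¹ : Matrix (Fin N) (Fin N) F).transpose * (P : Matrix (Fin N) (Fin N) F).transpose = 1 := by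
      rw [← Matrix.transpose_mul, hPi, Matrix.transpose_one]
    simp only [X₀, Units.val_mul, Matrix.transpose_mul]
    calc _ = (↑P⁻¹ : Matrix (Fin N) (Fin N) F).transpose * ((Matrix.reindex ε ε g).transpose *
          ((P : Matrix (Fin N) (Fin N) F).transpose * M * P) * Matrix.reindex ε ε g) * ↑P⁻¹ := by
          simp only [mul_assoc]; rfl
      _ = (↑P⁻¹ : Matrix (Fin N) (Fin N) F).transpose * ((P : Matrix (Fin N) (Fin N) F).transpose * M * P) * ↑P⁻¹ := by
          rw [hP, hgr]
      _ = M := by simp only [mul_assoc, hPi, mul_one]; rw [← mul_assoc, e1, one_mul]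
  let T : (Fin N → F) ≃ₗ[F] (Fin N → F) :=
    (Matrix.GeneralLinearGroup.toLin.trans (LinearMap.GeneralLinearGroup.generalLinearEquiv F _)) X₀
  have hTv : ∀ v, T v = (X₀ : Matrix (Fin N) (Fin N) F).mulVec v := fun v => rfl
  refine ⟨⟨T, fun v => ?_⟩, ?_, ?_⟩
  · rw [hTv, GraphForms.toQF_apply, GraphForms.toQF_apply, Matrix.mulVec_mulVec,
      ← Matrix.vecMul_transpose, Matrix.dotProduct_mulVec, Matrix.vecMul_vecMul, ← mul_assoc, hX, ← Matrix.dotProduct_mulVec]
  · rw [show (T : (Fin N → F) →ₗ[F] Fin N → F) = Matrix.toLin' (X₀ : Matrix (Fin N) (Fin N) F) from LinearMap.ext hTv,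
      Matrix.charpoly_toLin']
    simp only [X₀, Units.val_mul, Matrix.coe_units_inv]
    rw [Matrix.charpoly_units_conj]
    show (Matrix.reindex ε ε g).charpoly = _
    rw [Matrix.charpoly_reindex, Matrix.charpoly_fromBlocks_zero₂₁, hcp₀, Matrix.charpoly_diagonal, Fintype.prod_sum_type]
    have h2a : lift a ((X - C (2 : F)) ^ a) = (X - C 1) ^ (2 * a) := by
      simpa using lift_pow_linear (one_mul (1 : F)) a
    have h2b : lift b ((X - C (-2 : F)) ^ b) = (X - C (-1)) ^ (2 * b) := by
      have := lift_pow_linear (show (-1 : F) * -1 = 1 by ring) b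
      rwa [mul_neg_one] at this
    have hna : ((X - C (2 : F)) ^ a).natDegree ≤ a := natDegree_pow_le.trans (by rw [natDegree_X_sub_C, mul_one])
    have hnb : ((X - C (-2 : F)) ^ b).natDegree ≤ b := natDegree_pow_le.trans (by rw [natDegree_X_sub_C, mul_one])
    rw [hhe, hdeg, lift_mul (natDegree_mul_le.trans (Nat.add_le_add hna hnb)) le_rfl, lift_mul hna hnb, h2a, h2b]
    simp only [δ, Sum.elim_inl, Sum.elim_inr, Finset.prod_const, Finset.card_univ, Fintype.card_fin]
    ring
  · rw [show (T : (Fin N → F) →ₗ[F] Fin N → F) = Matrix.toLin' (X₀ : Matrix (Fin N) (Fin N) F) from LinearMap.ext hTv,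
      LinearMap.det_toLin']
    simp only [X₀, Units.val_mul]
    rw [Matrix.det_units_conj]
    show (Matrix.reindex ε ε g).det = 1
    rw [Matrix.det_reindex_self, hdetg]

/-- Monic polynomials of a degree. -/
abbrev MP (F : Type*) [Field F] (n : ℕ) : Type _ := {h : F[X] // h.Monic ∧ h.natDegree = n}

theorem card_mp [Fintype F] (n : ℕ) : Finite (MP F n) ∧ Fintype.card F ^ n ≤ Nat.card (MP F n) := by
  classical
  have hfin : Finite (MP F n) := by
    refine Finite.of_injective (fun (h : MP F n) (i : Fin (n + 1)) => h.1.coeff i) fun h h' e => ?_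
    refine Subtype.ext (Polynomial.ext fun i => ?_)
    rcases Nat.lt_or_ge i (n + 1) with hi | hi
    · exact congrFun e ⟨i, hi⟩
    · rw [coeff_eq_zero_of_natDegree_lt (by rw [h.2.2]; omega), coeff_eq_zero_of_natDegree_lt (by rw [h'.2.2]; omega)]
  refine ⟨hfin, ?_⟩
  let f : (Fin n → F) → MP F n := fun c => ⟨X ^ n + ∑ i : Fin n, C (c i) * X ^ (i : ℕ),
    monic_X_pow_add (degree_sum_fin_lt _), natDegree_eq_of_degree_eq_some (by
      rw [degree_add_eq_left_of_degree_lt (by rw [degree_X_pow]; exact degree_sum_fin_lt _), degree_X_pow])⟩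
  have hf : Function.Injective f := by
    intro c c' h
    funext i
    have h4 := congrArg (fun f : MP F n => f.1.coeff (i : ℕ)) h
    simp only [f, coeff_add, coeff_X_pow, if_neg i.2.ne, zero_add, finsetSum_coeff, coeff_C_mul_X_pow,
      Fin.val_inj, Finset.sum_ite_eq, Finset.mem_univ, if_true] at h4
    exact h4
  refine le_trans (le_of_eq ?_) (Nat.card_le_card_of_injective f hf)
  rw [Nat.card_fun, Nat.card_fin, Nat.card_eq_fintype_card]

/-- At least half of the monic polynomials have a prescribed class of values. -/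
theorem half_le [Fintype F] (h2 : (2 : F) ≠ 0) {n : ℕ} (hn : 2 ≤ n) {d : F} (hd : d ≠ 0) :
    Fintype.card F ^ n ≤ 2 * Nat.card {h : MP F n //
      h.1.eval 2 = 0 ∨ h.1.eval (-2) = 0 ∨ IsSquare (d * (h.1.eval 2 * h.1.eval (-2)))} := by
  classical
  obtain ⟨hfin, hle⟩ := card_mp (F := F) n
  haveI := hfin
  obtain ⟨ν, hν⟩ := FiniteField.exists_nonsquare (F := F) (fun h => h2 (by
    have := CharP.cast_eq_zero F (ringChar F)
    rw [h] at this
    exact_mod_cast this))
  have hν0 : ν ≠ 0 := fun h => hν (h ▸ IsSquare.zero)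
  let P : MP F n → Prop := fun h => h.1.eval 2 = 0 ∨ h.1.eval (-2) = 0 ∨ IsSquare (d * (h.1.eval 2 * h.1.eval (-2)))
  have h4 : (2 : F) * 2 ≠ 0 := mul_ne_zero h2 h2
  let L : F[X] := C (2 * 2 : F)⁻¹ * (X + C 2)
  have hL : ∀ c : F, (C c * L).natDegree ≤ 1 := fun c => by
    refine (natDegree_C_mul_le _ _).trans ((natDegree_C_mul_le _ _).trans ?_)
    rw [natDegree_X_add_C]
  let φ : {h : MP F n // ¬ P h} → {h : MP F n // P h} := fun h =>
    ⟨⟨h.1.1 + C ((ν - 1) * h.1.1.eval 2) * L, h.1.2.1.add_of_left (by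
        rw [degree_eq_natDegree h.1.2.1.ne_zero, h.1.2.2]
        exact lt_of_le_of_lt degree_le_natDegree (Nat.cast_lt.2 (lt_of_le_of_lt (hL _) hn))), by
      rw [natDegree_add_eq_left_of_natDegree_lt (by rw [h.1.2.2]; have := hL ((ν - 1) * h.1.1.eval 2); omega), h.1.2.2]⟩,
    by
      obtain ⟨⟨p, hp⟩, hP⟩ := h
      simp only [P, not_or] at hP
      obtain ⟨hp1, hp2, hp3⟩ := hP
      have e1 : (p + C ((ν - 1) * p.eval 2) * L).eval 2 = ν * p.eval 2 := by
        simp only [L, eval_add, eval_mul, eval_C, eval_X]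
        field_simp
        ring
      have e2 : (p + C ((ν - 1) * p.eval 2) * L).eval (-2) = p.eval (-2) := by
        simp [L]
      refine Or.inr (Or.inr ?_)
      dsimp only
      rw [e1, e2, show d * (ν * p.eval 2 * p.eval (-2)) = ν * (d * (p.eval 2 * p.eval (-2))) by ring]
      exact Forms.isSquare_mul_of_not_isSquare hν hp3⟩
  have hφ : Function.Injective φ := by
    intro h h' e
    have e0 : h.1.1 + C ((ν - 1) * h.1.1.eval 2) * L = h'.1.1 + C ((ν - 1) * h'.1.1.eval 2) * L :=
      congrArg (fun x : {h : MP F n // P h} => x.1.1) e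
    have e1 : ∀ p : F[X], (p + C ((ν - 1) * p.eval 2) * L).eval 2 = ν * p.eval 2 := by
      intro p
      simp only [L, eval_add, eval_mul, eval_C, eval_X]
      field_simp
      ring
    have h3 := congrArg (eval 2) e0
    rw [e1, e1] at h3
    rw [mul_left_cancel₀ hν0 h3] at e0
    exact Subtype.ext (Subtype.ext (add_right_cancel e0))
  have hsum : Nat.card (MP F n) = Nat.card {h : MP F n // P h} + Nat.card {h : MP F n // ¬ P h} := by
    rw [← Nat.card_sum]
    exact (Nat.card_congr (Equiv.sumCompl P)).symm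
  have := Nat.card_le_card_of_injective φ hφ
  show _ ≤ 2 * Nat.card {h : MP F n // P h}
  omega

end Cfsg.Agent.OClassCount
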