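import Cfsg.Agent.S4200

/-! The number of classes of a subgroup of index two (owner: helper23). -/

set_option autoImplicit false
set_option linter.unusedSectionVars false
set_option linter.style.haveILetI false

namespace Cfsg.Agent.OClassCount

variable {G : Type*} [Group G] [Finite G]

theorem card_centralizer_of_isConj {x y : G} (h : IsConj x y) :
    Nat.card (Subgroup.centralizer ({x} : Set G)) = Nat.card (Subgroup.centralizer ({y} : Set G)) := by
  obtain ⟨c, rfl⟩ := isConj_iff.1 h
  rw [Cfsg.Agent.ClassSize.centralizer_conj,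
    Nat.card_congr (Subgroup.equivMapOfInjective _ _ (MulAut.conj c).injective).toEquiv.symm]

theorem out_mem_iff {W : Subgroup G} [W.Normal] (x : G) : (ConjClasses.mk x).out ∈ W ↔ x ∈ W := by
  have h : IsConj (ConjClasses.mk x).out x :=
    ConjClasses.mk_eq_mk_iff_isConj.1 (Quotient.out_eq (ConjClasses.mk x))
  obtain ⟨c, hc⟩ := isConj_iff.1 h
  refine ⟨fun h => hc ▸ ‹W.Normal›.conj_mem _ h c, fun h => ?_⟩
  rw [← hc] at h
  simpa [mul_assoc] using ‹W.Normal›.conj_mem _ h c⁻¹

theorem sum_centralizer_mem (W : Subgroup G) [W.Normal] [Fintype W] :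
    ∑ x : W, Nat.card (Subgroup.centralizer ({(x : G)} : Set G)) =
      Nat.card {c : ConjClasses G // c.out ∈ W} * Nat.card G := by
  classical
  haveI := Fintype.ofFinite G
  haveI : Fintype {c : ConjClasses G // c.out ∈ W} := Fintype.ofFinite _
  let m : W → {c : ConjClasses G // c.out ∈ W} := fun x => ⟨ConjClasses.mk (x : G), (out_mem_iff _).2 x.2⟩
  rw [← Finset.sum_fiberwise Finset.univ m, Nat.card_eq_fintype_card, ← Finset.card_univ, ← smul_eq_mul,
    ← Finset.sum_const]
  refine Finset.sum_congr rfl fun c _ => ?_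
  have hconst : ∀ x ∈ Finset.univ.filter (fun x : W => m x = c),
      Nat.card (Subgroup.centralizer ({(x : G)} : Set G)) = Nat.card (Subgroup.centralizer ({c.1.out} : Set G)) := by
    intro x hx
    have e : ConjClasses.mk (x : G) = c.1 := congrArg Subtype.val (Finset.mem_filter.1 hx).2
    exact card_centralizer_of_isConj (ConjClasses.mk_eq_mk_iff_isConj.1 (e.trans (Quotient.out_eq c.1).symm))
  rw [Finset.sum_congr rfl hconst, Finset.sum_const, smul_eq_mul]
  have hfib : (Finset.univ.filter (fun x : W => m x = c)).card = (Subgroup.centralizer ({c.1.out} : Set G)).index := by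
    rw [← Cfsg.Agent.ClassSize.natCard_carrier, show ConjClasses.mk c.1.out = c.1 from Quotient.out_eq c.1,
      ← Fintype.card_subtype, ← Nat.card_eq_fintype_card]
    have hx : ∀ x : G, x ∈ c.1.carrier → x ∈ W := fun x hx => by
      rw [ConjClasses.mem_carrier_iff_mk_eq] at hx
      exact (out_mem_iff x).1 (hx ▸ c.2)
    exact Nat.card_congr
      { toFun := fun x => ⟨(x.1 : G), ConjClasses.mem_carrier_iff_mk_eq.2 (congrArg Subtype.val x.2)⟩
        invFun := fun x => ⟨⟨x.1, hx x.1 x.2⟩, Subtype.ext (ConjClasses.mem_carrier_iff_mk_eq.1 x.2)⟩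
        left_inv := fun _ => rfl
        right_inv := fun _ => rfl }
  rw [hfib, mul_comm, Subgroup.card_mul_index]

theorem classes_split_le (W : Subgroup G) [W.Normal] (hW : W.index = 2) :
    Nat.card (ConjClasses W) ≤ Nat.card {c : ConjClasses G // c.out ∈ W} +
      Nat.card {c : ConjClasses G // c.out ∈ W ∧ Subgroup.centralizer ({c.out} : Set G) ≤ W} := by
  classical
  rw [← Nat.card_sum]
  let φ : ConjClasses W → ConjClasses G := fun w => ConjClasses.mk ((w.out : W) : G)
  have hm : ∀ w, (φ w).out ∈ W := fun w => (out_mem_iff _).2 w.out.2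
  let In : ConjClasses W → Prop := fun w => ∃ t ∈ W, t * (φ w).out * t⁻¹ = ((w.out : W) : G)
  have hsplit : ∀ w, ¬ In w → Subgroup.centralizer ({(φ w).out} : Set G) ≤ W := by
    intro w hw u hu
    by_contra huW
    obtain ⟨t, ht⟩ := isConj_iff.1 (ConjClasses.mk_eq_mk_iff_isConj.1 (Quotient.out_eq (φ w)))
    by_cases htW : t ∈ W
    · exact hw ⟨t, htW, ht⟩
    · refine hw ⟨t * u, (Subgroup.mul_mem_iff_of_index_two hW).2 (iff_of_false htW huW), ?_⟩
      rw [Subgroup.mem_centralizer_singleton_iff] at hu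
      rw [mul_inv_rev, ← ht]
      have h3 : u * (φ w).out * u⁻¹ = (φ w).out := by rw [hu, mul_inv_cancel_right]
      conv_rhs => rw [← h3]
      group
  let f : ConjClasses W → {c : ConjClasses G // c.out ∈ W} ⊕
      {c : ConjClasses G // c.out ∈ W ∧ Subgroup.centralizer ({c.out} : Set G) ≤ W} := fun w =>
    if h : In w then Sum.inl ⟨φ w, hm w⟩ else Sum.inr ⟨φ w, hm w, hsplit w h⟩
  have key : ∀ w w' : ConjClasses W, φ w = φ w' → (In w ↔ In w') → w = w' := by
    intro w w' he hi
    obtain ⟨t₁, h₁⟩ := isConj_iff.1 (ConjClasses.mk_eq_mk_iff_isConj.1 (Quotient.out_eq (φ w)))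
    obtain ⟨t₂, h₂⟩ := isConj_iff.1 (ConjClasses.mk_eq_mk_iff_isConj.1 (Quotient.out_eq (φ w')))
    have fin : ∀ s₁ s₂ : G, s₁ * (φ w).out * s₁⁻¹ = ((w.out : W) : G) →
        s₂ * (φ w).out * s₂⁻¹ = ((w'.out : W) : G) → s₂ * s₁⁻¹ ∈ W → w = w' := by
      intro s₁ s₂ e₁ e₂ hs
      refine (Quotient.out_eq w).symm.trans (Eq.trans ?_ (Quotient.out_eq w'))
      refine ConjClasses.mk_eq_mk_iff_isConj.2 (isConj_iff.2 ⟨⟨s₂ * s₁⁻¹, hs⟩, Subtype.ext ?_⟩)
      show s₂ * s₁⁻¹ * ((w.out : W) : G) * (s₂ * s₁⁻¹)⁻¹ = _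
      rw [← e₁, ← e₂]
      group
    by_cases h : In w
    · obtain ⟨s₁, hs₁, e₁⟩ := h
      obtain ⟨s₂, hs₂, e₂⟩ := hi.1 ⟨s₁, hs₁, e₁⟩
      exact fin s₁ s₂ e₁ (by rw [he]; exact e₂) (mul_mem hs₂ (inv_mem hs₁))
    · have n₁ : t₁ ∉ W := fun ht => h ⟨t₁, ht, h₁⟩
      have n₂ : t₂ ∉ W := fun ht => h (hi.2 ⟨t₂, ht, h₂⟩)
      exact fin t₁ t₂ h₁ (by rw [he]; exact h₂)
        ((Subgroup.mul_mem_iff_of_index_two hW).2 (iff_of_false n₂ (by simpa using n₁)))
  refine Nat.card_le_card_of_injective f fun w w' e => ?_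
  simp only [f] at e
  split_ifs at e with h h'
  · exact key w w' (congrArg Subtype.val (Sum.inl.inj e)) (iff_of_true h h')
  · rename_i h'
    exact key w w' (congrArg Subtype.val (Sum.inr.inj e)) (iff_of_false h h')

/-- The classes of a subgroup of index two in terms of the split classes. -/
theorem two_mul_classes_le (W : Subgroup G) (hW : W.index = 2) :
    2 * Nat.card (ConjClasses W) ≤ Nat.card (ConjClasses G) +
      3 * Nat.card {c : ConjClasses G // c.out ∈ W ∧ Subgroup.centralizer ({c.out} : Set G) ≤ W} := by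
  classical
  haveI := Subgroup.normal_of_index_eq_two hW
  haveI := Fintype.ofFinite G
  haveI : Fintype W := Fintype.ofFinite _
  set C : G → ℕ := fun x => Nat.card (Subgroup.centralizer ({x} : Set G))
  set I : G → ℕ := fun x => Nat.card ↥(W ⊓ Subgroup.centralizer ({x} : Set G))
  set a := Nat.card {c : ConjClasses G // c.out ∈ W} with ha
  have hsub : ∀ φ : G → ℕ, ∑ x : W, φ x = ∑ x ∈ Finset.univ.filter (fun x : G => x ∈ W), φ x := fun φ =>
    (Finset.sum_subtype (p := fun x : G => x ∈ W) _ (by simp) φ).symm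
  have e1 : ∑ x : G, I x = a * Nat.card G := by
    rw [ha, ← sum_centralizer_mem W]
    exact S4200.sum_card_inf_eq W
  have e2 : ∑ x : W, I x = Nat.card (ConjClasses W) * Nat.card W := by
    rw [S4200.card_comm_eq_sum W]
    exact Finset.sum_congr rfl fun x _ => (Cfsg.Agent.ClassSize.card_centralizer_subgroup W x).symm
  have e3 : ∑ x : G, C x = Nat.card (ConjClasses G) * Nat.card G := (S4200.card_comm_eq_sum G).symm
  have e4 : ∑ x : W, C x = a * Nat.card G := sum_centralizer_mem W
  have e5 : ∑ x ∈ Finset.univ.filter (fun x : G => x ∉ W), C x =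
      2 * ∑ x ∈ Finset.univ.filter (fun x : G => x ∉ W), I x := by
    rw [Finset.mul_sum]
    refine Finset.sum_congr rfl fun x hx => ?_
    have hxW : x ∉ W := (Finset.mem_filter.1 hx).2
    show C x = 2 * I x
    simp only [C, I]
    rw [S4200.card_centralizer_eq W x, mul_comm]
    congr 1
    have hle : W.relIndex (Subgroup.centralizer ({x} : Set G)) ≤ 2 :=
      calc W.relIndex (Subgroup.centralizer ({x} : Set G))
          ≤ W.relIndex ⊤ := Subgroup.relIndex_le_of_le_right le_top (by
            rw [Subgroup.relIndex_top_right]; exact Subgroup.index_ne_zero_of_finite)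
        _ = 2 := by rw [Subgroup.relIndex_top_right, hW]
    have hne : W.relIndex (Subgroup.centralizer ({x} : Set G)) ≠ 1 := fun h =>
      hxW (Subgroup.relIndex_eq_one.1 h (Subgroup.mem_centralizer_singleton_iff.2 rfl))
    have h0 : W.relIndex (Subgroup.centralizer ({x} : Set G)) ≠ 0 := Subgroup.index_ne_zero_of_finite
    omega
  rw [← Finset.sum_filter_add_sum_filter_not Finset.univ (fun x : G => x ∈ W)] at e1 e3
  rw [hsub] at e2 e4
  have hG : Nat.card G = Nat.card W * 2 := by rw [← hW]; exact W.card_mul_index.symm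
  have h3 : 3 * a = Nat.card (ConjClasses G) + Nat.card (ConjClasses W) := by
    refine Nat.eq_of_mul_eq_mul_right (Nat.card_pos (α := W)) ?_
    rw [hG] at e1 e3 e4
    linarith
  have h4 := classes_split_le W hW
  rw [← ha] at h4
  omega

end Cfsg.Agent.OClassCount
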