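import Cfsg.Agent.OClassCount.Upper
import Cfsg.Agent.OClassCount.Lower
import Cfsg.Agent.OClassCount.Split
import Cfsg.Agent.OrthGen.Index

/-! The class numbers of the orthogonal groups, `q` odd (owner: helper23). -/

set_option autoImplicit false
set_option linter.style.haveILetI false
set_option linter.unusedSectionVars false

namespace Cfsg.Agent.OClassCount

open Polynomial hiding dickson
open Module QuadraticMap
open LinearMap (BilinForm)
open Cfsg.Agent.Classical (OQ OQ_polar BNondeg reflQ reflQ_apply dickson dicksonHom RQ)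
open Cfsg.Agent.SpClassCount (UData)

universe u

variable {F : Type u} [Field F] [Fintype F] {N : ℕ} {Q : QuadraticForm F (Vec F N)}

/-- The group is finite. -/
instance instFiniteOQVec : Finite (OQ Q) :=
  Finite.of_injective (fun g : OQ Q => ⇑(tr g)) fun g g' h => Subtype.ext (LinearEquiv.ext (congrFun h))

/-- The special orthogonal group. -/
noncomputable def SO (hB : BNondeg Q) (h2 : (2 : F) ≠ 0) : Subgroup (OQ Q) :=
  (dicksonHom hB (OrthGen.RQ_eq_top hB (OrthGen.notExceptional_of_two_ne_zero h2))).ker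

theorem mem_SO {hB : BNondeg Q} {h2 : (2 : F) ≠ 0} {g : OQ Q} : g ∈ SO hB h2 ↔ dickson g = 1 := Iff.rfl

/-- The matrix form of a quadratic form. -/
theorem exists_matrix (h2 : (2 : F) ≠ 0) (hQ : (pol Q).Nondegenerate) :
    ∃ M : Matrix (Fin N) (Fin N) F, M.transpose = M ∧ M.det ≠ 0 ∧ Q = GraphForms.toQF M := by
  classical
  refine ⟨(2 : F)⁻¹ • LinearMap.BilinForm.toMatrix' (pol Q), ?_, ?_, ?_⟩
  · ext i j
    simp only [Matrix.transpose_apply, Matrix.smul_apply, LinearMap.BilinForm.toMatrix'_apply]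
    rw [pol_symm]
  · rw [Matrix.det_smul]
    refine mul_ne_zero (pow_ne_zero _ (inv_ne_zero h2)) ?_
    rw [← LinearMap.BilinForm.toMatrix_basisFun]
    exact (LinearMap.BilinForm.nondegenerate_iff_det_ne_zero _).1 hQ
  · refine QuadraticMap.ext fun v => ?_
    rw [GraphForms.toQF_apply, Matrix.smul_mulVec, dotProduct_smul, ← Matrix.toBilin'_apply',
      Matrix.toBilin'_toMatrix', QuadraticMap.polarBilin_apply_apply, QuadraticMap.polar_self, two_smul, smul_eq_mul,
      ← two_mul, inv_mul_cancel_left₀ h2]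

theorem det_tr (h2 : (2 : F) ≠ 0) (hB : BNondeg Q) (g : OQ Q) :
    LinearMap.det (tr g : Vec F N →ₗ[F] Vec F N) = ((dickson g : ℤ) : F) := by
  obtain ⟨k, rfl⟩ := (OrthGen.matEquiv Q).surjective g
  rw [← OrthGen.det_eq_dickson Q hB (OrthGen.notExceptional_of_two_ne_zero h2) k, ← LinearMap.det_toLin']
  congr 1

theorem dickson_eq_one_iff (h2 : (2 : F) ≠ 0) (hB : BNondeg Q) (g : OQ Q) :
    dickson g = 1 ↔ LinearMap.det (tr g : Vec F N →ₗ[F] Vec F N) = 1 := by
  rw [det_tr h2 hB]
  rcases Int.units_eq_one_or (dickson g) with h | h <;> rw [h]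
  · simp
  · have : (-1 : F) ≠ 1 := fun h => h2 (by linear_combination -h)
    simp [this]

/-- The negation. -/
noncomputable def negOne (Q : QuadraticForm F (Vec F N)) : OQ Q :=
  ⟨LinearEquiv.neg F, fun v => QuadraticMap.map_neg Q v⟩

theorem negOne_comm (g : OQ Q) : Commute (negOne Q) g :=
  Subtype.ext (LinearEquiv.ext fun v => (map_neg (tr g) v).symm)

theorem negOne_mul_self (Q : QuadraticForm F (Vec F N)) : negOne Q * negOne Q = 1 :=
  Subtype.ext (LinearEquiv.ext fun v => neg_neg v)

theorem dickson_negOne (h2 : (2 : F) ≠ 0) (hN : Odd N) : dickson (negOne Q) = -1 := by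
  rw [Classical.dickson_neg _ h2 (fun v => rfl), finrank_fin_fun, hN.neg_one_pow]

/-- An element whose centraliser in the special group lies in the commutator subgroup. -/
def Tight (g : OQ Q) : Prop := ∀ h : OQ Q, Commute h g → dickson h = 1 → h ∈ commutator (OQ Q)

theorem isConj_negOne_mul {g g' : OQ Q} (h : IsConj g g') : IsConj (negOne Q * g) (negOne Q * g') := by
  obtain ⟨c, rfl⟩ := isConj_iff.1 h
  refine isConj_iff.2 ⟨c, ?_⟩
  rw [← mul_assoc c, ← (negOne_comm c).eq]
  simp only [mul_assoc]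

theorem reflQ_comm {g : OQ Q} {w : Vec F N} {s : F} (hs : s * s = 1) (hw : tr g w = s • w) (hQw : Q w ≠ 0) :
    Commute (reflQ Q w hQw) g := by
  refine Subtype.ext (LinearEquiv.ext fun v => ?_)
  show (reflQ Q w hQw : Vec F N ≃ₗ[F] Vec F N) (tr g v) = tr g ((reflQ Q w hQw : Vec F N ≃ₗ[F] Vec F N) v)
  rw [reflQ_apply, reflQ_apply, map_sub, map_smul, hw, smul_smul]
  congr 2
  have h := OQ_polar g w v
  rw [show (g : Vec F N ≃ₗ[F] Vec F N) w = s • w from hw, QuadraticMap.polar_smul_left, smul_eq_mul] at h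
  rw [← h]
  linear_combination (-((Q w)⁻¹ * polar Q w (tr g v))) * hs

theorem exists_value {ι : Type} [Fintype ι] [DecidableEq ι] (h2 : (2 : F) ≠ 0) {A : Matrix ι ι F}
    (hA : A.transpose = A) (hAd : A.det ≠ 0) (hcard : 2 ≤ Fintype.card ι) {c : F} (hc : c ≠ 0) :
    ∃ v : ι → F, v ⬝ᵥ A.mulVec v = c := by
  obtain ⟨i, j, hij⟩ := Fintype.exists_pair_of_one_lt_card hcard
  let d : ι → F := fun k => if k = i then c else if k = j then A.det / c else 1
  have hd : ∏ k, d k = A.det := by
    rw [← Finset.prod_subset (Finset.subset_univ {i, j}) fun k _ hk => by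
      simp only [Finset.mem_insert, Finset.mem_singleton, not_or] at hk
      simp [d, hk.1, hk.2]]
    rw [Finset.prod_pair hij]
    simp only [d, if_true, if_neg hij.symm]
    field_simp
  obtain ⟨P, hP⟩ := exists_congr_reindex h2 rfl hA (Matrix.diagonal_transpose d) hAd
    (by rw [Matrix.det_diagonal, hd]; exact hAd) (by rw [Matrix.det_diagonal, hd]; exact ⟨A.det, rfl⟩)
  refine ⟨P.mulVec (Pi.single i 1), ?_⟩
  have h := congrFun (congrFun hP i) i
  rw [Matrix.diagonal_apply_eq, show d i = c from if_pos rfl] at h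
  rw [← h, Matrix.mulVec_mulVec, Matrix.dotProduct_mulVec, ← Matrix.vecMul_transpose, Matrix.vecMul_vecMul,
    ← mul_assoc, ← Matrix.dotProduct_mulVec, Matrix.mulVec_single_one, single_dotProduct, one_mul]
  rfl

variable (h2 : (2 : F) ≠ 0) (hQ : (pol Q).Nondegenerate)

include h2 hQ in
theorem exists_fixed_value (g : OQ Q) (s : F) (hs : s * s = 1)
    (hlev : 2 ≤ (part g h2 hQ s hs).lev 1) {c : F} (hc : c ≠ 0) : ∃ w, tr g w = s • w ∧ Q w = c := by
  classical
  set U := part g h2 hQ s hs
  have hA : (SympUnip.blk U.k U.H 1).transpose = SympUnip.blk U.k U.H 1 := by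
    rw [blk_transpose (res_symm _) U.skew U.datum U.chain 1]
    simp
  obtain ⟨v, hv⟩ := exists_value h2 hA (U.datum.blk_det_ne_zero 1) hlev (mul_ne_zero h2 hc)
  let w : SpClassCount.gX (tr g) s N := ∑ a : SympUnip.Fib U.k 1, v a • U.x a.1
  have hCw : U.C w = 0 := by
    simp only [w, map_sum, map_smul]
    refine Finset.sum_eq_zero fun a _ => ?_
    have h := U.chain.nil a.1
    rw [a.2, pow_one] at h
    rw [h, smul_zero]
  have hfw : partEnd g s w = w := by
    have h := LinearMap.congr_fun U.cay w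
    rw [U.comm.eq, Module.End.mul_apply, hCw, map_zero, LinearMap.sub_apply, Module.End.one_apply] at h
    exact sub_eq_zero.1 h.symm
  refine ⟨(w : Vec F N), ?_, ?_⟩
  · have h : s • tr g (w : Vec F N) = (w : Vec F N) := congrArg Subtype.val hfw
    conv_rhs => rw [← h]
    rw [smul_smul, hs, one_smul]
  · have hval : pol Q (w : Vec F N) (w : Vec F N) = v ⬝ᵥ (SympUnip.blk U.k U.H 1).mulVec v := by
      show (pol Q).restrict (SpClassCount.gX (tr g) s N) w w = _
      simp only [w, map_sum, map_smul, LinearMap.sum_apply, LinearMap.smul_apply, dotProduct, Matrix.mulVec,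
        Finset.mul_sum, smul_eq_mul]
      rw [Finset.sum_comm]
      refine Finset.sum_congr rfl fun a _ => Finset.sum_congr rfl fun b _ => ?_
      have h := U.chain.gram_eq a.1 b.1 0 0 (by omega) (by omega)
      rw [if_pos (by omega)] at h
      simp only [pow_zero, Module.End.one_apply, one_mul] at h
      rw [h]
      simp only [SympUnip.blk, Matrix.submatrix_apply]
      ring
    rw [hv, QuadraticMap.polarBilin_apply_apply, QuadraticMap.polar_self, two_smul, ← two_mul] at hval
    exact mul_left_cancel₀ h2 hval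

include h2 hQ in
theorem simple_of_tight (hN : 2 ≤ N) {g : OQ Q} (hg : Tight g) : Simple (dat h2 hQ g).1.1 := by
  classical
  have hB : BNondeg Q := fun x hx => hQ.1 x hx
  have hn : 2 ≤ finrank F (Vec F N) := by rwa [finrank_fin_fun]
  have hR := OrthGen.RQ_eq_top hB (OrthGen.notExceptional_of_two_ne_zero h2)
  obtain ⟨ν, hν⟩ := FiniteField.exists_nonsquare (F := F) (fun h => h2 (by
    have := CharP.cast_eq_zero F (ringChar F)
    rw [h] at this
    exact_mod_cast this))
  have hν0 : ν ≠ 0 := fun h => hν (h ▸ IsSquare.zero)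
  have key : ∀ (s : F) (hs : s * s = 1), (layer (tr g) (dvs g) 1).rootMultiplicity s ≤ 1 := by
    intro s hs
    by_contra hlt
    rw [layer_root, ← part_lev g h2 hQ (dvs g) s hs le_rfl] at hlt
    obtain ⟨a, ha, haQ⟩ := exists_fixed_value h2 hQ g s hs (by omega) one_ne_zero
    obtain ⟨b, hb, hbQ⟩ := exists_fixed_value h2 hQ g s hs (by omega) hν0
    have ha0 : Q a ≠ 0 := by rw [haQ]; exact one_ne_zero
    have hb0 : Q b ≠ 0 := by rw [hbQ]; exact hν0
    have e : OrthGen.sgnHom hB hR (reflQ Q a ha0 * reflQ Q b hb0) = (1, -1) := by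
      rw [map_mul, OrthGen.sgnHom_refl h2 hB hR ha0, OrthGen.sgnHom_refl h2 hB hR hb0, if_pos (by rw [haQ]; exact IsSquare.one),
        if_neg (by rw [hbQ]; exact hν)]
      decide
    have hmem := hg _ ((reflQ_comm hs ha ha0).mul_left (reflQ_comm hs hb hb0)) (congrArg Prod.fst e)
    rw [OrthGen.commutator_eq_ker_sgnHom h2 hB hn hR, MonoidHom.mem_ker, e] at hmem
    exact absurd (congrArg Prod.snd hmem) (by decide)
  exact ⟨key 1 (one_mul 1), key (-1) (by ring)⟩

include h2 hQ in
theorem classes_SO_double (hN : Odd N) (hB : BNondeg Q) (p : ConjClasses ↥(SO hB h2) → Prop)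
    (p' : ConjClasses (OQ Q) → Prop)
    (hp : ∀ c, p c → ∀ x : OQ Q, (IsConj x (c.out : OQ Q) ∨ IsConj x (negOne Q * (c.out : OQ Q))) → p' (ConjClasses.mk x)) :
    2 * Nat.card {c : ConjClasses ↥(SO hB h2) // p c} ≤ Nat.card {c : ConjClasses (OQ Q) // p' c} := by
  classical
  let el : ConjClasses ↥(SO hB h2) × Bool → OQ Q := fun x =>
    if x.2 then negOne Q * (x.1.out : OQ Q) else (x.1.out : OQ Q)
  let φ : {c : ConjClasses ↥(SO hB h2) // p c} × Bool → {c : ConjClasses (OQ Q) // p' c} := fun x =>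
    ⟨ConjClasses.mk (el (x.1.1, x.2)), hp x.1.1 x.1.2 _ (by
      cases x.2 <;> simp only [el, Bool.false_eq_true, if_false, if_true]
      · exact Or.inl (IsConj.refl _)
      · exact Or.inr (IsConj.refl _))⟩
  have hdick : ∀ x : ConjClasses ↥(SO hB h2) × Bool, dickson (el x) = if x.2 then -1 else 1 := by
    intro x
    have h1 : dickson (x.1.out : OQ Q) = 1 := x.1.out.2
    cases hx : x.2 <;> simp only [el, hx, Bool.false_eq_true, if_false, if_true]
    · exact h1
    · show dicksonHom hB (OrthGen.RQ_eq_top hB (OrthGen.notExceptional_of_two_ne_zero h2)) (_ * _) = _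
      rw [map_mul]
      show dickson _ * dickson _ = _
      rw [dickson_negOne h2 hN, h1]
      rfl
  have hφ : Function.Injective φ := by
    rintro ⟨⟨c, hc⟩, b⟩ ⟨⟨c', hc'⟩, b'⟩ h
    have hconj : IsConj (el (c, b)) (el (c', b')) := ConjClasses.mk_eq_mk_iff_isConj.1 (congrArg Subtype.val h)
    obtain ⟨t, ht⟩ := isConj_iff.1 hconj
    have hbb : b = b' := by
      have h1 := congrArg (dicksonHom hB (OrthGen.RQ_eq_top hB (OrthGen.notExceptional_of_two_ne_zero h2))) ht
      rw [map_mul, map_mul, map_inv, mul_comm (dicksonHom hB _ t), mul_inv_cancel_right] at h1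
      have h2' : dickson (el (c, b)) = dickson (el (c', b')) := h1
      rw [hdick, hdick] at h2'
      cases b <;> cases b' <;> simp_all
    subst hbb
    have hct : t * (c.out : OQ Q) * t⁻¹ = (c'.out : OQ Q) := by
      cases b <;> simp only [el, Bool.false_eq_true, if_false, if_true] at ht
      · exact ht
      · rw [← mul_assoc t, ← (negOne_comm t).eq] at ht
        simp only [mul_assoc, mul_right_inj] at ht ⊢
        exact ht
    obtain ⟨u, hu, hut⟩ : ∃ u : OQ Q, dickson u = 1 ∧ u * (c.out : OQ Q) * u⁻¹ = (c'.out : OQ Q) := by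
      rcases Int.units_eq_one_or (dickson t) with h0 | h0
      · exact ⟨t, h0, hct⟩
      · refine ⟨negOne Q * t, ?_, ?_⟩
        · show dicksonHom hB (OrthGen.RQ_eq_top hB (OrthGen.notExceptional_of_two_ne_zero h2)) (_ * _) = _
          rw [map_mul]
          show dickson _ * dickson _ = _
          rw [dickson_negOne h2 hN, h0]
          rfl
        · rw [mul_assoc (negOne Q), mul_inv_rev, mul_assoc, ← mul_assoc _ t⁻¹, hct, ← mul_assoc,
            (negOne_comm _).eq, mul_assoc, mul_inv_cancel, mul_one]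
    have : c = c' := (Quotient.out_eq c).symm.trans ((ConjClasses.mk_eq_mk_iff_isConj.2
      (isConj_iff.2 ⟨⟨u, hu⟩, Subtype.ext hut⟩)).trans (Quotient.out_eq c'))
    subst this
    rfl
  have h := Nat.card_le_card_of_injective φ hφ
  rwa [Nat.card_prod, Nat.card_eq_fintype_card (α := Bool), Fintype.card_bool, mul_comm] at h

theorem index_Omega_SO (hB : BNondeg Q) (hn : 2 ≤ N) :
    ((commutator (OQ Q)).subgroupOf (SO hB h2)).index = 2 := by
  have hn' : 2 ≤ finrank F (Vec F N) := by rwa [finrank_fin_fun]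
  have hR := OrthGen.RQ_eq_top hB (OrthGen.notExceptional_of_two_ne_zero h2)
  show (commutator (OQ Q)).relIndex (SO hB h2) = 2
  have hle : commutator (OQ Q) ≤ SO hB h2 := Abelianization.commutator_subset_ker _
  have h1 : (commutator (OQ Q)).index = 4 := by
    rw [OrthGen.commutator_eq_ker_sgnHom h2 hB hn' hR, Subgroup.index_ker,
      MonoidHom.range_eq_top.2 (OrthGen.surjective_sgnHom h2 hB hn' hR), Subgroup.card_top, Nat.card_prod]
    simp
  have hsurj : Function.Surjective (dicksonHom hB hR) := fun y => by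
    obtain ⟨x, hx⟩ := OrthGen.surjective_sgnHom h2 hB hn' hR (y, 1)
    exact ⟨x, congrArg Prod.fst hx⟩
  have h3 : (SO hB h2).index = 2 := by
    rw [SO, Subgroup.index_ker, MonoidHom.range_eq_top.2 hsurj, Subgroup.card_top]
    simp
  have := Subgroup.relIndex_mul_index hle
  rw [h1, h3] at this
  omega

include h2 hQ in
/-- The upper bounds in odd dimension. -/
theorem omega_upper (hN : Odd N) (hn : 2 ≤ N) :
    8 * Nat.card (ConjClasses ↥(commutator (OQ Q))) ≤ totO (Fintype.card F) N N + 3 * totR (Fintype.card F) N N ∧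
      2 * Nat.card (ConjClasses ↥(commutator (OQ Q))) ≤ totO (Fintype.card F) N N := by
  classical
  have hB : BNondeg Q := fun x hx => hQ.1 x hx
  obtain ⟨hO, hR⟩ := two_mul_le_odd h2 hQ hN
  set W := (commutator (OQ Q)).subgroupOf (SO hB h2) with hWdef
  have hW : W.index = 2 := index_Omega_SO h2 hB hn
  haveI := Subgroup.normal_of_index_eq_two hW
  have hk : Nat.card (ConjClasses ↥(commutator (OQ Q))) = Nat.card (ConjClasses W) :=
    (Nat.card_congr
      { toFun := ConjClasses.map (Subgroup.subgroupOfEquivOfLe (Abelianization.commutator_subset_ker _)).toMonoidHom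
        invFun := ConjClasses.map
          (Subgroup.subgroupOfEquivOfLe (Abelianization.commutator_subset_ker _)).symm.toMonoidHom
        left_inv := fun c => by
          obtain ⟨x, rfl⟩ := ConjClasses.mk_surjective c
          exact congrArg ConjClasses.mk ((Subgroup.subgroupOfEquivOfLe _).symm_apply_apply x)
        right_inv := fun c => by
          obtain ⟨x, rfl⟩ := ConjClasses.mk_surjective c
          exact congrArg ConjClasses.mk ((Subgroup.subgroupOfEquivOfLe _).apply_symm_apply x) }).symm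
  have hSO : 2 * Nat.card (ConjClasses ↥(SO hB h2)) ≤ Nat.card (ConjClasses (OQ Q)) := by
    have h := classes_SO_double h2 hQ hN hB (fun _ => True) (fun _ => True) (fun _ _ _ _ => trivial)
    rwa [Nat.card_congr (Equiv.subtypeUnivEquiv fun _ => trivial),
      Nat.card_congr (Equiv.subtypeUnivEquiv fun _ => trivial)] at h
  have hsplit : 2 * Nat.card {c : ConjClasses ↥(SO hB h2) // c.out ∈ W ∧
      Subgroup.centralizer ({c.out} : Set ↥(SO hB h2)) ≤ W} ≤
        Nat.card {c : ConjClasses (OQ Q) // Simple (dat h2 hQ c.out).1.1} := by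
    refine classes_SO_double h2 hQ hN hB _ _ fun c hc x hx => simple_of_tight h2 hQ hn ?_
    have ht : Tight (c.out : OQ Q) := fun h hh hd => by
      have := hc.2 (x := (⟨h, hd⟩ : ↥(SO hB h2))) (Subgroup.mem_centralizer_singleton_iff.2 (Subtype.ext hh.eq))
      exact this
    have ht' : Tight (negOne Q * (c.out : OQ Q)) := fun h hh hd => ht h (by
      have := (negOne_comm h).symm.mul_right hh
      rwa [← mul_assoc, negOne_mul_self, one_mul] at this) hd
    have hx' : IsConj (ConjClasses.mk x).out x := ConjClasses.mk_eq_mk_iff_isConj.1 (Quotient.out_eq (ConjClasses.mk x))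
    obtain ⟨y, hy, hty⟩ : ∃ y, IsConj (ConjClasses.mk x).out y ∧ Tight y := by
      rcases hx with h | h
      · exact ⟨_, hx'.trans h, ht⟩
      · exact ⟨_, hx'.trans h, ht'⟩
    obtain ⟨t, rfl⟩ := isConj_iff.1 hy
    intro h hh hd
    have h1 := hty (t * h * t⁻¹) (by
      show _ = _
      have e := hh.eq
      calc t * h * t⁻¹ * (t * (ConjClasses.mk x).out * t⁻¹) = t * (h * (ConjClasses.mk x).out) * t⁻¹ := by group
        _ = _ := by rw [e]; group) (by
      show dicksonHom hB (OrthGen.RQ_eq_top hB (OrthGen.notExceptional_of_two_ne_zero h2)) _ = _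
      rw [map_mul, map_mul, map_inv, mul_comm (dicksonHom hB _ t), mul_inv_cancel_right]
      exact hd)
    simpa [mul_assoc] using (inferInstance : (commutator (OQ Q)).Normal).conj_mem _ h1 t⁻¹
  have h1 := two_mul_classes_le W hW
  have h4 := (S4200.result W).1
  rw [hW] at h4
  rw [hk]
  constructor <;> omega

include h2 hQ in
/-- The lower bound in even dimension. -/
theorem lower_even {n : ℕ} (hN : N = 2 * n) (hn : 2 ≤ n) :
    Fintype.card F ^ n ≤ 2 * Nat.card (ConjClasses (OQ Q)) := by
  classical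
  obtain ⟨M, hM, hMd, rfl⟩ := exists_matrix h2 hQ
  haveI := (card_mp (F := F) n).1
  have hd : M.det * (-1) ^ n ≠ 0 := mul_ne_zero hMd (pow_ne_zero _ (by simp))
  refine (half_le h2 hn hd).trans (Nat.mul_le_mul_left 2 ?_)
  choose T hT hT' using fun h : {h : MP F n // h.1.eval 2 = 0 ∨ h.1.eval (-2) = 0 ∨
      IsSquare (M.det * (-1) ^ n * (h.1.eval 2 * h.1.eval (-2)))} =>
    exists_elem h2 (t := 0) (by rw [hN, add_zero]) hM hMd h.1.1 h.1.2.1 h.1.2.2 (by
      rcases h.2 with e | e | e
      · exact Or.inl e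
      · exact Or.inr (Or.inl e)
      · exact Or.inr (Or.inr (Or.inr (by rwa [← mul_assoc]))))
  refine Nat.card_le_card_of_injective (fun h => ConjClasses.mk (T h)) fun h h' e => ?_
  obtain ⟨c, hc⟩ := isConj_iff.1 (ConjClasses.mk_eq_mk_iff_isConj.1 e)
  have hch : LinearMap.charpoly (tr (T h) : Vec F N →ₗ[F] Vec F N) = LinearMap.charpoly (tr (T h') : Vec F N →ₗ[F] Vec F N) := by
    rw [← LinearEquiv.charpoly_conj (tr c) (tr (T h) : Vec F N →ₗ[F] Vec F N), ← hc]
    rfl
  rw [hT, hT, pow_zero, mul_one, mul_one] at hch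
  exact Subtype.ext (Subtype.ext (SemiSymp.lift_injective h.1.2.2.le h'.1.2.2.le hch))

include h2 hQ in
/-- The lower bound in odd dimension. -/
theorem lower_odd {n : ℕ} (hN : N = 2 * n + 1) (hn : 1 ≤ n) :
    Fintype.card F ^ n ≤ 2 * Nat.card (ConjClasses ↥(commutator (OQ Q))) := by
  classical
  have hB : BNondeg Q := fun x hx => hQ.1 x hx
  set W := (commutator (OQ Q)).subgroupOf (SO hB h2) with hWdef
  have hW : W.index = 2 := index_Omega_SO h2 hB (by omega)
  have hk : Nat.card (ConjClasses W) ≤ Nat.card (ConjClasses ↥(commutator (OQ Q))) :=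
    Nat.card_le_card_of_surjective
      (ConjClasses.map (Subgroup.subgroupOfEquivOfLe (Abelianization.commutator_subset_ker _)).symm.toMonoidHom)
      (ConjClasses.map_surjective (MulEquiv.surjective _))
  refine le_trans ?_ (((S4200.result W).2.1.trans_eq (by rw [hW])).trans (Nat.mul_le_mul_left 2 hk))
  obtain ⟨M, hM, hMd, rfl⟩ := exists_matrix h2 hQ
  haveI := (card_mp (F := F) n).1
  choose T hT hT' using fun h : MP F n =>
    exists_elem h2 (t := 1) hN hM hMd h.1 h.2.1 h.2.2 (Or.inr (Or.inr (Or.inl one_pos)))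
  refine (card_mp (F := F) n).2.trans (Nat.card_le_card_of_injective
    (fun h => ConjClasses.mk (⟨T h, (dickson_eq_one_iff h2 hB (T h)).2 (hT' h)⟩ : ↥(SO hB h2))) fun h h' e => ?_)
  obtain ⟨c, hc⟩ := isConj_iff.1 (ConjClasses.mk_eq_mk_iff_isConj.1 e)
  have hc' : (c : OQ (GraphForms.toQF M)) * T h * (c : OQ (GraphForms.toQF M))⁻¹ = T h' := congrArg Subtype.val hc
  have hch : LinearMap.charpoly (tr (T h) : Vec F N →ₗ[F] Vec F N) = LinearMap.charpoly (tr (T h') : Vec F N →ₗ[F] Vec F N) := by
    rw [← LinearEquiv.charpoly_conj (tr (c : OQ (GraphForms.toQF M))) (tr (T h) : Vec F N →ₗ[F] Vec F N), ← hc']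
    rfl
  rw [hT, hT] at hch
  exact Subtype.ext (SemiSymp.lift_injective h.2.2.le h'.2.2.le
    (mul_right_cancel₀ (pow_ne_zero _ (X_sub_C_ne_zero _)) hch))

end Cfsg.Agent.OClassCount
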