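import Cfsg.Agent.OClassCount.Unip

/-! The discriminant of the space determines the last sign (owner: helper23). -/

set_option autoImplicit false
set_option linter.unusedSectionVars false
set_option linter.style.haveILetI false

namespace Cfsg.Agent.OClassCount

open Module Matrix
open LinearMap (BilinForm)
open Cfsg.Agent.SympUnip Cfsg.Agent.SpClassCount

variable {F : Type*} [Field F]

/-- Congruence of symmetric matrices on index types of the same size. -/
theorem exists_congr_reindex [Finite F] (h2 : (2 : F) ≠ 0) {n m : Type} [Fintype n] [DecidableEq n] [Fintype m]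
    [DecidableEq m] (hcard : Fintype.card n = Fintype.card m) {A : Matrix n n F} {B : Matrix m m F}
    (hA : Aᵀ = A) (hB : Bᵀ = B) (hAd : A.det ≠ 0) (hBd : B.det ≠ 0) (hsq : IsSquare (B.det * A.det)) :
    ∃ P : Matrix n m F, Pᵀ * A * P = B := by
  let e := Fintype.equivOfCardEq hcard
  obtain ⟨P, hP⟩ := GraphForms.exists_congr_of_isSquare h2 (A := B.submatrix e e) (B := A)
    (by rw [transpose_submatrix, hB]) hA (by rwa [det_submatrix_equiv_self]) hAd
    (by rwa [det_submatrix_equiv_self])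
  refine ⟨(P : Matrix n n F).submatrix id e.symm, ?_⟩
  rw [transpose_submatrix, ← Equiv.coe_refl, ← submatrix_id_id A, ← Equiv.coe_refl, submatrix_mul_equiv,
    submatrix_mul_equiv, hP, submatrix_submatrix]
  simp

variable {W W' : Type*} [AddCommGroup W] [Module F W] [FiniteDimensional F W] [AddCommGroup W'] [Module F W']
  [FiniteDimensional F W'] {β : BilinForm F W} {f : Module.End F W} {β' : BilinForm F W'} {f' : Module.End F W'}
  {N : ℕ}

/-- A datum with a diagonal level. -/
def diagH {ι : Type} [DecidableEq ι] (k : ι → ℕ) (H : Matrix ι ι F) (K₀ : ℕ) (a₀ : ι) (d : F) : Matrix ι ι F :=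
  Matrix.of fun a b => if k a = K₀ then (if a = b then (if a = a₀ then d else 1) else 0) else H a b

theorem datum_diagH {ι : Type} [Fintype ι] [DecidableEq ι] {k : ι → ℕ} {H : Matrix ι ι F} (hD : Datum k H)
    (K₀ : ℕ) (a₀ : ι) {d : F} (hd : d ≠ 0) : Datum k (diagH k H K₀ a₀ d) := by
  refine ⟨hD.pos, fun a b h => ?_, fun y hy => ?_⟩
  · simp only [diagH, of_apply]
    split_ifs with h1 h2' h3
    · exact absurd (congrArg k h2') h
    · exact absurd (congrArg k h2') h
    · rfl
    · exact hD.blocks a b h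
  · have h0 : ∀ a, k a = K₀ → y a = 0 := by
      intro a ha
      have h := congrFun hy a
      simp only [Matrix.mulVec, dotProduct, diagH, of_apply, ha, if_true, Pi.zero_apply, ite_mul, zero_mul,
        Finset.sum_ite_eq, Finset.mem_univ] at h
      by_cases h' : a = a₀
      · rw [if_pos h'] at h
        exact (mul_eq_zero.1 h).resolve_left hd
      · rwa [if_neg h', one_mul] at h
    refine hD.inj y (_root_.funext fun a => ?_)
    show ∑ b, H a b * y b = 0
    by_cases ha : k a = K₀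
    · refine Finset.sum_eq_zero fun b _ => ?_
      by_cases hb : k b = K₀
      · rw [h0 b hb, mul_zero]
      · rw [hD.blocks a b (fun h => hb (h.symm.trans ha)), zero_mul]
    · refine Eq.trans ?_ (congrFun hy a)
      show _ = ∑ b, diagH k H K₀ a₀ d a b * y b
      refine Finset.sum_congr rfl fun b _ => ?_
      simp only [diagH, of_apply, if_neg ha]

theorem blk_diagH {ι : Type} [Fintype ι] [DecidableEq ι] (k : ι → ℕ) (H : Matrix ι ι F) (K₀ : ℕ)
    (a₀ : Fib k K₀) (d : F) :
    blk k (diagH k H K₀ a₀.1 d) K₀ = Matrix.diagonal fun a => if a = a₀ then d else 1 := by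
  ext a b
  simp only [blk, diagH, submatrix_apply, of_apply, a.2, if_true, Matrix.diagonal_apply, ← Subtype.ext_iff]

theorem blk_diagH_ne {ι : Type} [Fintype ι] [DecidableEq ι] (k : ι → ℕ) (H : Matrix ι ι F) {K₀ K : ℕ}
    (hK : K ≠ K₀) (a₀ : ι) (d : F) : blk k (diagH k H K₀ a₀ d) K = blk k H K := by
  ext a b
  simp only [blk, diagH, submatrix_apply, of_apply, a.2, if_neg hK]

theorem det_gram_diagH {ι : Type} [Fintype ι] [DecidableEq ι] (k : ι → ℕ) (H : Matrix ι ι F) (a₀ : ι)
    (d : F) : (gram k (diagH k H (k a₀) a₀ d)).det = d ^ k a₀ * (gram k (diagH k H (k a₀) a₀ 1)).det := by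
  have e : gram k (diagH k H (k a₀) a₀ d) =
      Matrix.diagonal (fun u : Idx k => if u.1 = a₀ then d else 1) * gram k (diagH k H (k a₀) a₀ 1) := by
    ext u v
    rw [Matrix.diagonal_mul, SympUnip.gram_apply, SympUnip.gram_apply]
    simp only [diagH, of_apply]
    by_cases hu : u.1 = a₀
    · simp only [hu, if_true]
      split_ifs <;> ring
    · simp only [if_neg hu]
      split_ifs <;> ring
  rw [e, Matrix.det_mul, Matrix.det_diagonal, Fintype.prod_sigma]
  congr 1
  rw [Fintype.prod_eq_single a₀ (fun b hb => Finset.prod_eq_one fun _ _ => if_neg hb)]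
  simp

/-- The scalar of a class. -/
def sc (ν : F) (t : Bool) : F := if t then ν else 1

theorem sc_ne_zero {ν : F} (hν0 : ν ≠ 0) (t : Bool) : sc ν t ≠ 0 := by cases t <;> simp [sc, hν0]

/-- A basis with a diagonal level. -/
theorem exists_diag_basis [Finite F] (h2 : (2 : F) ≠ 0) (U : UData β f N) (U' : UData β' f' N)
    (hA : ∀ x y, β x y = β y x) (hA' : ∀ x y, β' x y = β' y x) (hlev : ∀ K, U.lev K = U'.lev K) {K₀ : ℕ}
    (hK₀ : Odd K₀) (hbits : ∀ K, Odd K → K ≠ K₀ → U.disc K = U'.disc K) {ν : F} (hν : ¬ IsSquare ν)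
    (a₀ : Fib U'.k K₀) :
    ∃ b : Basis (Idx U'.k) F W, LinearMap.BilinForm.toMatrix b β =
      SympUnip.gram U'.k (diagH U'.k U'.H K₀ a₀.1 (sc ν (U.disc K₀))) := by
  classical
  have hν0 : ν ≠ 0 := fun h => hν (h ▸ IsSquare.zero)
  have hD := datum_diagH U'.datum K₀ a₀.1 (sc_ne_zero hν0 (U.disc K₀))
  have hP : ∀ K, ∃ P : Matrix (Fib U.k K) (Fib U'.k K) F,
      Pᵀ * blk U.k U.H K * P = blk U'.k (diagH U'.k U'.H K₀ a₀.1 (sc ν (U.disc K₀))) K := by
    intro K
    by_cases hK : K = K₀
    · subst hK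
      rw [blk_diagH U'.k U'.H K a₀]
      refine exists_congr_reindex h2 (hlev K)
        (by rw [blk_transpose hA U.skew U.datum U.chain K, hK₀.add_one.neg_one_pow, one_smul])
        (Matrix.diagonal_transpose _) (U.datum.blk_det_ne_zero K) ?_ ?_
      · rw [Matrix.det_diagonal, Fintype.prod_ite_eq']
        exact sc_ne_zero hν0 _
      · rw [Matrix.det_diagonal, Fintype.prod_ite_eq']
        by_cases hs : IsSquare (blk U.k U.H K).det
        · have e : U.disc K = false := by simp [UData.disc, hs]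
          simpa [e, sc] using hs
        · have e : U.disc K = true := by simp [UData.disc, hs]
          simpa [e, sc] using SympUnip.isSquare_mul_of_not h2 hν hs
    · rw [blk_diagH_ne _ _ hK]
      exact exists_level_congr U h2 U' hA hA' K (hlev K) fun ho => hbits K ho hK
  obtain ⟨x, hx, hs⟩ := exists_change U.datum U.chain U.span hD hlev hP
  refine ⟨Basis.mk (hx.linearIndependent hD) hs.ge, ?_⟩
  ext u v
  rw [LinearMap.BilinForm.toMatrix_apply, Basis.mk_apply, Basis.mk_apply, hx.vecs_gram]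

/-- The sign at one level is the square class of a Gram determinant of the whole space. -/
theorem exists_basis_not_square [Finite F] (h2 : (2 : F) ≠ 0) (U : UData β f N) (U' : UData β' f' N)
    (hA : ∀ x y, β x y = β y x) (hA' : ∀ x y, β' x y = β' y x) (hlev : ∀ K, U.lev K = U'.lev K) {K₀ : ℕ}
    (hK₀ : Odd K₀) (hpos : U'.lev K₀ ≠ 0) (hbits : ∀ K, Odd K → K ≠ K₀ → U.disc K = U'.disc K)
    (hne : U.disc K₀ ≠ U'.disc K₀) :
    ∃ (κ : Type) (_ : Fintype κ) (_ : DecidableEq κ) (b : Basis κ F W) (b' : Basis κ F W'),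
      (LinearMap.BilinForm.toMatrix b β).det * (LinearMap.BilinForm.toMatrix b' β').det ≠ 0 ∧
      ¬ IsSquare ((LinearMap.BilinForm.toMatrix b β).det * (LinearMap.BilinForm.toMatrix b' β').det) := by
  classical
  haveI := Fintype.ofFinite F
  obtain ⟨ν, hν⟩ := FiniteField.exists_nonsquare (F := F) (fun h => h2 (by
    have := CharP.cast_eq_zero F (ringChar F)
    rw [h] at this
    exact_mod_cast this))
  have hν0 : ν ≠ 0 := fun h => hν (h ▸ IsSquare.zero)
  obtain ⟨⟨a₀, ha₀⟩⟩ : Nonempty (Fib U'.k K₀) := Fintype.card_pos_iff.1 (Nat.pos_of_ne_zero hpos)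
  obtain ⟨b, hb⟩ := exists_diag_basis h2 U U' hA hA' hlev hK₀ hbits hν ⟨a₀, ha₀⟩
  obtain ⟨b', hb'⟩ := exists_diag_basis h2 U' U' hA' hA' (fun _ => rfl) hK₀ (fun _ _ _ => rfl) hν ⟨a₀, ha₀⟩
  refine ⟨Idx U'.k, inferInstance, inferInstance, b, b', ?_⟩
  have hg : ∀ t, (gram U'.k (diagH U'.k U'.H K₀ a₀ (sc ν t))).det ≠ 0 := fun t h0 => by
    obtain ⟨c, hc0, hc⟩ := Matrix.exists_mulVec_eq_zero_iff.2 h0
    exact hc0 ((datum_diagH U'.datum K₀ a₀ (sc_ne_zero hν0 t)).gram_inj c hc)
  rw [hb, hb']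
  refine ⟨mul_ne_zero (hg _) (hg _), fun hsq => hν ?_⟩
  subst ha₀
  rw [det_gram_diagH, det_gram_diagH _ _ _ (sc ν (U'.disc _))] at hsq
  have hG := hg false
  simp only [sc, Bool.false_eq_true, if_false] at hG
  obtain ⟨i, hi⟩ := hK₀
  have hprod : sc ν (U.disc (U'.k a₀)) * sc ν (U'.disc (U'.k a₀)) = ν := by
    cases hu : U.disc (U'.k a₀) <;> cases hu' : U'.disc (U'.k a₀) <;> simp_all [sc]
  obtain ⟨r, hr⟩ := hsq
  rw [mul_mul_mul_comm, ← mul_pow, hprod] at hr
  generalize (gram U'.k (diagH U'.k U'.H (U'.k a₀) a₀ 1)).det = G at hr hG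
  refine ⟨r / (G * ν ^ i), ?_⟩
  rw [hi] at hr
  field_simp
  linear_combination hr

end Cfsg.Agent.OClassCount
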