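import Cfsg.Agent.SpClassCount.Layers

/-! The elementary divisors of an isometry of a symmetric form (owner: helper23). -/

set_option autoImplicit false
set_option linter.style.haveILetI false
set_option linter.unusedSectionVars false

namespace Cfsg.Agent.OClassCount

open Polynomial Module
open LinearMap (BilinForm)
open Cfsg.Agent.SpClassCount (count_eq_of_min finrank_ker_rv)

universe u

variable {F : Type u} [Field F] [Fintype F] {N : ℕ}

/-- The space. -/
abbrev Vec (F : Type u) (N : ℕ) : Type u := Fin N → F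

/-- The matrix group and the group of automorphisms. -/
noncomputable def toAut (F : Type u) [Field F] (N : ℕ) : GL (Fin N) F ≃* (Vec F N ≃ₗ[F] Vec F N) :=
  Matrix.GeneralLinearGroup.toLin.trans (LinearMap.GeneralLinearGroup.generalLinearEquiv F _)

/-- The matrix of an automorphism. -/
noncomputable def glA (T : Vec F N ≃ₗ[F] Vec F N) : GL (Fin N) F := (toAut F N).symm T

theorem glA_mulVec (T : Vec F N ≃ₗ[F] Vec F N) (v : Vec F N) :
    (glA T : Matrix (Fin N) (Fin N) F).mulVec v = T v := by
  conv_rhs => rw [← (toAut F N).apply_symm_apply T]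
  rfl

variable (g : Vec F N ≃ₗ[F] Vec F N) (D : SUClassCount.Data (glA g : Matrix (Fin N) (Fin N) F))

/-- The indices of a divisor. -/
noncomputable def fib (Q : F[X]) : Finset D.ι := by
  classical exact Finset.univ.filter fun i => D.P i = Q

/-- The multiplicity of a divisor with exponent `K`. -/
noncomputable def mlt (Q : F[X]) (K : ℕ) : ℕ := ((fib g D Q).filter fun i => D.e i = K).card

theorem kd_eq {Q : F[X]} (hQ : Q.Monic) (hQi : Irreducible Q) (k : ℕ) :
    finrank F (LinearMap.ker (aeval ((g : Module.End F (Vec F N))) (Q ^ k))) = Q.natDegree * ∑ i ∈ fib g D Q, min k (D.e i) := by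
  classical
  have h := D.card_ker Q hQ hQi k
  have hA : Matrix.toLinAlgEquiv' (glA g : Matrix (Fin N) (Fin N) F) = (g : Module.End F (Vec F N)) :=
    LinearMap.ext fun v => glA_mulVec g v
  let E : {v : Vec F N // (aeval (glA g : Matrix (Fin N) (Fin N) F) (Q ^ k)).mulVec v = 0} ≃
      LinearMap.ker (aeval (g : Module.End F (Vec F N)) (Q ^ k)) :=
    Equiv.subtypeEquivRight fun v => by
      rw [LinearMap.mem_ker, ← hA,
        show Matrix.toLinAlgEquiv' (glA g : Matrix (Fin N) (Fin N) F) =
          (Matrix.toLinAlgEquiv' : Matrix (Fin N) (Fin N) F ≃ₐ[F] _).toAlgHom (glA g : Matrix (Fin N) (Fin N) F) from rfl,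
        aeval_algHom_apply]
      exact Iff.rfl
  rw [Nat.card_congr E] at h
  haveI := Fintype.ofFinite (LinearMap.ker (aeval ((g : Module.End F (Vec F N))) (Q ^ k)))
  rw [Nat.card_eq_fintype_card, Module.card_eq_pow_finrank (K := F)] at h
  refine (Nat.pow_right_injective Fintype.one_lt_card h).trans ?_
  congr 1

theorem e_le (i : D.ι) : D.e i ≤ N := by
  have h := Finset.single_le_sum (f := fun i => D.e i * (D.P i).natDegree) (fun _ _ => Nat.zero_le _)
    (Finset.mem_univ i)
  rw [D.sum] at h
  exact le_trans (Nat.le_mul_of_pos_right _ (D.irr i).natDegree_pos) h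

theorem mlt_rv {β : BilinForm F (Vec F N)} (hβ : β.Nondegenerate) (hT : ∀ x y, β (g x) (g y) = β x y) {Q : F[X]} (hQ : Q.Monic) (hQi : Irreducible Q) (h0 : Q.coeff 0 ≠ 0) {K : ℕ} (hK : 1 ≤ K) :
    mlt g D (OrderBound.rv Q) K = mlt g D Q K := by
  refine count_eq_of_min _ _ _ _ (fun m => ?_) hK
  have hpow : OrderBound.rv (Q ^ m) = OrderBound.rv Q ^ m := by
    induction m with
    | zero => rw [pow_zero, pow_zero, OrderBound.rv_one]
    | succ m ih => rw [pow_succ, pow_succ, OrderBound.rv_mul, ih]
  have h1 := kd_eq g D (OrderBound.rv_monic hQ.ne_zero) (OrderBound.irreducible_rv hQ hQi h0) m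
  rw [← hpow, finrank_ker_rv hβ g hT
    (pow_ne_zero m hQ.ne_zero), kd_eq g D hQ hQi, OrderBound.natDegree_rv h0] at h1
  exact (Nat.eq_of_mul_eq_mul_left hQi.natDegree_pos h1).symm

/-- The product of the divisors with exponent `j`. -/
noncomputable def layer (j : ℕ) : F[X] := by
  classical exact ∏ i ∈ Finset.univ.filter (fun i => D.e i = j), D.P i

theorem layer_monic (j : ℕ) : (layer g D j).Monic := monic_prod_of_monic _ _ fun i _ => D.monic i

theorem layer_coeff0 (j : ℕ) : (layer g D j).coeff 0 ≠ 0 := by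
  rw [layer, coeff_zero_prod, Finset.prod_ne_zero_iff]
  exact fun i _ => D.coeff0 i

theorem mlt_eq_count [DecidableEq F[X]] (Q : F[X]) (j : ℕ) :
    mlt g D Q j = Multiset.count Q ((Finset.univ.filter fun i => D.e i = j).val.map D.P) := by
  classical
  rw [Multiset.count_map, ← Finset.filter_val, ← Finset.card_def, mlt, fib, Finset.filter_filter, Finset.filter_filter]
  congr 1
  ext i
  simp only [Finset.mem_filter, Finset.mem_univ, true_and]
  tauto

theorem layer_rv {β : BilinForm F (Vec F N)} (hβ : β.Nondegenerate) (hT : ∀ x y, β (g x) (g y) = β x y) {j : ℕ} (hj : 1 ≤ j) : OrderBound.rv (layer g D j) = layer g D j := by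
  classical
  rw [layer, Finset.prod_eq_multiset_prod, OrderBound.rv_prod]
  congr 1
  set s := (Finset.univ.filter fun i => D.e i = j).val.map D.P with hs
  ext Q
  by_cases hgood : Irreducible Q ∧ Q.Monic ∧ Q.coeff 0 ≠ 0
  · obtain ⟨hQi, hQ, h0⟩ := hgood
    have e1 : (s.map OrderBound.rv).count Q = s.count (OrderBound.rv Q) := by
      rw [Multiset.count_map, Multiset.count_eq_card_filter_eq]
      congr 1
      refine Multiset.filter_congr fun P hP => ?_
      obtain ⟨i, -, rfl⟩ := Multiset.mem_map.1 hP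
      exact ⟨fun h => by rw [h, OrderBound.rv_rv (D.monic i) (D.coeff0 i)],
        fun h => by rw [← h, OrderBound.rv_rv hQ h0]⟩
    rw [e1, hs, ← mlt_eq_count, ← mlt_eq_count, mlt_rv g D hβ hT hQ hQi h0 hj]
  · rw [Multiset.count_eq_zero.2, Multiset.count_eq_zero.2]
    · intro h
      obtain ⟨i, -, rfl⟩ := Multiset.mem_map.1 h
      exact hgood ⟨D.irr i, D.monic i, D.coeff0 i⟩
    · intro h
      obtain ⟨P, hP, rfl⟩ := Multiset.mem_map.1 h
      obtain ⟨i, -, rfl⟩ := Multiset.mem_map.1 hP
      exact hgood ⟨OrderBound.irreducible_rv (D.monic i) (D.irr i) (D.coeff0 i),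
        OrderBound.rv_monic (D.monic i).ne_zero, OrderBound.coeff_zero_rv (D.monic i).ne_zero⟩

theorem layer_root (s : F) (j : ℕ) : (layer g D j).rootMultiplicity s = mlt g D (X - C s) j := by
  classical
  rw [← count_roots, layer, roots_prod _ _ (Finset.prod_ne_zero_iff.2 fun i _ => (D.monic i).ne_zero),
    Multiset.count_bind, mlt, fib, Finset.card_filter, Finset.sum_filter]
  show ∑ i ∈ _, (D.P i).roots.count s = _
  rw [Finset.sum_filter]
  refine Finset.sum_congr rfl fun i _ => ?_
  by_cases he : D.e i = j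
  · rw [if_pos he]
    by_cases hP : D.P i = X - C s
    · rw [if_pos hP, if_pos he, hP, roots_X_sub_C, Multiset.count_singleton_self]
    · rw [if_neg hP, count_roots, rootMultiplicity_eq_zero]
      intro hr
      exact hP (eq_of_monic_of_associated (monic_X_sub_C s) (D.monic i)
        ((irreducible_X_sub_C s).associated_of_dvd (D.irr i) (dvd_iff_isRoot.2 hr))).symm
  · rw [if_neg he]
    split_ifs <;> rfl

theorem layer_sum :
    (∑ j : Fin N, ((j : ℕ) + 2) * (layer g D ((j : ℕ) + 2)).natDegree) + (layer g D 1).natDegree = N := by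
  classical
  have h : ∀ j, j * (layer g D j).natDegree =
      ∑ i ∈ Finset.univ.filter (fun i => D.e i = j), D.e i * (D.P i).natDegree := by
    intro j
    rw [layer, natDegree_prod_of_monic _ _ fun i _ => D.monic i, Finset.mul_sum]
    exact Finset.sum_congr rfl fun i hi => by rw [(Finset.mem_filter.1 hi).2]
  have hs := Finset.sum_fiberwise_of_maps_to (s := Finset.univ) (t := Finset.range (N + 2)) (g := D.e)
    (fun i _ => Finset.mem_range.2 (by have := e_le g D i; omega)) (fun i => D.e i * (D.P i).natDegree)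
  rw [D.sum] at hs
  simp only [← h] at hs
  rw [Finset.sum_range_succ', Finset.sum_range_succ', zero_mul, add_zero, zero_add, one_mul,
    Finset.sum_range (fun k => (k + 1 + 1) * (layer g D (k + 1 + 1)).natDegree)] at hs
  exact hs

/-- Equal layers give similarity. -/
theorem exists_intertwiner {g' : Vec F N ≃ₗ[F] Vec F N}
    (D' : SUClassCount.Data (glA g' : Matrix (Fin N) (Fin N) F))
    (hl : ∀ j, 1 ≤ j → j ≤ N + 1 → layer g D j = layer g' D' j) :
    ∃ G : Vec F N ≃ₗ[F] Vec F N, ∀ v, G (g v) = g' (G v) := by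
  classical
  obtain ⟨S, hS⟩ := SUClassCount.conj_of_fibres D D' (by
    rintro ⟨Q, k⟩ hk
    rcases lt_or_ge (N) k with hn | hn
    · haveI : IsEmpty {i // (D.P i, D.e i) = (Q, k)} := ⟨fun i => by
        have := e_le g D i.1; have := congrArg Prod.snd i.2; simp at this; omega⟩
      haveI : IsEmpty {i // (D'.P i, D'.e i) = (Q, k)} := ⟨fun i => by
        have := e_le g' D' i.1; have := congrArg Prod.snd i.2; simp at this; omega⟩
      rw [Nat.card_of_isEmpty, Nat.card_of_isEmpty]
    · have hj := hl k hk (by omega)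
      rw [layer, layer, Finset.prod_eq_multiset_prod, Finset.prod_eq_multiset_prod] at hj
      have hm := GLClassCount.multiset_eq_of_prod_eq
        (fun x hx => by obtain ⟨i, -, rfl⟩ := Multiset.mem_map.1 hx; exact ⟨D.irr i, D.monic i⟩)
        (fun x hx => by obtain ⟨i, -, rfl⟩ := Multiset.mem_map.1 hx; exact ⟨D'.irr i, D'.monic i⟩) hj
      have hcnt := congrArg (Multiset.count Q) hm
      rw [Multiset.count_map, Multiset.count_map, ← Finset.filter_val, ← Finset.filter_val,
        ← Finset.card_def, ← Finset.card_def, Finset.filter_filter, Finset.filter_filter] at hcnt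
      rw [Nat.card_eq_fintype_card, Nat.card_eq_fintype_card, Fintype.card_subtype, Fintype.card_subtype]
      refine Eq.trans ?_ (hcnt.trans ?_) <;> congr 1 <;> ext i <;> simp [Prod.ext_iff] <;> tauto)
  refine ⟨toAut F N S, fun v => ?_⟩
  have hm : (S : Matrix (Fin N) (Fin N) F) * (glA g : Matrix (Fin N) (Fin N) F) =
      (glA g' : Matrix (Fin N) (Fin N) F) * S := congrArg Units.val (mul_inv_eq_iff_eq_mul.1 hS)
  show (S : Matrix (Fin N) (Fin N) F).mulVec (g v) = g' ((S : Matrix (Fin N) (Fin N) F).mulVec v)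
  rw [← glA_mulVec g, ← glA_mulVec g', Matrix.mulVec_mulVec, Matrix.mulVec_mulVec, hm]

end Cfsg.Agent.OClassCount
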