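import Cfsg.Agent.SpClassCount.Peel

/-! Splitting an isometry of a symmetric space at the generalised eigenspaces of `1` and `-1` (owner: helper23). -/

set_option autoImplicit false
set_option linter.unusedSectionVars false
set_option linter.style.haveILetI false

namespace Cfsg.Agent.OClassCount

open Module Cfsg.Agent.ClassConj Cfsg.Agent.SpClassCount
open LinearMap (BilinForm)

variable {F : Type*} [Field F] {V V' : Type*} [AddCommGroup V] [Module F V] [FiniteDimensional F V]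
  [AddCommGroup V'] [Module F V'] [FiniteDimensional F V']

theorem refl_of_symm {β : BilinForm F V} (hA : ∀ x y, β x y = β y x) : β.IsRefl :=
  fun x y h => by rw [hA]; exact h

theorem g_nondeg {β : BilinForm F V} (hA : ∀ x y, β x y = β y x) (hβ : β.Nondegenerate) {T : V ≃ₗ[F] V}
    (hT : ∀ x y, β (T x) (T y) = β x y) {s : F} (hs : s * s = 1) {N : ℕ} (hN : finrank F V ≤ N) :
    (β.restrict (gX T s N)).Nondegenerate ∧ (β.restrict (gY T s N)).Nondegenerate :=
  ⟨restrict_nondeg hβ (refl_of_symm hA) (isCompl_g T s hN) (g_orth hT hs N),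
    restrict_nondeg hβ (refl_of_symm hA) (isCompl_g T s hN).symm fun x hx y hy =>
      refl_of_symm hA _ _ (g_orth hT hs N y hy x hx)⟩

theorem gX_le_gY (T : V ≃ₗ[F] V) {s t : F} (hst : s ≠ t) {N : ℕ} (hN : finrank F V ≤ N) :
    gX T t N ≤ gY T s N := by
  intro x hx
  obtain ⟨a, ha, b, hb, rfl⟩ := Submodule.mem_sup.1
    ((isCompl_g T s hN).sup_eq_top.symm ▸ Submodule.mem_top (x := x))
  have hinv : ∀ (W : Submodule F V), (∀ v, T v ∈ W ↔ v ∈ W) → ∀ v ∈ W, ∀ k, (shiftMap T t ^ k) v ∈ W := by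
    intro W hW v hv k
    induction k with
    | zero => simpa
    | succ k ih =>
      rw [pow_succ', Module.End.mul_apply, shiftMap_apply]
      exact sub_mem ((hW _).2 ih) (Submodule.smul_mem _ _ ih)
  rw [gX, LinearMap.mem_ker, map_add] at hx
  have h0 : (shiftMap T t ^ N) a = 0 :=
    Submodule.disjoint_def.1 (isCompl_g T s hN).disjoint _ (hinv _ (gX_invariant T s N) a ha N) (by
      rw [eq_neg_of_add_eq_zero_left hx]; exact neg_mem (hinv _ (gY_invariant T s N) b hb N))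
  have hp : ∀ (c : F) (k : ℕ), Polynomial.aeval (T.toLinearMap : Module.End F V) ((Polynomial.X - Polynomial.C c) ^ k) = shiftMap T c ^ k := by
    intro c k
    rw [map_pow, map_sub, Polynomial.aeval_X, Polynomial.aeval_C]
    rfl
  have hcop : IsCoprime ((Polynomial.X - Polynomial.C s) ^ N) ((Polynomial.X - Polynomial.C t) ^ N) :=
    IsCoprime.pow (Polynomial.isCoprime_X_sub_C_of_isUnit_sub (sub_ne_zero.2 hst).isUnit)
  have ha0 : a = 0 := Submodule.disjoint_def.1 (Polynomial.disjoint_ker_aeval_of_isCoprime (T.toLinearMap : Module.End F V) hcop) a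
    (by rw [hp]; exact ha) (by rw [hp, LinearMap.mem_ker]; exact h0)
  rw [ha0, zero_add]
  exact hb

/-- The complement of an eigenspace, given the part at the other sign. -/
theorem exists_rest_isometry [Finite F] (h2 : (2 : F) ≠ 0) {β : BilinForm F V} {β' : BilinForm F V'}
    (hA : ∀ x y, β x y = β y x) (hβ : β.Nondegenerate) (hA' : ∀ x y, β' x y = β' y x) (hβ' : β'.Nondegenerate)
    {T : V ≃ₗ[F] V} {T' : V' ≃ₗ[F] V'} (hT : ∀ x y, β (T x) (T y) = β x y) (hT' : ∀ x y, β' (T' x) (T' y) = β' x y)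
    {G : V ≃ₗ[F] V'} (hG : ∀ x, G (T x) = T' (G x)) {N : ℕ} (hN : finrank F V ≤ N) {s : F} (hs : s * s = 1)
    (hpart : ∃ f : gX T (-s) N ≃ₗ[F] gX T' (-s) N,
      (∀ (a : gX T (-s) N) (h : T a ∈ gX T (-s) N), (f ⟨T a, h⟩ : V') = T' (f a)) ∧
        ∀ a b, β' (f a : V') (f b : V') = β (a : V) (b : V)) :
    ∃ f : gY T s N ≃ₗ[F] gY T' s N,
      (∀ (a : gY T s N) (h : T a ∈ gY T s N), (f ⟨T a, h⟩ : V') = T' (f a)) ∧
        ∀ a b, β' (f a : V') (f b : V') = β (a : V) (b : V) := by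
  have hN' : finrank F V' ≤ N := G.finrank_eq ▸ hN
  have hs0 : s ≠ 0 := left_ne_zero_of_mul_eq_one hs
  have hms : -s * -s = (1 : F) := by rw [neg_mul_neg, hs]
  have hne : s ≠ -s := fun h => hs0 ((mul_eq_zero.1 (show (2 : F) * s = 0 by linear_combination h)).resolve_left h2)
  let Y := gY T s N
  let Y' := gY T' s N
  let U := restrEquiv T Y Y (gY_invariant T s N)
  let U' := restrEquiv T' Y' Y' (gY_invariant T' s N)
  let GY := restrEquiv G Y Y' (g_transport hG s N).2
  have hGY : ∀ y, GY (U y) = U' (GY y) := fun y => Subtype.ext (hG _)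
  have hNY : finrank F Y ≤ N := le_trans (Submodule.finrank_le _) hN
  have hNY' : finrank F Y' ≤ N := le_trans (Submodule.finrank_le _) hN'
  have hYn := (g_nondeg hA hβ hT hs hN).2
  have hYn' := (g_nondeg hA' hβ' hT' hs hN').2
  have hmem : ∀ (y : Y), y ∈ gX U (-s) N ↔ (y : V) ∈ gX T (-s) N := fun y => by
    rw [gX, gX, LinearMap.mem_ker, LinearMap.mem_ker, ← coe_shift_pow (fun x => restrEquiv_apply T Y Y (gY_invariant T s N) x) (-s) N y]
    exact ⟨fun h => by rw [h]; rfl, fun h => Subtype.ext h⟩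
  have hmem' : ∀ (y : Y'), y ∈ gX U' (-s) N ↔ (y : V') ∈ gX T' (-s) N := fun y => by
    rw [gX, gX, LinearMap.mem_ker, LinearMap.mem_ker, ← coe_shift_pow (fun x => restrEquiv_apply T' Y' Y' (gY_invariant T' s N) x) (-s) N y]
    exact ⟨fun h => by rw [h]; rfl, fun h => Subtype.ext h⟩
  let i : gX U (-s) N ≃ₗ[F] gX T (-s) N :=
    { toFun := fun a => ⟨(a.1 : V), (hmem a.1).1 a.2⟩
      invFun := fun a => ⟨⟨a.1, gX_le_gY T hne hN a.2⟩, (hmem _).2 a.2⟩
      left_inv := fun _ => rfl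
      right_inv := fun _ => rfl
      map_add' := fun _ _ => rfl
      map_smul' := fun _ _ => rfl }
  let i' : gX U' (-s) N ≃ₗ[F] gX T' (-s) N :=
    { toFun := fun a => ⟨(a.1 : V'), (hmem' a.1).1 a.2⟩
      invFun := fun a => ⟨⟨a.1, gX_le_gY T' hne hN' a.2⟩, (hmem' _).2 a.2⟩
      left_inv := fun _ => rfl
      right_inv := fun _ => rfl
      map_add' := fun _ _ => rfl
      map_smul' := fun _ _ => rfl }
  obtain ⟨fm, hmt, hmi⟩ := hpart
  have ho : ∀ x ∈ gX U (-s) N, ∀ y ∈ gY U (-s) N, β.restrict Y x y = 0 :=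
    g_orth (β := β.restrict Y) (fun a b => hT _ _) hms N
  have ho' : ∀ x ∈ gX U' (-s) N, ∀ y ∈ gY U' (-s) N, β'.restrict Y' x y = 0 :=
    g_orth (β := β'.restrict Y') (fun a b => hT' _ _) hms N
  have hnY0 := (g_nondeg (β := β.restrict Y) (fun x y => hA _ _) hYn (T := U) (fun a b => hT _ _) hms hNY).2
  have hnY0' := (g_nondeg (β := β'.restrict Y') (fun x y => hA' _ _) hYn' (T := U') (fun a b => hT' _ _) hms hNY').2
  let W := restrEquiv U (gY U (-s) N) (gY U (-s) N) (gY_invariant U (-s) N)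
  let W' := restrEquiv U' (gY U' (-s) N) (gY U' (-s) N) (gY_invariant U' (-s) N)
  let G0 := restrEquiv GY (gY U (-s) N) (gY U' (-s) N) (g_transport hGY (-s) N).2
  obtain ⟨f0, h0t, h0i⟩ := exists_intertwiner_of_fix_eq_zero (ε := (1 : F)) (one_mul 1) hnY0 hnY0'
    (fun x y => (hA _ _).trans (one_mul _).symm) (fun x y => (hA' _ _).trans (one_mul _).symm) W W'
    (fun x y => hT _ _) (fun x y => hT' _ _) G0 (fun x => Subtype.ext (hGY _))
    (fun x hx => by
      have hx' : U (U (x : Y)) = (x : Y) := congrArg Subtype.val hx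
      have h1 : U (x : Y) + s • (x : Y) = 0 := by
        refine Subtype.ext (Submodule.disjoint_def.1 (isCompl_g T s hN).disjoint _
          (ker_pow_le_gX T s hN 1 ?_) (Subtype.prop (U (x : Y) + s • (x : Y))))
        rw [pow_one, mem_ker_shiftMap]
        show ((U (U (x : Y) + s • x) : Y) : V) = ((s • (U x + s • x) : Y) : V)
        rw [map_add, map_smul, hx', smul_add, smul_smul, hs, one_smul, add_comm]
      refine Subtype.ext (Submodule.disjoint_def.1 (isCompl_g U (-s) hNY).disjoint _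
        (ker_pow_le_gX U (-s) hNY 1 ?_) x.2)
      rw [pow_one, mem_ker_shiftMap, neg_smul, eq_neg_iff_add_eq_zero]
      exact h1)
  have hRY : (β.restrict Y).IsRefl := fun a b h => refl_of_symm hA _ _ h
  have hRY' : (β'.restrict Y').IsRefl := fun a b h => refl_of_symm hA' _ _ h
  obtain ⟨fY, hYt, hYi⟩ := glue (T := U) (T' := U') hRY hRY' (isCompl_g U (-s) hNY) (isCompl_g U' (-s) hNY') ho ho'
    ((i.trans fm).trans i'.symm) f0
    (fun a b => hmi (i a) (i b)) h0i
    (fun a h => Subtype.ext (hmt (i a) ((hmem _).1 h)))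
    (fun a h => congrArg Subtype.val (h0t a))
    (fun a ha => (gX_invariant U (-s) N a).2 ha) (fun a ha => (gY_invariant U (-s) N a).2 ha)
  exact ⟨fY, fun a h => congrArg Subtype.val (hYt a), hYi⟩

/-- Isometries with matching parts at `1` and `-1` which are linearly similar are isometric. -/
theorem exists_isometry_of_parts [Finite F] (h2 : (2 : F) ≠ 0) {β : BilinForm F V} {β' : BilinForm F V'}
    (hA : ∀ x y, β x y = β y x) (hβ : β.Nondegenerate) (hA' : ∀ x y, β' x y = β' y x) (hβ' : β'.Nondegenerate)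
    {T : V ≃ₗ[F] V} {T' : V' ≃ₗ[F] V'} (hT : ∀ x y, β (T x) (T y) = β x y) (hT' : ∀ x y, β' (T' x) (T' y) = β' x y)
    {G : V ≃ₗ[F] V'} (hG : ∀ x, G (T x) = T' (G x)) {N : ℕ} (hN : finrank F V ≤ N)
    (hpart : ∀ s : F, s * s = 1 → ∃ f : gX T s N ≃ₗ[F] gX T' s N,
      (∀ (a : gX T s N) (h : T a ∈ gX T s N), (f ⟨T a, h⟩ : V') = T' (f a)) ∧
        ∀ a b, β' (f a : V') (f b : V') = β (a : V) (b : V)) :
    ∃ f : V ≃ₗ[F] V', (∀ x, f (T x) = T' (f x)) ∧ ∀ x y, β' (f x) (f y) = β x y := by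
  have hN' : finrank F V' ≤ N := G.finrank_eq ▸ hN
  obtain ⟨fp, hpt, hpi⟩ := hpart 1 (one_mul 1)
  obtain ⟨fY, hYt, hYi⟩ := exists_rest_isometry h2 hA hβ hA' hβ' hT hT' hG hN (one_mul 1) (hpart (-1) (by ring))
  exact glue (refl_of_symm hA) (refl_of_symm hA') (isCompl_g T 1 hN) (isCompl_g T' 1 hN') (g_orth hT (one_mul 1) N)
    (g_orth hT' (one_mul 1) N) fp fY hpi hYi hpt hYt
    (fun a ha => (gX_invariant T 1 N a).2 ha) (fun a ha => (gY_invariant T 1 N a).2 ha)

end Cfsg.Agent.OClassCount
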