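import Cfsg.Agent.OClassCount.BoundThree

/-! Counting the layers of an isometry of a symmetric form (owner: helper23). -/

set_option autoImplicit false
set_option linter.style.haveILetI false
set_option linter.unusedSectionVars false

namespace Cfsg.Agent.OClassCount

open Polynomial
open Cfsg.Agent.SpClassCount (SelfRec Pal OddObj EvenObj exists_split mult_eq pal_coeff card_pal psi card_oddObj card_evenObj)

universe u

variable {F : Type u} [Field F]

/-- A layer with its signs. -/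
abbrev LayO (F : Type u) [Field F] (j : ℕ) : Type u :=
  {x : F[X] × Bool × Bool // SelfRec x.1 ∧
    (x.2.1 = true → x.1.IsRoot 1 ∧ Odd j) ∧ (x.2.2 = true → x.1.IsRoot (-1) ∧ Odd j) ∧
      (Even j → Even (x.1.rootMultiplicity 1) ∧ Even (x.1.rootMultiplicity (-1)))}

/-- The size of a layer. -/
noncomputable def ldO {j : ℕ} (x : LayO F j) : ℕ :=
  if j % 2 = 1 then x.1.1.natDegree else x.1.1.natDegree / 2

/-- A layer without roots `1`, `-1` in odd exponent. -/
def NoSlot {j : ℕ} (x : LayO F j) : Prop := Odd j → ¬ x.1.1.IsRoot 1 ∧ ¬ x.1.1.IsRoot (-1)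

/-- A layer with simple roots at most. -/
def Simple {j : ℕ} (x : LayO F j) : Prop :=
  x.1.1.rootMultiplicity 1 ≤ 1 ∧ x.1.1.rootMultiplicity (-1) ≤ 1

theorem wt_mul_ldO (h2 : (2 : F) ≠ 0) {j : ℕ} (x : LayO F j) : wtO j * ldO x = j * x.1.1.natDegree := by
  unfold wtO ldO
  split_ifs with hj
  · rfl
  · obtain ⟨a, b, e, f₀, hfe, hn, hn', hdeg⟩ := exists_split h2 x.2.1
    obtain ⟨ha, hb⟩ := mult_eq h2 f₀.2.1.ne_zero hn hn' a b
    rw [← hfe] at ha hb
    obtain ⟨h1, h1'⟩ := x.2.2.2.2 (Nat.even_iff.2 (by omega))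
    rw [ha] at h1
    rw [hb] at h1'
    obtain ⟨a', rfl⟩ := h1
    obtain ⟨b', rfl⟩ := h1'
    rw [hdeg, show (a' + a' + (b' + b') + 2 * e) / 2 = a' + b' + e by omega]
    ring

theorem exists_pal_of_not_root (h2 : (2 : F) ≠ 0) {f : F[X]} (hf : SelfRec f) (h1 : ¬ f.IsRoot 1)
    (h1' : ¬ f.IsRoot (-1)) : ∃ e, f.natDegree = 2 * e ∧ f.reverse = f := by
  obtain ⟨a, b, e, f₀, hfe, hn, hn', hdeg⟩ := exists_split h2 hf
  obtain ⟨ha, hb⟩ := mult_eq h2 f₀.2.1.ne_zero hn hn' a b
  rw [← hfe, rootMultiplicity_eq_zero h1] at ha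
  rw [← hfe, rootMultiplicity_eq_zero h1'] at hb
  subst ha hb
  refine ⟨e, by omega, ?_⟩
  rw [hfe, pow_zero, pow_zero, one_mul, one_mul]
  exact f₀.2.2.2

theorem exists_root_of_odd (h2 : (2 : F) ≠ 0) {f : F[X]} (hf : SelfRec f) (hd : Odd f.natDegree) :
    f.IsRoot 1 ∨ f.IsRoot (-1) := by
  by_contra h
  push Not at h
  obtain ⟨e, he, -⟩ := exists_pal_of_not_root h2 hf h.1 h.2
  rw [he] at hd
  exact Nat.not_even_iff_odd.2 hd (even_two_mul e)

variable [Fintype F]

theorem card_layO (h2 : (2 : F) ≠ 0) (j d : ℕ) :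
    Finite {x : LayO F j // ldO x = d} ∧
      Nat.card {x : LayO F j // ldO x = d} ≤ layO (Fintype.card F) j d := by
  unfold layO
  split_ifs with hj
  · obtain ⟨hfin, hle⟩ := card_evenObj (F := F) h2 d
    let f : {x : LayO F j // ldO x = d} → EvenObj F d := fun x =>
      ⟨x.1.1, x.1.2.1, by have h := x.2; unfold ldO at h; rwa [if_pos hj] at h,
        fun h => (x.1.2.2.1 h).1, fun h => (x.1.2.2.2.1 h).1⟩
    have hf : Function.Injective f := fun x y h =>
      Subtype.ext (Subtype.ext (congrArg (fun t : EvenObj F d => t.1) h))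
    exact ⟨Finite.of_injective f hf, (Nat.card_le_card_of_injective f hf).trans hle⟩
  · obtain ⟨hfin, hle⟩ := card_oddObj (F := F) h2 d
    have he : Even j := Nat.even_iff.2 (by omega)
    have hσ : ∀ x : LayO F j, x.1.2 = (false, false) := fun x => by
      refine Prod.ext ?_ ?_
      · exact Bool.eq_false_iff.2 fun h => Nat.not_odd_iff_even.2 he (x.2.2.1 h).2
      · exact Bool.eq_false_iff.2 fun h => Nat.not_odd_iff_even.2 he (x.2.2.2.1 h).2
    have hdeg : ∀ x : {x : LayO F j // ldO x = d}, x.1.1.1.natDegree = 2 * d := fun x => by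
      rcases Nat.eq_zero_or_pos j with rfl | hj0
      · have h := x.2
        unfold ldO at h
        rw [if_neg (by simp)] at h
        obtain ⟨a, b, e, f₀, hfe, hn, hn', hdeg⟩ := exists_split h2 x.1.2.1
        obtain ⟨ha, hb⟩ := mult_eq h2 f₀.2.1.ne_zero hn hn' a b
        rw [← hfe] at ha hb
        obtain ⟨h1, h1'⟩ := x.1.2.2.2.2 he
        rw [ha] at h1
        rw [hb] at h1'
        obtain ⟨a', rfl⟩ := h1
        obtain ⟨b', rfl⟩ := h1'
        omega
      have h := wt_mul_ldO h2 x.1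
      rw [x.2, wtO, if_neg hj, mul_comm 2 j, mul_assoc] at h
      exact (Nat.eq_of_mul_eq_mul_left hj0 h).symm
    let f : {x : LayO F j // ldO x = d} → OddObj F d := fun x =>
      ⟨x.1.1.1, x.1.2.1, (x.1.2.2.2.2 he).1, (x.1.2.2.2.2 he).2, hdeg x⟩
    have hf : Function.Injective f := fun x y h => by
      refine Subtype.ext (Subtype.ext (Prod.ext (congrArg (fun t : OddObj F d => t.1) h) ?_))
      rw [hσ, hσ]
    exact ⟨Finite.of_injective f hf, (Nat.card_le_card_of_injective f hf).trans hle⟩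

theorem card_layT (h2 : (2 : F) ≠ 0) (j d : ℕ) :
    Finite {x : LayO F j // NoSlot x ∧ ldO x = d} ∧
      Nat.card {x : LayO F j // NoSlot x ∧ ldO x = d} ≤ layT (Fintype.card F) j d := by
  obtain ⟨hfin, hle⟩ := card_layO (F := F) h2 j d
  let ι₀ : {x : LayO F j // NoSlot x ∧ ldO x = d} → {x : LayO F j // ldO x = d} := fun x => ⟨x.1, x.2.2⟩
  have hι₀ : Function.Injective ι₀ := fun x y h => Subtype.ext (congrArg (fun t : {x : LayO F j // ldO x = d} => t.1) h)
  refine ⟨Finite.of_injective ι₀ hι₀, ?_⟩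
  unfold layT
  split_ifs with hj
  · have hno : ∀ x : {x : LayO F j // NoSlot x ∧ ldO x = d}, x.1.1.2 = (false, false) := fun x => by
      obtain ⟨h1, h1'⟩ := x.2.1 (Nat.odd_iff.2 hj)
      exact Prod.ext (Bool.eq_false_iff.2 fun h => h1 (x.1.2.2.1 h).1)
        (Bool.eq_false_iff.2 fun h => h1' (x.1.2.2.2.1 h).1)
    have hd' : ∀ x : {x : LayO F j // NoSlot x ∧ ldO x = d}, x.1.1.1.natDegree = d := fun x => by
      have h := x.2.2
      unfold ldO at h
      rwa [if_pos hj] at h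
    unfold pal
    split_ifs with hd
    · obtain ⟨hfin, hle⟩ := card_pal (F := F) (d / 2)
      let f : {x : LayO F j // NoSlot x ∧ ldO x = d} → Pal F (d / 2) := fun x =>
        ⟨x.1.1.1, x.1.2.1.monic, by have := hd' x; omega, by
          obtain ⟨h1, h1'⟩ := x.2.1 (Nat.odd_iff.2 hj)
          exact (exists_pal_of_not_root h2 x.1.2.1 h1 h1').choose_spec.2⟩
      have hf : Function.Injective f := fun x y h => by
        refine Subtype.ext (Subtype.ext (Prod.ext (congrArg (fun t : Pal F (d / 2) => t.1) h) ?_))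
        rw [hno, hno]
      exact (Nat.card_le_card_of_injective f hf).trans hle
    · haveI : IsEmpty {x : LayO F j // NoSlot x ∧ ldO x = d} := ⟨fun x => by
        obtain ⟨h1, h1'⟩ := x.2.1 (Nat.odd_iff.2 hj)
        obtain ⟨e, he, -⟩ := exists_pal_of_not_root h2 x.1.2.1 h1 h1'
        have := hd' x
        omega⟩
      simp
  · exact (Nat.card_le_card_of_injective ι₀ hι₀).trans (hle.trans (le_of_eq (if_neg hj)))

/-- Palindromic polynomials without roots `1`, `-1`. -/
abbrev Nz (F : Type u) [Field F] (e : ℕ) : Type u := {f : Pal F e // ¬ f.1.IsRoot 1 ∧ ¬ f.1.IsRoot (-1)}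

theorem eval_pal {e : ℕ} (f : Pal F (e + 2)) :
    ∃ L L' : F, (∀ g : Pal F (e + 2), (∀ i ≤ e, g.1.coeff i = f.1.coeff i) →
      g.1.eval 1 = L + g.1.coeff (e + 1) * 2 + g.1.coeff (e + 2) ∧
      g.1.eval (-1) = L' + (-1) ^ (e + 1) * (g.1.coeff (e + 1) * 2) + (-1) ^ (e + 2) * g.1.coeff (e + 2)) := by
  refine ⟨(∑ i ∈ Finset.range (e + 1), f.1.coeff i) * 2,
    (∑ i ∈ Finset.range (e + 1), (-1 : F) ^ i * f.1.coeff i) * 2, fun g hg => ?_⟩
  have key : ∀ s : F, s * s = 1 → g.1.eval s =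
      (∑ i ∈ Finset.range (e + 1), s ^ i * f.1.coeff i) * 2 + s ^ (e + 1) * (g.1.coeff (e + 1) * 2) +
        s ^ (e + 2) * g.1.coeff (e + 2) := by
    intro s hs
    have hs2 : ∀ i ≤ 2 * (e + 2), s ^ (2 * (e + 2) - i) = s ^ i := fun i hi => by
      have h1 : s ^ (2 * (e + 2) - i) * s ^ i = s ^ i * s ^ i := by
        rw [← pow_add, Nat.sub_add_cancel hi, ← pow_add, ← two_mul, pow_mul, pow_mul, sq, hs, one_pow, one_pow]
      exact mul_right_cancel₀ (pow_ne_zero _ (left_ne_zero_of_mul_eq_one hs)) h1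
    have hsplit : g.1.eval s = ∑ i ∈ Finset.range (e + 2), s ^ i * g.1.coeff i +
        (s ^ (e + 2) * g.1.coeff (e + 2) + ∑ i ∈ Finset.range (e + 2), s ^ i * g.1.coeff i) := by
      rw [eval_eq_sum_range, g.2.2.1, show 2 * (e + 2) + 1 = (e + 2) + ((e + 2) + 1) by omega,
        Finset.sum_range_add, Finset.sum_range_succ' _ (e + 2)]
      simp only [mul_comm _ (s ^ _)]
      rw [add_comm (s ^ (e + 2) * _) (∑ i ∈ _, _)]
      congr 2
      rw [← Finset.sum_range_reflect (fun i => s ^ i * g.1.coeff i)]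
      refine Finset.sum_congr rfl fun i hi => ?_
      rw [Finset.mem_range] at hi
      have hi' : e + 2 + (i + 1) = 2 * (e + 2) - (e + 2 - 1 - i) := by omega
      rw [hi', hs2 _ (by omega), ← pal_coeff g (by omega)]
    rw [hsplit, Finset.sum_range_succ]
    rw [show ∑ i ∈ Finset.range (e + 1), s ^ i * g.1.coeff i = ∑ i ∈ Finset.range (e + 1), s ^ i * f.1.coeff i from
      Finset.sum_congr rfl fun i hi => by rw [hg i (Nat.le_of_lt_succ (Finset.mem_range.1 hi))]]
    ring
  refine ⟨?_, ?_⟩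
  · rw [key 1 (one_mul 1)]
    simp [one_pow]
  · rw [key (-1) (by ring)]

theorem card_nz (h2 : (2 : F) ≠ 0) (e : ℕ) :
    Finite (Nz F e) ∧ Nat.card (Nz F e) ≤ nz (Fintype.card F) e := by
  classical
  haveI := (card_pal (F := F) e).1
  refine ⟨inferInstance, ?_⟩
  rcases e with _ | _ | e
  · exact le_trans (Nat.card_le_card_of_injective _ Subtype.val_injective)
      ((card_pal (F := F) 0).2.trans (le_of_eq (pow_zero _)))
  · have hev : ∀ f : Pal F 1, ∀ s : F, s * s = 1 → f.1.eval s = 2 + f.1.coeff 1 * s := by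
      intro f s hs
      have h0 : f.1.coeff 0 = 1 ∧ f.1.coeff 2 = 1 := by
        have h := f.2.1.coeff_natDegree
        rw [f.2.2.1] at h
        exact ⟨by rw [pal_coeff f (Nat.zero_le _)]; exact h, h⟩
      rw [eval_eq_sum_range, f.2.2.1]
      simp [Finset.sum_range_succ, h0.1, h0.2, sq, hs]
      ring
    let φ : Nz F 1 → {c : F // c ∈ Finset.univ \ {(2 : F), -2}} := fun f => ⟨f.1.1.coeff 1, by
      simp only [Finset.mem_sdiff, Finset.mem_univ, true_and, Finset.mem_insert, Finset.mem_singleton, not_or]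
      constructor
      · intro h
        exact f.2.2 (by rw [IsRoot, hev f.1 (-1) (by ring), h]; ring)
      · intro h
        exact f.2.1 (by rw [IsRoot, hev f.1 1 (one_mul 1), h]; ring)⟩
    have hφ : Function.Injective φ := by
      intro f g h
      have hc : f.1.1.coeff 1 = g.1.1.coeff 1 := congrArg Subtype.val h
      refine Subtype.ext (Subtype.ext (Polynomial.ext fun i => ?_))
      have h0 : ∀ f : Pal F 1, f.1.coeff 0 = 1 ∧ f.1.coeff 2 = 1 := fun f => by
        have h := f.2.1.coeff_natDegree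
        rw [f.2.2.1] at h
        exact ⟨by rw [pal_coeff f (Nat.zero_le _)]; exact h, h⟩
      rcases i with _ | _ | _ | i
      · rw [(h0 f.1).1, (h0 g.1).1]
      · exact hc
      · rw [(h0 f.1).2, (h0 g.1).2]
      · rw [coeff_eq_zero_of_natDegree_lt (by rw [f.1.2.2.1]; omega),
          coeff_eq_zero_of_natDegree_lt (by rw [g.1.2.2.1]; omega)]
    refine (Nat.card_le_card_of_injective φ hφ).trans (le_of_eq ?_)
    rw [Nat.card_eq_fintype_card, Fintype.card_coe, Finset.card_univ_diff,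
      Finset.card_pair (fun h => h2 ((mul_eq_zero.1 (show (2 : F) * 2 = 0 by linear_combination h)).elim id id))]
    rfl
  · have h4 : (2 : F) * 2 ≠ 0 := mul_ne_zero h2 h2
    let φ : Nz F (e + 2) → {x : F // x ≠ 0} × {x : F // x ≠ 0} × (Fin e → F) := fun f =>
      (⟨f.1.1.eval 1, f.2.1⟩, ⟨f.1.1.eval (-1), f.2.2⟩, fun i => f.1.1.coeff ((i : ℕ) + 1))
    have hφ : Function.Injective φ := by
      intro f g h
      have ev1 : f.1.1.eval 1 = g.1.1.eval 1 := congrArg (fun t => (t.1 : F)) h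
      have ev2 : f.1.1.eval (-1) = g.1.1.eval (-1) := congrArg (fun t => (t.2.1 : F)) h
      have hm : ∀ i : Fin e, f.1.1.coeff ((i : ℕ) + 1) = g.1.1.coeff ((i : ℕ) + 1) := fun i =>
        congrFun (congrArg (fun t => t.2.2) h) i
      have h0 : ∀ f : Pal F (e + 2), f.1.coeff 0 = 1 := fun f => by
        have h := f.2.1.coeff_natDegree
        rw [f.2.2.1] at h
        rw [pal_coeff f (Nat.zero_le _)]
        exact h
      have hlow : ∀ i ≤ e, g.1.1.coeff i = f.1.1.coeff i := by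
        intro i hi
        rcases i with _ | i
        · rw [h0, h0]
        · exact (hm ⟨i, by omega⟩).symm
      obtain ⟨L, L', hL⟩ := eval_pal f.1
      obtain ⟨a1, a2⟩ := hL f.1 fun i _ => rfl
      obtain ⟨b1, b2⟩ := hL g.1 hlow
      rw [a1, b1] at ev1
      rw [a2, b2, pow_succ (-1 : F) (e + 1)] at ev2
      have hp : ((-1 : F) ^ (e + 1)) * (-1) ^ (e + 1) = 1 := by rw [← mul_pow]; simp
      have c1 : g.1.1.coeff (e + 1) = f.1.1.coeff (e + 1) := mul_left_cancel₀ h4 (by
        linear_combination -1 * ev1 - (-1 : F) ^ (e + 1) * ev2 +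
          (2 * f.1.1.coeff (e + 1) - f.1.1.coeff (e + 2) - 2 * g.1.1.coeff (e + 1) + g.1.1.coeff (e + 2)) * hp)
      have c2 : g.1.1.coeff (e + 2) = f.1.1.coeff (e + 2) := by linear_combination -1 * ev1 - 2 * c1
      have hle : ∀ i ≤ e + 2, f.1.1.coeff i = g.1.1.coeff i := by
        intro i hi
        rcases Nat.lt_or_ge i (e + 1) with h | h
        · exact (hlow i (by omega)).symm
        · rcases Nat.lt_or_ge i (e + 2) with h' | h'
          · rw [show i = e + 1 by omega, c1]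
          · rw [show i = e + 2 by omega, c2]
      refine Subtype.ext (Subtype.ext (Polynomial.ext fun i => ?_))
      rcases lt_or_ge (2 * (e + 2)) i with hi | hi
      · rw [coeff_eq_zero_of_natDegree_lt (f.1.2.2.1.trans_lt hi),
          coeff_eq_zero_of_natDegree_lt (g.1.2.2.1.trans_lt hi)]
      rcases le_or_gt i (e + 2) with hie | hie
      · exact hle i hie
      · rw [pal_coeff f.1 hi, pal_coeff g.1 hi]
        exact hle _ (by omega)
    refine (Nat.card_le_card_of_injective φ hφ).trans (le_of_eq ?_)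
    rw [Nat.card_prod, Nat.card_prod, Nat.card_fun, Nat.card_fin, Nat.card_eq_fintype_card,
      Fintype.card_subtype_compl, Fintype.card_subtype_eq, Nat.card_eq_fintype_card, nz, if_neg (by omega),
      if_neg (by omega), show e + 2 - 2 = e by omega]
    ring

theorem card_layR (h2 : (2 : F) ≠ 0) (d : ℕ) :
    Finite {x : LayO F 1 // Simple x ∧ ldO x = d} ∧
      Nat.card {x : LayO F 1 // Simple x ∧ ldO x = d} ≤ psR (Fintype.card F) d := by
  classical
  haveI := fun e => (card_nz (F := F) h2 e).1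
  haveI : Finite {x : LayO F 1 // ldO x = d} := (card_layO h2 1 d).1
  have hι : Function.Injective fun x : {x : LayO F 1 // Simple x ∧ ldO x = d} =>
      (⟨x.1, x.2.2⟩ : {x : LayO F 1 // ldO x = d}) := fun x y h =>
    Subtype.ext (congrArg (fun t : {x : LayO F 1 // ldO x = d} => t.1) h)
  refine ⟨Finite.of_injective _ hι, ?_⟩
  let T := Σ ab : Fin 2 × Fin 2, {σ : Bool × Bool // (σ.1 = true → (ab.1 : ℕ) = 1) ∧ (σ.2 = true → (ab.2 : ℕ) = 1)} ×
    {f : Nz F ((d - ((ab.1 : ℕ) + ab.2)) / 2) // d = (ab.1 : ℕ) + ab.2 + 2 * ((d - ((ab.1 : ℕ) + ab.2)) / 2)}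
  haveI : Finite T := inferInstance
  choose a b e f₀ hfe hn hn' hdeg using fun x : {x : LayO F 1 // Simple x ∧ ldO x = d} => exists_split h2 x.1.2.1
  have hmult : ∀ x, x.1.1.1.rootMultiplicity 1 = a x ∧ x.1.1.1.rootMultiplicity (-1) = b x := fun x => by
    rw [hfe x]; exact mult_eq h2 (f₀ x).2.1.ne_zero (hn x) (hn' x) _ _
  have ha : ∀ x, a x < 2 := fun x => by have := x.2.1.1; rw [(hmult x).1] at this; omega
  have hb : ∀ x, b x < 2 := fun x => by have := x.2.1.2; rw [(hmult x).2] at this; omega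
  have hd : ∀ x, d = a x + b x + 2 * e x := fun x => by
    have h := x.2.2
    unfold ldO at h
    rw [if_pos (by rfl)] at h
    exact h.symm.trans (hdeg x)
  let Φ : {x : LayO F 1 // Simple x ∧ ldO x = d} → T := fun x =>
    ⟨(⟨a x, ha x⟩, ⟨b x, hb x⟩), ⟨x.1.1.2,
      fun h => by
        have h1 := (rootMultiplicity_pos x.1.2.1.monic.ne_zero).2 (x.1.2.2.1 h).1
        rw [(hmult x).1] at h1
        have := ha x
        show a x = 1
        omega,
      fun h => by
        have h1 := (rootMultiplicity_pos x.1.2.1.monic.ne_zero).2 (x.1.2.2.2.1 h).1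
        rw [(hmult x).2] at h1
        have := hb x
        show b x = 1
        omega⟩,
      ⟨⟨⟨(f₀ x).1, (f₀ x).2.1, by have := hd x; dsimp only; rw [(f₀ x).2.2.1]; omega, (f₀ x).2.2.2⟩, hn x, hn' x⟩,
        by have := hd x; dsimp only; omega⟩⟩
  have hΦ : Function.Injective Φ := by
    intro x y h
    have h1 : a x = a y := congrArg (fun t : T => (t.1.1 : ℕ)) h
    have h1' : b x = b y := congrArg (fun t : T => (t.1.2 : ℕ)) h
    have h3 : x.1.1.2 = y.1.1.2 := congrArg (fun t : T => t.2.1.1) h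
    have h4 : (f₀ x).1 = (f₀ y).1 := congrArg (fun t : T => t.2.2.1.1.1) h
    refine Subtype.ext (Subtype.ext (Prod.ext ?_ h3))
    rw [hfe x, hfe y, h1, h1', h4]
  refine (Nat.card_le_card_of_injective Φ hΦ).trans ?_
  haveI : ∀ (m : ℕ) (P : Prop), Finite {_f : Nz F m // P} := fun m P => Subtype.finite
  have hpart : ∀ (m : ℕ) (P : Prop) [Decidable P],
      Nat.card {_f : Nz F m // P} ≤ if P then nz (Fintype.card F) m else 0 := by
    intro m P _
    split_ifs with hP
    · exact (Nat.card_le_card_of_injective _ Subtype.val_injective).trans (card_nz h2 m).2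
    · haveI : IsEmpty {_f : Nz F m // P} := ⟨fun f => hP f.2⟩
      simp
  rw [Nat.card_sigma]
  refine le_trans (Finset.sum_le_sum fun ab _ =>
    (Nat.card_prod _ _).le.trans (Nat.mul_le_mul_left _ (hpart _ _))) ?_
  simp only [Fintype.sum_prod_type, Fin.sum_univ_two, Nat.card_eq_fintype_card, Fintype.card_subtype]
  have e00 : (Finset.univ.filter fun σ : Bool × Bool => (σ.1 = true → (0 : ℕ) = 1) ∧ (σ.2 = true → (0 : ℕ) = 1)).card = 1 := by decide
  have e01 : (Finset.univ.filter fun σ : Bool × Bool => (σ.1 = true → (0 : ℕ) = 1) ∧ (σ.2 = true → True)).card = 2 := by decide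
  have e10 : (Finset.univ.filter fun σ : Bool × Bool => (σ.1 = true → True) ∧ (σ.2 = true → (0 : ℕ) = 1)).card = 2 := by decide
  have e11 : (Finset.univ.filter fun σ : Bool × Bool => (σ.1 = true → True) ∧ (σ.2 = true → True)).card = 4 := by decide
  simp only [Fin.val_zero, Fin.val_one, e00, e01, e10, e11]
  unfold psR
  rw [show (d - (0 + 0)) / 2 = d / 2 by omega, show (d - (1 + 1)) / 2 = d / 2 - 1 by omega]
  rcases Nat.mod_two_eq_zero_or_one d with hd2 | hd2
  · split_ifs <;> omega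
  · rw [show (d - (0 + 1)) / 2 = d / 2 by omega]
    split_ifs <;> omega

/-- Tuples of layers `2, …, J + 1` with a property. -/
abbrev TupO (P : ∀ {j : ℕ}, LayO F j → Prop) (J n : ℕ) : Type u :=
  {f : (i : Fin J) → LayO F ((i : ℕ) + 2) //
    (∀ i, P (f i)) ∧ ∑ i : Fin J, wtO ((i : ℕ) + 2) * ldO (f i) = n}

theorem card_tupO (P : ∀ {j : ℕ}, LayO F j → Prop) (L : ℕ → ℕ → ℕ)
    (hL : ∀ j d, 2 ≤ j → Finite {x : LayO F j // P x ∧ ldO x = d} ∧ Nat.card {x : LayO F j // P x ∧ ldO x = d} ≤ L j d) :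
    ∀ J n, Finite (TupO (F := F) P J n) ∧ Nat.card (TupO (F := F) P J n) ≤ cW L J n
  | 0, n => by
    haveI : Subsingleton (TupO (F := F) P 0 n) := ⟨fun a b => Subtype.ext (_root_.funext fun i => i.elim0)⟩
    refine ⟨inferInstance, ?_⟩
    by_cases hn : n = 0
    · rw [cW, if_pos hn]
      exact Finite.card_le_one_iff_subsingleton.2 inferInstance
    · haveI : IsEmpty (TupO (F := F) P 0 n) := ⟨fun a => hn (by simpa using a.2.2.symm)⟩
      simp
  | J + 1, n => by
    classical
    haveI := fun m => (card_tupO P L hL J m).1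
    haveI := fun d => (hL (J + 2) d (by omega)).1
    have hw := wtO_pos (show 2 ≤ J + 2 by omega)
    have hb : ∀ f : TupO (F := F) P (J + 1) n, (∑ j : Fin J, wtO ((j : ℕ) + 2) * ldO (f.1 j.castSucc)) +
        wtO (J + 2) * ldO (f.1 (Fin.last J)) = n := by
      intro f
      have h := f.2.2
      rw [Fin.sum_univ_castSucc] at h
      exact h
    let g : TupO (F := F) P (J + 1) n → Σ d : Fin (n / wtO (J + 2) + 1),
        {x : LayO F (J + 2) // P x ∧ ldO x = (d : ℕ)} × TupO (F := F) P J (n - wtO (J + 2) * d) := fun f =>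
      ⟨⟨ldO (f.1 (Fin.last J)), by
          rw [Nat.lt_succ_iff, Nat.le_div_iff_mul_le (by omega), mul_comm]
          exact le_of_le_of_eq (Nat.le_add_left _ _) (hb f)⟩,
        ⟨f.1 (Fin.last J), f.2.1 (Fin.last J), rfl⟩, ⟨fun j => f.1 j.castSucc, fun j => f.2.1 j.castSucc, by
          exact eq_tsub_of_add_eq (hb f)⟩⟩
    have hgi : Function.Injective g := by
      intro f f' e
      have h1 := congrArg (fun s : Σ d : Fin (n / wtO (J + 2) + 1),
        {x : LayO F (J + 2) // P x ∧ ldO x = (d : ℕ)} × TupO (F := F) P J (n - wtO (J + 2) * d) => s.2.1.1) e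
      have h2' := congrArg (fun s : Σ d : Fin (n / wtO (J + 2) + 1),
        {x : LayO F (J + 2) // P x ∧ ldO x = (d : ℕ)} × TupO (F := F) P J (n - wtO (J + 2) * d) => s.2.2.1) e
      exact Subtype.ext (_root_.funext fun j => Fin.lastCases h1 (fun i => congrFun h2' i) j)
    refine ⟨Finite.of_injective g hgi, (Nat.card_le_card_of_injective g hgi).trans ?_⟩
    rw [Nat.card_sigma, cW, Finset.sum_range]
    refine Finset.sum_le_sum fun d _ => ?_
    rw [Nat.card_prod]
    exact Nat.mul_le_mul (hL _ _ (by omega)).2 (card_tupO P L hL J _).2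

/-- All the layers. -/
abbrev Dat (F : Type u) [Field F] (J N : ℕ) : Type u :=
  {f : LayO F 1 × ((i : Fin J) → LayO F ((i : ℕ) + 2)) //
    (∑ i : Fin J, wtO ((i : ℕ) + 2) * ldO (f.2 i)) + ldO f.1 = N}

theorem card_dat (Q : LayO F 1 → Prop) (u : ℕ → ℕ)
    (hu : ∀ d, Finite {x : LayO F 1 // Q x ∧ ldO x = d} ∧ Nat.card {x : LayO F 1 // Q x ∧ ldO x = d} ≤ u d)
    (P : ∀ {j : ℕ}, LayO F j → Prop) (L : ℕ → ℕ → ℕ)
    (hL : ∀ j d, 2 ≤ j → Finite {x : LayO F j // P x ∧ ldO x = d} ∧ Nat.card {x : LayO F j // P x ∧ ldO x = d} ≤ L j d)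
    (J N : ℕ) : Finite {f : Dat F J N // Q f.1.1 ∧ ∀ i, P (f.1.2 i)} ∧
      Nat.card {f : Dat F J N // Q f.1.1 ∧ ∀ i, P (f.1.2 i)} ≤ conv u (cW L J) N := by
  haveI := fun m => (card_tupO P L hL J m).1
  haveI := fun d => (hu d).1
  let g : {f : Dat F J N // Q f.1.1 ∧ ∀ i, P (f.1.2 i)} → Σ d : Fin (N + 1),
      {x : LayO F 1 // Q x ∧ ldO x = (d : ℕ)} × TupO (F := F) P J (N - d) := fun f =>
    ⟨⟨ldO f.1.1.1, by have := f.1.2; omega⟩, ⟨f.1.1.1, f.2.1, rfl⟩,
      ⟨f.1.1.2, f.2.2, by have := f.1.2; dsimp only; omega⟩⟩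
  have hgi : Function.Injective g := by
    intro f f' e
    have h1 := congrArg (fun s : Σ d : Fin (N + 1),
      {x : LayO F 1 // Q x ∧ ldO x = (d : ℕ)} × TupO (F := F) P J (N - d) => s.2.1.1) e
    have h2 := congrArg (fun s : Σ d : Fin (N + 1),
      {x : LayO F 1 // Q x ∧ ldO x = (d : ℕ)} × TupO (F := F) P J (N - d) => s.2.2.1) e
    exact Subtype.ext (Subtype.ext (Prod.ext h1 h2))
  refine ⟨Finite.of_injective g hgi, (Nat.card_le_card_of_injective g hgi).trans ?_⟩
  rw [Nat.card_sigma, conv, Finset.sum_range]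
  refine Finset.sum_le_sum fun d _ => ?_
  rw [Nat.card_prod]
  exact Nat.mul_le_mul (hu _).2 (card_tupO P L hL J _).2

theorem card_dat_all (h2 : (2 : F) ≠ 0) (J N : ℕ) :
    Finite (Dat F J N) ∧ Nat.card (Dat F J N) ≤ totO (Fintype.card F) J N := by
  have hall : ∀ j d, Finite {x : LayO F j // True ∧ ldO x = d} ∧
      Nat.card {x : LayO F j // True ∧ ldO x = d} ≤ layO (Fintype.card F) j d := fun j d => by
    obtain ⟨hf, hc⟩ := card_layO (F := F) h2 j d
    let E : {x : LayO F j // True ∧ ldO x = d} ≃ {x : LayO F j // ldO x = d} :=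
      Equiv.subtypeEquivRight fun x => by simp
    exact ⟨Finite.of_equiv _ E.symm, (Nat.card_congr E).le.trans hc⟩
  obtain ⟨hf, hc⟩ := card_dat (F := F) (fun _ => True) (psi (Fintype.card F))
    (fun d => ⟨(hall 1 d).1, (hall 1 d).2.trans (le_of_eq (if_pos rfl))⟩)
    (fun _ => True) (layO (Fintype.card F)) (fun j d _ => hall j d) J N
  let E : Dat F J N ≃ {f : Dat F J N // True ∧ ∀ i : Fin J, (fun {j : ℕ} (_ : LayO F j) => True) (f.1.2 i)} :=
    (Equiv.subtypeUnivEquiv fun f => ⟨trivial, fun _ => trivial⟩).symm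
  exact ⟨Finite.of_equiv _ E.symm, (Nat.card_congr E).le.trans hc⟩

theorem card_dat_noSlot (h2 : (2 : F) ≠ 0) (J N : ℕ) :
    Nat.card {f : Dat F J N // NoSlot f.1.1 ∧ ∀ i, NoSlot (f.1.2 i)} ≤ totT (Fintype.card F) J N :=
  (card_dat (F := F) NoSlot (pal (Fintype.card F))
    (fun d => ⟨(card_layT h2 1 d).1, (card_layT h2 1 d).2.trans (le_of_eq (if_pos rfl))⟩)
    (fun x => NoSlot x) (layT (Fintype.card F)) (fun j d _ => card_layT h2 j d) J N).2

theorem card_dat_simple (h2 : (2 : F) ≠ 0) (J N : ℕ) :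
    Nat.card {f : Dat F J N // Simple f.1.1} ≤ totR (Fintype.card F) J N := by
  have hall : ∀ j d, Finite {x : LayO F j // True ∧ ldO x = d} ∧
      Nat.card {x : LayO F j // True ∧ ldO x = d} ≤ layO (Fintype.card F) j d := fun j d => by
    obtain ⟨hf, hc⟩ := card_layO (F := F) h2 j d
    let E : {x : LayO F j // True ∧ ldO x = d} ≃ {x : LayO F j // ldO x = d} :=
      Equiv.subtypeEquivRight fun x => by simp
    exact ⟨Finite.of_equiv _ E.symm, (Nat.card_congr E).le.trans hc⟩
  obtain ⟨hf, hc⟩ := card_dat (F := F) Simple (psR (Fintype.card F)) (card_layR h2)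
    (fun _ => True) (layO (Fintype.card F)) (fun j d _ => hall j d) J N
  refine le_trans (Nat.card_le_card_of_injective (fun f => ⟨f.1, f.2, fun _ => trivial⟩) fun f g h => ?_) hc
  exact Subtype.ext (congrArg (fun t : {f : Dat F J N // Simple f.1.1 ∧ ∀ _ : Fin J, True} => t.1) h)

end Cfsg.Agent.OClassCount
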