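import Cfsg.Agent.OClassCount.LastBit
import Cfsg.Agent.OClassCount.Tuples
import Cfsg.Agent.OClassCount.Layers
import Cfsg.Agent.OClassCount.Peel
import Cfsg.Agent.Classical.OrthBasic

/-! The data of a class of an orthogonal group, `q` odd (owner: helper23). -/

set_option autoImplicit false
set_option linter.style.haveILetI false
set_option linter.unusedSectionVars false

namespace Cfsg.Agent.OClassCount

open Polynomial Module QuadraticMap
open LinearMap (BilinForm)
open Cfsg.Agent.Classical (OQ OQ_polar)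
open Cfsg.Agent.SpClassCount (UData gX gY isCompl_g g_orth gX_invariant ker_pow_le_gX)

universe u

variable {F : Type u} [Field F] [Fintype F] {N : ℕ} {Q : QuadraticForm F (Vec F N)}

/-- The form. -/
abbrev pol (Q : QuadraticForm F (Vec F N)) : BilinForm F (Vec F N) := QuadraticMap.polarBilin Q

/-- The automorphism of an element. -/
abbrev tr (g : OQ Q) : Vec F N ≃ₗ[F] Vec F N := (g : Vec F N ≃ₗ[F] Vec F N)

theorem pol_symm (x y : Vec F N) : pol Q x y = pol Q y x := QuadraticMap.polar_comm Q x y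

theorem tr_iso (g : OQ Q) (x y : Vec F N) : pol Q (tr g x) (tr g y) = pol Q x y := OQ_polar g x y

theorem res_symm (X : Submodule F (Vec F N)) (x y : X) : (pol Q).restrict X x y = (pol Q).restrict X y x :=
  pol_symm _ _

theorem finrank_vec_le : finrank F (Vec F N) ≤ N := le_of_eq (finrank_fin_fun F)

variable (g : OQ Q)

/-- The unipotent isometry on the generalised eigenspace of `s`. -/
noncomputable def partEnd (s : F) : Module.End F (gX (tr g) s N) :=
  s • (ClassConj.restrEquiv (tr g) (gX (tr g) s N) (gX (tr g) s N) (gX_invariant (tr g) s N)).toLinearMap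

theorem partEnd_sub_pow (s : F) (hs : s * s = 1) (k : ℕ) (x : gX (tr g) s N) :
    (((partEnd g s - 1) ^ k) x : Vec F N) = s ^ k • (ClassConj.shiftMap (tr g) s ^ k) (x : Vec F N) := by
  induction k with
  | zero => simp
  | succ k ih =>
    rw [pow_succ', Module.End.mul_apply, pow_succ' (ClassConj.shiftMap (tr g) s), Module.End.mul_apply]
    show s • tr g ((((partEnd g s - 1) ^ k) x : gX (tr g) s N) : Vec F N) -
      (((partEnd g s - 1) ^ k) x : Vec F N) = _
    rw [ih, map_smul, smul_smul, ← pow_succ', ClassConj.shiftMap_apply, smul_sub, smul_smul _ s, pow_succ,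
      mul_assoc, hs, mul_one]

variable (h2 : (2 : F) ≠ 0) (hQ : (pol Q).Nondegenerate)

include h2 hQ in
theorem exists_part (s : F) :
    Nonempty (s * s = 1 → UData ((pol Q).restrict (gX (tr g) s N)) (partEnd g s) N) := by
  by_cases hs : s * s = 1
  swap
  · exact ⟨fun h => absurd h hs⟩
  obtain ⟨U⟩ := exists_udata (β := (pol Q).restrict (gX (tr g) s N)) (f := partEnd g s) (N := N) h2
    (fun x y => pol_symm _ _) (g_nondeg pol_symm hQ (tr_iso g) hs finrank_vec_le).1
    (fun u v => by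
      show pol Q (s • tr g (u : Vec F N)) (s • tr g (v : Vec F N)) = _
      rw [map_smul, map_smul, LinearMap.smul_apply, tr_iso, smul_smul, hs, one_smul]
      rfl)
    (LinearMap.ext fun x => Subtype.ext (by
      rw [partEnd_sub_pow g s hs, LinearMap.mem_ker.1 x.2, smul_zero]
      rfl))
  exact ⟨fun _ => U⟩

/-- The chosen chains. -/
noncomputable def part (s : F) (hs : s * s = 1) :
    UData ((pol Q).restrict (gX (tr g) s N)) (partEnd g s) N :=
  (exists_part g h2 hQ s).some hs

variable (D : SUClassCount.Data (glA (tr g) : Matrix (Fin N) (Fin N) F))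

theorem part_lev (s : F) (hs : s * s = 1) {K : ℕ} (hK : 1 ≤ K) :
    (part g h2 hQ s hs).lev K = mlt (tr g) D (X - C s) K := by
  classical
  show Fintype.card {a // (part g h2 hQ s hs).k a = K} = _
  rw [Fintype.card_subtype]
  refine SpClassCount.count_eq_of_min _ _ _ _ (fun m => ?_) hK
  rw [← (part g h2 hQ s hs).finrank_ker_pow m]
  have h := kd_eq (tr g) D (monic_X_sub_C s) (irreducible_X_sub_C s) m
  rw [natDegree_X_sub_C, one_mul] at h
  rw [← h]
  have e : aeval ((tr g : Vec F N ≃ₗ[F] Vec F N) : Module.End F (Vec F N)) ((X - C s) ^ m) =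
      ClassConj.shiftMap (tr g) s ^ m := by
    rw [map_pow, map_sub, aeval_X, aeval_C]
    rfl
  rw [e]
  have hmap : (LinearMap.ker ((partEnd g s - 1) ^ m)).map (gX (tr g) s N).subtype =
      LinearMap.ker (ClassConj.shiftMap (tr g) s ^ m) := by
    have hs0 : s ≠ 0 := left_ne_zero_of_mul_eq_one hs
    ext v
    constructor
    · rintro ⟨x, hx, rfl⟩
      have := congrArg Subtype.val (LinearMap.mem_ker.1 hx)
      rw [partEnd_sub_pow g s hs, ZeroMemClass.coe_zero, smul_eq_zero] at this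
      exact LinearMap.mem_ker.2 (this.resolve_left (pow_ne_zero _ hs0))
    · intro hv
      refine ⟨⟨v, ker_pow_le_gX (tr g) s finrank_vec_le m hv⟩, LinearMap.mem_ker.2 (Subtype.ext ?_), rfl⟩
      rw [partEnd_sub_pow g s hs, LinearMap.mem_ker.1 hv, smul_zero]
      rfl
  rw [← hmap]
  exact (Submodule.equivMapOfInjective _ (Submodule.injective_subtype _) _).finrank_eq

theorem part_lev_zero (s : F) (hs : s * s = 1) : (part g h2 hQ s hs).lev 0 = 0 :=
  Fintype.card_eq_zero_iff.2 ⟨fun a => by have := (part g h2 hQ s hs).datum.pos a.1; have := a.2; omega⟩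

theorem mlt_zero_of_gt (T : Vec F N ≃ₗ[F] Vec F N) (E : SUClassCount.Data (glA T : Matrix (Fin N) (Fin N) F))
    (P : F[X]) {j : ℕ} (hj : N < j) : mlt T E P j = 0 := by
  rw [mlt, Finset.card_eq_zero, Finset.filter_eq_empty_iff]
  intro i _
  have := e_le T E i
  omega

/-- The sign of a layer. -/
noncomputable def sgnL (s : F) (hs : s * s = 1) (j : ℕ) : Bool :=
  if Odd j then (part g h2 hQ s hs).disc j else false

theorem root_of_sgnL (s : F) (hs : s * s = 1) {j : ℕ} (hj : 1 ≤ j) (h : sgnL g h2 hQ s hs j = true) :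
    (layer (tr g) D j).IsRoot s ∧ Odd j := by
  simp only [sgnL] at h
  split_ifs at h with he
  refine ⟨(rootMultiplicity_pos (layer_monic (tr g) D j).ne_zero).1 (Nat.pos_of_ne_zero fun h0 => ?_), he⟩
  rw [layer_root, ← part_lev g h2 hQ D s hs hj] at h0
  rw [(part g h2 hQ s hs).disc_of_lev h0] at h
  exact Bool.false_ne_true h

include h2 hQ in
theorem mult_even (s : F) (hs : s * s = 1) {j : ℕ} (hj1 : 1 ≤ j) (hj : Even j) :
    Even ((layer (tr g) D j).rootMultiplicity s) := by
  rw [layer_root, ← part_lev g h2 hQ D s hs hj1]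
  exact lev_even (part g h2 hQ s hs) h2 (res_symm _) hj

/-- A layer with its signs, from an element. -/
noncomputable def layObj (j : ℕ) (hj : 1 ≤ j) :
    LayO F j :=
  ⟨(layer (tr g) D j, sgnL g h2 hQ 1 (one_mul 1) j, sgnL g h2 hQ (-1) (by ring) j),
    ⟨layer_monic _ D j, layer_coeff0 _ D j, layer_rv _ D hQ (tr_iso g) hj⟩,
    root_of_sgnL g h2 hQ D 1 (one_mul 1) hj, root_of_sgnL g h2 hQ D (-1) (by ring) hj,
    fun he => ⟨mult_even g h2 hQ D 1 (one_mul 1) hj he, mult_even g h2 hQ D (-1) (by ring) hj he⟩⟩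

variable {g' : OQ Q} (D' : SUClassCount.Data (glA (tr g') : Matrix (Fin N) (Fin N) F))

theorem lev_eq_of_layers (hl : ∀ j, 1 ≤ j → j ≤ N + 1 → layer (tr g) D j = layer (tr g') D' j)
    (s : F) (hs : s * s = 1) (K : ℕ) : (part g h2 hQ s hs).lev K = (part g' h2 hQ s hs).lev K := by
  rcases Nat.eq_zero_or_pos K with rfl | hK
  · rw [part_lev_zero, part_lev_zero]
  rw [part_lev g h2 hQ D s hs hK, part_lev g' h2 hQ D' s hs hK]
  rcases le_or_gt K (N + 1) with h | h
  · rw [← layer_root, ← layer_root, hl K hK h]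
  · rw [mlt_zero_of_gt _ D _ (by omega), mlt_zero_of_gt _ D' _ (by omega)]

theorem exists_part_iso (hl : ∀ j, 1 ≤ j → j ≤ N + 1 → layer (tr g) D j = layer (tr g') D' j)
    (s : F) (hs : s * s = 1)
    (hb : ∀ K, Odd K → (part g h2 hQ s hs).disc K = (part g' h2 hQ s hs).disc K) :
    ∃ f : gX (tr g) s N ≃ₗ[F] gX (tr g') s N,
      (∀ (a : gX (tr g) s N) (h : tr g a ∈ gX (tr g) s N), (f ⟨tr g a, h⟩ : Vec F N) = tr g' (f a)) ∧
        ∀ a b, pol Q (f a : Vec F N) (f b : Vec F N) = pol Q (a : Vec F N) (b : Vec F N) := by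
  have hlev := lev_eq_of_layers g h2 hQ D D' hl s hs
  have hP := fun K => exists_level_congr (part g h2 hQ s hs) h2 (part g' h2 hQ s hs)
    (res_symm (gX (tr g) s N)) (res_symm (gX (tr g') s N)) K (hlev K) (hb K)
  obtain ⟨E, hE, hE'⟩ := exists_iso (part g h2 hQ s hs) (part g' h2 hQ s hs) hlev hP
  have hs0 : s ≠ 0 := left_ne_zero_of_mul_eq_one hs
  refine ⟨E, fun a h => ?_, hE'⟩
  have h' := congrArg Subtype.val (hE a)
  simp only [partEnd, LinearMap.smul_apply, LinearEquiv.coe_coe, map_smul, Submodule.coe_smul,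
    ClassConj.restrEquiv_apply] at h'
  exact smul_right_injective _ hs0 h'

include h2 hQ in
theorem isConj_of_bits (hl : ∀ j, 1 ≤ j → j ≤ N + 1 → layer (tr g) D j = layer (tr g') D' j)
    (hb : ∀ (s : F) (hs : s * s = 1) K, Odd K → (part g h2 hQ s hs).disc K = (part g' h2 hQ s hs).disc K) :
    IsConj g g' := by
  obtain ⟨G, hG⟩ := exists_intertwiner (tr g) D D' hl
  obtain ⟨f, hf, hfi⟩ := exists_isometry_of_parts h2 pol_symm hQ pol_symm hQ (tr_iso g) (tr_iso g') hG
    finrank_vec_le fun s hs => exists_part_iso g h2 hQ D D' hl s hs (hb s hs)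
  have hfQ : f ∈ OQ Q := fun v => by
    have h := hfi v v
    rw [QuadraticMap.polarBilin_apply_apply, QuadraticMap.polarBilin_apply_apply, QuadraticMap.polar_self,
      QuadraticMap.polar_self, two_smul, two_smul, ← two_mul, ← two_mul] at h
    exact mul_left_cancel₀ h2 h
  rw [isConj_iff]
  refine ⟨⟨f, hfQ⟩, ?_⟩
  rw [mul_inv_eq_iff_eq_mul]
  exact Subtype.ext (LinearEquiv.ext hf)

theorem toMatrix_prod {V : Type u} [AddCommGroup V] [Module F V] {β : BilinForm F V} {X Y : Submodule F V}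
    (hXY : IsCompl X Y) (hor : ∀ x ∈ X, ∀ y ∈ Y, β x y = 0) (hor' : ∀ x ∈ X, ∀ y ∈ Y, β y x = 0)
    {κ μ : Type} [Fintype κ] [DecidableEq κ] [Fintype μ] [DecidableEq μ] (b : Basis κ F X) (c : Basis μ F Y) :
    (LinearMap.BilinForm.toMatrix ((b.prod c).map (Submodule.prodEquivOfIsCompl X Y hXY)) β).det =
      (LinearMap.BilinForm.toMatrix b (β.restrict X)).det * (LinearMap.BilinForm.toMatrix c (β.restrict Y)).det := by
  have e : LinearMap.BilinForm.toMatrix ((b.prod c).map (Submodule.prodEquivOfIsCompl X Y hXY)) β =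
      Matrix.fromBlocks (LinearMap.BilinForm.toMatrix b (β.restrict X)) 0 0
        (LinearMap.BilinForm.toMatrix c (β.restrict Y)) := by
    ext (i | i) (j | j) <;>
      simp [LinearMap.BilinForm.toMatrix_apply, Submodule.coe_prodEquivOfIsCompl', LinearMap.BilinForm.restrict_apply,
        hor _ (Submodule.coe_mem _) _ (Submodule.coe_mem _), hor' _ (Submodule.coe_mem _) _ (Submodule.coe_mem _)]
  rw [e, Matrix.det_fromBlocks_zero₂₁]

include h2 hQ in
theorem last_bit (hl : ∀ j, 1 ≤ j → j ≤ N + 1 → layer (tr g) D j = layer (tr g') D' j)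
    (s₀ : F) (hs₀ : s₀ * s₀ = 1) {K₀ : ℕ} (hK₀ : Odd K₀) (hpos : (layer (tr g') D' K₀).IsRoot s₀)
    (hb : ∀ (s : F) (hs : s * s = 1) K, Odd K → (s = s₀ ∧ K = K₀) ∨
      (part g h2 hQ s hs).disc K = (part g' h2 hQ s hs).disc K) :
    (part g h2 hQ s₀ hs₀).disc K₀ = (part g' h2 hQ s₀ hs₀).disc K₀ := by
  classical
  by_contra hne
  have hs0 : s₀ ≠ 0 := left_ne_zero_of_mul_eq_one hs₀
  have hms : -s₀ * -s₀ = (1 : F) := by rw [neg_mul_neg, hs₀]
  have hne' : -s₀ ≠ s₀ := fun h => hs0 ((mul_eq_zero.1 (show (2 : F) * s₀ = 0 by linear_combination -h)).resolve_left h2)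
  obtain ⟨G, hG⟩ := exists_intertwiner (tr g) D D' hl
  obtain ⟨fY, -, hYi⟩ := exists_rest_isometry h2 pol_symm hQ pol_symm hQ (tr_iso g) (tr_iso g') hG
    finrank_vec_le hs₀ (exists_part_iso g h2 hQ D D' hl (-s₀) hms fun K hK =>
      (hb (-s₀) hms K hK).resolve_left fun h => hne' h.1)
  have hlev' : (part g' h2 hQ s₀ hs₀).lev K₀ ≠ 0 := by
    rw [part_lev g' h2 hQ D' s₀ hs₀ hK₀.pos, ← layer_root]
    exact ((rootMultiplicity_pos (layer_monic _ _ _).ne_zero).2 hpos).ne'
  obtain ⟨κ, _, _, b, b', hne0, hnsq⟩ := exists_basis_not_square h2 (part g h2 hQ s₀ hs₀) (part g' h2 hQ s₀ hs₀)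
    (res_symm _) (res_symm _) (lev_eq_of_layers g h2 hQ D D' hl s₀ hs₀) hK₀ hlev'
    (fun K hK hKne => (hb s₀ hs₀ K hK).resolve_left fun h => hKne h.2) hne
  let c := finBasis F (gY (tr g) s₀ N)
  have hc : (LinearMap.BilinForm.toMatrix (c.map fY) ((pol Q).restrict (gY (tr g') s₀ N))).det =
      (LinearMap.BilinForm.toMatrix c ((pol Q).restrict (gY (tr g) s₀ N))).det := by
    congr 1
    ext i j
    simp only [LinearMap.BilinForm.toMatrix_apply, LinearMap.BilinForm.restrict_apply, Basis.map_apply]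
    exact hYi _ _
  have hX := isCompl_g (tr g) s₀ (finrank_vec_le (F := F) (N := N))
  have hX' := isCompl_g (tr g') s₀ (finrank_vec_le (F := F) (N := N))
  let B := (b.prod c).map (Submodule.prodEquivOfIsCompl _ _ hX)
  let B' := (b'.prod (c.map fY)).map (Submodule.prodEquivOfIsCompl _ _ hX')
  have e1 : (LinearMap.BilinForm.toMatrix B (pol Q)).det = _ :=
    toMatrix_prod hX (g_orth (tr_iso g) hs₀ N) (fun x hx y hy => (pol_symm y x).trans (g_orth (tr_iso g) hs₀ N x hx y hy)) b c
  have e2 : (LinearMap.BilinForm.toMatrix B' (pol Q)).det = _ :=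
    toMatrix_prod hX' (g_orth (tr_iso g') hs₀ N) (fun x hx y hy => (pol_symm y x).trans (g_orth (tr_iso g') hs₀ N x hx y hy)) b' (c.map fY)
  rw [hc] at e2
  have hm := LinearMap.BilinForm.toMatrix_mul_basis_toMatrix B B' (pol Q)
  have hd := congrArg Matrix.det hm
  rw [Matrix.det_mul, Matrix.det_mul, Matrix.det_transpose, e1, e2] at hd
  set P := (B.toMatrix B').det with hP
  set dX := (LinearMap.BilinForm.toMatrix b ((pol Q).restrict (gX (tr g) s₀ N))).det
  set dX' := (LinearMap.BilinForm.toMatrix b' ((pol Q).restrict (gX (tr g') s₀ N))).det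
  set dY := (LinearMap.BilinForm.toMatrix c ((pol Q).restrict (gY (tr g) s₀ N))).det
  have hY0 : dY ≠ 0 := (LinearMap.BilinForm.nondegenerate_iff_det_ne_zero c).1 (g_nondeg pol_symm hQ (tr_iso g) hs₀ finrank_vec_le).2
  refine hnsq ⟨P * dX, ?_⟩
  have h' : dX' = P * P * dX := mul_right_cancel₀ hY0 (by linear_combination -hd)
  rw [h']
  ring

end Cfsg.Agent.OClassCount
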