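import Cfsg.Agent.OClassCount.Exist
import Cfsg.Agent.SpClassCount.Unip

/-! Unipotent isometries of symmetric spaces in odd characteristic: levels and discriminants (owner: helper23). -/

set_option autoImplicit false
set_option linter.unusedSectionVars false
set_option linter.style.haveILetI false

namespace Cfsg.Agent.OClassCount

open Module Matrix
open LinearMap (BilinForm)
open Cfsg.Agent.SympUnip Cfsg.Agent.SpClassCount

variable {F : Type*} [Field F] {W W' : Type*} [AddCommGroup W] [Module F W] [FiniteDimensional F W]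
  [AddCommGroup W'] [Module F W'] [FiniteDimensional F W']

theorem exists_udata (h2 : (2 : F) ≠ 0) {N : ℕ} {β : BilinForm F W} (hA : ∀ x y, β x y = β y x)
    (hβ : β.Nondegenerate) {f : Module.End F W} (hB : ∀ u v, β (f u) (f v) = β u v) (hf : (f - 1) ^ N = 0) :
    Nonempty (UData β f N) := by
  classical
  obtain ⟨C, hC, hS, hCN, hu, hcm⟩ := exists_cayN h2 hB hf
  obtain ⟨ι, inst, k, H, x, -, -, hD, hx, hs⟩ := OClassCount.hasChain hA hβ hS h2 hCN
  exact ⟨⟨ι, inst, inferInstance, k, H, x, C, hC, hu, hcm, hS, hCN, hD, hx, hs⟩⟩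

/-- The symmetry of a block. -/
theorem symm_block {ι : Type} [Fintype ι] {β : BilinForm F W} {S : Module.End F W} {k : ι → ℕ}
    {H : Matrix ι ι F} {x : ι → W} (hA : ∀ x y, β x y = β y x) (hS : IsSkew β S) (hD : Datum k H)
    (hx : Chain β S k H x) (a b : ι) : H b a = (-1 : F) ^ (k a + 1) * H a b := by
  by_cases hk : k a = k b
  · have h1 := hx.gram_eq a b (k a - 1) 0 (by have := hD.pos a; omega) (hD.pos b)
    have h2 := hx.gram_eq b a (k b - 1) 0 (by have := hD.pos b; omega) (hD.pos a)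
    rw [if_pos (by have := hD.pos a; omega)] at h1
    rw [if_pos (by have := hD.pos b; omega)] at h2
    obtain ⟨n, hn⟩ : ∃ n, k a = n + 1 := ⟨k a - 1, by have := hD.pos a; omega⟩
    simp only [pow_zero, one_mul, Module.End.one_apply] at h1 h2
    rw [← h2, ← hk, skew_pow hS, hA, h1, hn, Nat.add_sub_cancel, pow_succ, pow_succ]
    ring
  · rw [hD.blocks a b hk, hD.blocks b a (Ne.symm hk), mul_zero]

theorem blk_transpose {ι : Type} [Fintype ι] [DecidableEq ι] {β : BilinForm F W} {S : Module.End F W} {k : ι → ℕ}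
    {H : Matrix ι ι F} {x : ι → W} (hA : ∀ x y, β x y = β y x) (hS : IsSkew β S) (hD : Datum k H)
    (hx : Chain β S k H x) (K : ℕ) : (blk k H K)ᵀ = ((-1 : F) ^ (K + 1)) • blk k H K := by
  ext a b
  simp only [blk, transpose_apply, submatrix_apply, Matrix.smul_apply, smul_eq_mul]
  rw [symm_block hA hS hD hx a.1 b.1, a.2]

variable {β : BilinForm F W} {f : Module.End F W} {N : ℕ} (U : UData β f N)

theorem lev_even (h2 : (2 : F) ≠ 0) (hA : ∀ x y, β x y = β y x) {K : ℕ} (hK : Even K) : Even (U.lev K) := by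
  have ht : (blk U.k U.H K)ᵀ = -(blk U.k U.H K) := by
    rw [blk_transpose hA U.skew U.datum U.chain K, hK.add_one.neg_one_pow, neg_one_smul]
  exact (exists_congr_alt h2 ht ht (U.datum.blk_det_ne_zero K) (U.datum.blk_det_ne_zero K)).1

/-- A congruence between the levels of two data. -/
theorem exists_level_congr [Finite F] (h2 : (2 : F) ≠ 0) {β' : BilinForm F W'} {f' : Module.End F W'}
    (U' : UData β' f' N) (hA : ∀ x y, β x y = β y x) (hA' : ∀ x y, β' x y = β' y x) (K : ℕ)
    (hlev : U.lev K = U'.lev K) (hdisc : Odd K → U.disc K = U'.disc K) :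
    ∃ P : Matrix (Fib U.k K) (Fib U'.k K) F, Pᵀ * blk U.k U.H K * P = blk U'.k U'.H K := by
  classical
  let e := Fintype.equivOfCardEq hlev
  set B' := (blk U'.k U'.H K).submatrix e e with hB'
  suffices hh : ∃ P₀ : Matrix (Fib U.k K) (Fib U.k K) F, P₀ᵀ * blk U.k U.H K * P₀ = B' by
    obtain ⟨P₀, hP₀⟩ := hh
    refine ⟨P₀.submatrix id e.symm, ?_⟩
    rw [transpose_submatrix, ← Equiv.coe_refl,
      ← submatrix_id_id (blk U.k U.H K), ← Equiv.coe_refl, submatrix_mul_equiv, submatrix_mul_equiv,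
      hP₀, hB', submatrix_submatrix]
    simp
  have hBd : B'.det ≠ 0 := by
    rw [hB', det_submatrix_equiv_self]
    exact U'.datum.blk_det_ne_zero K
  have hBt : B'ᵀ = ((-1 : F) ^ (K + 1)) • B' := by
    rw [hB', transpose_submatrix, blk_transpose hA' U'.skew U'.datum U'.chain K]
    rfl
  rcases Nat.even_or_odd K with hK | hK
  · obtain ⟨-, P, hP⟩ := exists_congr_alt h2
      (show (blk U.k U.H K)ᵀ = -(blk U.k U.H K) by
        rw [blk_transpose hA U.skew U.datum U.chain K, hK.add_one.neg_one_pow, neg_one_smul])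
      (show B'ᵀ = -B' by rw [hBt, hK.add_one.neg_one_pow, neg_one_smul]) (U.datum.blk_det_ne_zero K) hBd
    exact ⟨P, hP⟩
  · have hAt : (blk U.k U.H K)ᵀ = blk U.k U.H K := by
      rw [blk_transpose hA U.skew U.datum U.chain K, hK.add_one.neg_one_pow, one_smul]
    have hBt' : B'ᵀ = B' := by rw [hBt, hK.add_one.neg_one_pow, one_smul]
    obtain ⟨P, hP⟩ := GraphForms.exists_congr_of_isSquare h2 hBt' hAt hBd (U.datum.blk_det_ne_zero K)
      (by
        rw [hB', det_submatrix_equiv_self]
        have hd := hdisc hK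
        simp only [UData.disc, Bool.not_inj_iff, decide_eq_decide] at hd
        by_cases hs : IsSquare (blk U.k U.H K).det
        · exact (hd.1 hs).mul hs
        · exact SympUnip.isSquare_mul_of_not h2 (fun hc => hs (hd.2 hc)) hs)
    exact ⟨P, hP⟩

/-- Congruent levels give an intertwining isometry. -/
theorem exists_iso [Finite F] {β' : BilinForm F W'} {f' : Module.End F W'} (U' : UData β' f' N)
    (hlev : ∀ K, U.lev K = U'.lev K)
    (hP : ∀ K, ∃ P : Matrix (Fib U.k K) (Fib U'.k K) F, Pᵀ * blk U.k U.H K * P = blk U'.k U'.H K) :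
    ∃ E : W ≃ₗ[F] W', (∀ v, E (f v) = f' (E v)) ∧ ∀ u v, β' (E u) (E v) = β u v := by
  obtain ⟨x, hx, hs⟩ := exists_change U.datum U.chain U.span U'.datum hlev hP
  obtain ⟨E, hEC, hE⟩ := exists_iso_of_chains U'.datum hx hs U'.chain U'.span
  refine ⟨E, fun v => ?_, hE⟩
  have hu : IsUnit (1 - U'.C) := IsNilpotent.isUnit_one_sub ⟨N, U'.nil⟩
  apply ((Module.End.isUnit_iff _).1 hu).1
  simp only [LinearMap.sub_apply, Module.End.one_apply]
  rw [← hEC, ← map_sub E, cay_key U.cay v, cay_key U'.cay (E v), map_add, hEC]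

end Cfsg.Agent.OClassCount
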