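import Cfsg.Agent.OClassCount.Main

/-! Upper bounds for the number of classes of an orthogonal group, `q` odd (owner: helper23). -/

set_option autoImplicit false
set_option linter.style.haveILetI false
set_option linter.unusedSectionVars false

namespace Cfsg.Agent.OClassCount

open Polynomial Module
open LinearMap (BilinForm)
open Cfsg.Agent.Classical (OQ)
open Cfsg.Agent.SpClassCount (UData)

universe u

section Flip

variable {F : Type u} [Field F] {J N : ℕ}

/-- The exponent of an index. -/
def jOf (o : Option (Fin J)) : ℕ := o.elim 1 fun i => (i : ℕ) + 2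

/-- The sign of an index. -/
def sg (F : Type u) [Field F] (b : Bool) : F := if b then 1 else -1

theorem sg_mul (b : Bool) : sg F b * sg F b = 1 := by cases b <;> simp [sg]

/-- A layer of the data with its signs. -/
noncomputable def layAt (f : Dat F J N) : Option (Fin J) → F[X] × Bool × Bool
  | none => f.1.1.1
  | some i => (f.1.2 i).1

/-- The polynomials of the data. -/
noncomputable def polys (f : Dat F J N) (o : Option (Fin J)) : F[X] := (layAt f o).1

/-- The sign at an index. -/
noncomputable def sgnAt (f : Dat F J N) (p : Option (Fin J) × Bool) : Bool :=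
  if p.2 then (layAt f p.1).2.1 else (layAt f p.1).2.2

/-- The places of a sign. -/
def HasSlot (P : Option (Fin J) → F[X]) (p : Option (Fin J) × Bool) : Prop :=
  Odd (jOf p.1) ∧ (P p.1).IsRoot (sg F p.2)

/-- A chosen place. -/
noncomputable def slot (P : Option (Fin J) → F[X]) : Option (Option (Fin J) × Bool) := by
  classical exact if h : ∃ p, HasSlot P p then some h.choose else none

theorem slot_some {P : Option (Fin J) → F[X]} {p : Option (Fin J) × Bool} (h : slot P = some p) : HasSlot P p := by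
  classical
  unfold slot at h
  split_ifs at h with hex
  exact Option.some.inj h ▸ hex.choose_spec

theorem slot_none {P : Option (Fin J) → F[X]} (h : slot P = none) (p : Option (Fin J) × Bool) : ¬ HasSlot P p := by
  classical
  unfold slot at h
  split_ifs at h with hex
  exact fun hp => hex ⟨p, hp⟩

/-- Changing the signs of a layer where possible. -/
noncomputable def flipL {j : ℕ} (c : Bool × Bool) (x : LayO F j) : LayO F j := by
  classical exact
    ⟨(x.1.1, (if c.1 = true ∧ x.1.1.IsRoot 1 ∧ Odd j then !x.1.2.1 else x.1.2.1),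
        (if c.2 = true ∧ x.1.1.IsRoot (-1) ∧ Odd j then !x.1.2.2 else x.1.2.2)),
      x.2.1, fun h => by
        dsimp only at h
        split_ifs at h with h'
        · exact h'.2
        · exact x.2.2.1 h,
      fun h => by
        dsimp only at h
        split_ifs at h with h'
        · exact h'.2
        · exact x.2.2.2.1 h,
      x.2.2.2.2⟩

/-- Changing one sign of the data. -/
noncomputable def flipD (c : Option (Fin J) → Bool × Bool) (f : Dat F J N) : Dat F J N :=
  ⟨(flipL (c none) f.1.1, fun i => flipL (c (some i)) (f.1.2 i)), f.2⟩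

theorem polys_flipD (c : Option (Fin J) → Bool × Bool) (f : Dat F J N) : polys (flipD c f) = polys f :=
  funext fun o => by cases o <;> rfl

/-- The change at one place. -/
noncomputable def chg (p : Option (Fin J) × Bool) (b : Bool) (o : Option (Fin J)) : Bool × Bool :=
  (decide (o = p.1) && p.2 && b, decide (o = p.1) && !p.2 && b)

theorem sgnAt_flip_ne {p r : Option (Fin J) × Bool} (hr : r ≠ p) (b : Bool) (f : Dat F J N) :
    sgnAt (flipD (chg p b) f) r = sgnAt f r := by
  obtain ⟨o, t⟩ := r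
  obtain ⟨o', t'⟩ := p
  by_cases ho : o = o'
  · subst ho
    cases o <;> cases t <;> cases t' <;> first | exact absurd rfl hr | simp [sgnAt, flipD, flipL, layAt, chg]
  · cases o <;> cases t <;> simp [sgnAt, flipD, flipL, layAt, chg, ho]

theorem sgnAt_flip_self {p : Option (Fin J) × Bool} (b : Bool) (f : Dat F J N) (hp : HasSlot (polys f) p) :
    sgnAt (flipD (chg p b) f) p = Bool.xor (sgnAt f p) b := by
  obtain ⟨o, t⟩ := p
  obtain ⟨h1, h2⟩ := hp
  cases o <;> cases t <;> cases b <;> simp_all [sgnAt, flipD, flipL, layAt, chg, polys, sg, jOf]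

theorem dat_ext {f f' : Dat F J N} (hP : polys f = polys f') (hs : ∀ p, sgnAt f p = sgnAt f' p) : f = f' := by
  have e : ∀ o, layAt f o = layAt f' o := fun o =>
    Prod.ext (congrFun hP o) (Prod.ext (by simpa [sgnAt] using hs (o, true)) (by simpa [sgnAt] using hs (o, false)))
  exact Subtype.ext (Prod.ext (Subtype.ext (e none)) (funext fun i => Subtype.ext (e (some i))))

theorem noSlot_of_slot_none (f : Dat F J N) (h : slot (polys f) = none) :
    NoSlot f.1.1 ∧ ∀ i, NoSlot (f.1.2 i) :=
  ⟨fun hj => ⟨fun hr => slot_none h (none, true) ⟨hj, hr⟩, fun hr => slot_none h (none, false) ⟨hj, hr⟩⟩,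
    fun i hj => ⟨fun hr => slot_none h (some i, true) ⟨hj, hr⟩, fun hr => slot_none h (some i, false) ⟨hj, hr⟩⟩⟩

theorem exists_slot_of_odd (h2 : (2 : F) ≠ 0) (hN : Odd N) (f : Dat F J N) : ∃ p, slot (polys f) = some p := by
  rcases h : slot (polys f) with _ | p
  swap
  · exact ⟨p, rfl⟩
  exfalso
  obtain ⟨h0, hi⟩ := noSlot_of_slot_none f h
  have hz : ∀ (j : ℕ) (x : LayO F j), NoSlot x → ((wtO j * ldO x : ℕ) : ZMod 2) = 0 := by
    intro j x hx
    rw [wt_mul_ldO h2 x, ZMod.natCast_eq_zero_iff_even]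
    rcases Nat.even_or_odd j with hj | hj
    · exact hj.mul_right _
    · obtain ⟨e, he, -⟩ := exists_pal_of_not_root h2 x.2.1 (hx hj).1 (hx hj).2
      rw [he]
      exact (even_two_mul e).mul_left _
  have hs := congrArg (fun n : ℕ => (n : ZMod 2)) f.2
  simp only [Nat.cast_add, Nat.cast_sum] at hs
  rw [Finset.sum_eq_zero fun i _ => hz _ (f.1.2 i) (hi i), zero_add] at hs
  have h1 := hz 1 f.1.1 h0
  rw [show wtO 1 = 1 from rfl, one_mul, hs, ZMod.natCast_eq_zero_iff_even] at h1
  exact Nat.not_even_iff_odd.2 hN h1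

end Flip

variable {F : Type u} [Field F] [Fintype F] {N : ℕ} {Q : QuadraticForm F (Vec F N)}
variable (h2 : (2 : F) ≠ 0) (hQ : (pol Q).Nondegenerate)

/-- The divisors of an element. -/
noncomputable def dvs (g : OQ Q) : SUClassCount.Data (glA (tr g) : Matrix (Fin N) (Fin N) F) :=
  (SUClassCount.exists_data' (glA (tr g))).some

/-- The data of an element. -/
noncomputable def dat (g : OQ Q) : Dat F N N :=
  ⟨(layObj g h2 hQ (dvs g) 1 le_rfl, fun i => layObj g h2 hQ (dvs g) ((i : ℕ) + 2) (by omega)), by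
    have h := layer_sum (tr g) (dvs g)
    have h1 : ∀ i : Fin N, wtO ((i : ℕ) + 2) * ldO (layObj g h2 hQ (dvs g) ((i : ℕ) + 2) (by omega)) =
        ((i : ℕ) + 2) * (layer (tr g) (dvs g) ((i : ℕ) + 2)).natDegree := fun i => wt_mul_ldO h2 _
    have h0 : ldO (layObj g h2 hQ (dvs g) 1 le_rfl) = (layer (tr g) (dvs g) 1).natDegree := rfl
    simp only [h1, h0]
    exact h⟩

theorem isConj_of_flip {g g' : OQ Q} {p : Option (Option (Fin N) × Bool)}
    (hp : slot (polys (dat h2 hQ g)) = p) (hP : polys (dat h2 hQ g) = polys (dat h2 hQ g'))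
    (hs : ∀ r, p ≠ some r → sgnAt (dat h2 hQ g) r = sgnAt (dat h2 hQ g') r) : IsConj g g' := by
  have hl : ∀ j, 1 ≤ j → j ≤ N + 1 → layer (tr g) (dvs g) j = layer (tr g') (dvs g') j := by
    intro j h1 h3
    rcases Nat.lt_or_ge j 2 with hj | hj
    · obtain rfl : j = 1 := by omega
      exact congrFun hP none
    · obtain ⟨i, rfl⟩ : ∃ i, j = i + 2 := ⟨j - 2, by omega⟩
      exact congrFun hP (some ⟨i, by omega⟩)
  have hidx : ∀ K, Odd K → K ≤ N + 1 → ∃ o : Option (Fin N), jOf o = K := by
    intro K hK hKN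
    rcases Nat.lt_or_ge K 2 with hj | hj
    · exact ⟨none, by have := hK.pos; simp [jOf]; omega⟩
    · exact ⟨some ⟨K - 2, by omega⟩, by simp [jOf]; omega⟩
  have hsgn : ∀ (x : OQ Q) (o : Option (Fin N)) (t : Bool), Odd (jOf o) →
      sgnAt (dat h2 hQ x) (o, t) = (part x h2 hQ (sg F t) (sg_mul t)).disc (jOf o) := by
    intro x o t ho
    have e : ∀ (s : F) (hs : s * s = 1) (j : ℕ), Odd j → sgnL x h2 hQ s hs j = (part x h2 hQ s hs).disc j :=
      fun s hs j hj => if_pos hj
    refine Eq.trans ?_ (e (sg F t) (sg_mul t) (jOf o) ho)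
    cases o <;> cases t <;> rfl
  have hjinj : ∀ o o' : Option (Fin N), jOf o = jOf o' → o = o' := by
    rintro (_ | i) (_ | i') h <;> simp [jOf] at h ⊢ <;> omega
  have key : ∀ (s : F) (hs' : s * s = 1) K, Odd K →
      (∃ r, p = some r ∧ s = sg F r.2 ∧ K = jOf r.1) ∨
        (part g h2 hQ s hs').disc K = (part g' h2 hQ s hs').disc K := by
    intro s hs' K hK
    rcases le_or_gt K (N + 1) with hKN | hKN
    · obtain ⟨o, ho⟩ := hidx K hK hKN
      obtain ⟨t, ht⟩ : ∃ t, s = sg F t := by
        rcases mul_self_eq_one_iff.1 hs' with h | h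
        · exact ⟨true, h⟩
        · exact ⟨false, h⟩
      subst ho ht
      by_cases hr : p = some (o, t)
      · exact Or.inl ⟨_, hr, rfl, rfl⟩
      · have h := hs (o, t) hr
        rw [hsgn g o t hK, hsgn g' o t hK] at h
        exact Or.inr h
    · right
      rw [UData.disc_of_lev, UData.disc_of_lev] <;>
        rw [part_lev _ h2 hQ (dvs _) s hs' hK.pos, mlt_zero_of_gt _ _ _ (by omega)]
  refine isConj_of_bits g h2 hQ (dvs g) (dvs g') hl fun s hs' K hK => ?_
  rcases key s hs' K hK with ⟨r, hr, rfl, rfl⟩ | h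
  · subst hp
    have hsl := slot_some hr
    rw [hP] at hsl
    refine last_bit g h2 hQ (dvs g) (dvs g') hl (sg F r.2) hs' hsl.1 ?_ fun s' hs'' K' hK' => ?_
    · rcases r with ⟨_ | i, t⟩ <;> exact hsl.2
    · rcases key s' hs'' K' hK' with ⟨r', hr', h1, h3⟩ | h
      · rw [hr, Option.some.injEq] at hr'
        exact Or.inl ⟨hr' ▸ h1, hr' ▸ h3⟩
      · exact Or.inr h
  · exact h

/-- The flip map. -/
noncomputable def Φ (x : ConjClasses (OQ Q) × Bool) :
    Dat F N N ⊕ {f : Dat F N N // NoSlot f.1.1 ∧ ∀ i, NoSlot (f.1.2 i)} :=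
  match h : slot (polys (dat h2 hQ x.1.out)) with
  | some p => Sum.inl (flipD (chg p x.2) (dat h2 hQ x.1.out))
  | none => if x.2 then Sum.inr ⟨dat h2 hQ x.1.out, noSlot_of_slot_none _ h⟩ else Sum.inl (dat h2 hQ x.1.out)

theorem Φ_some {x : ConjClasses (OQ Q) × Bool} {p : Option (Fin N) × Bool}
    (h : slot (polys (dat h2 hQ x.1.out)) = some p) :
    Φ h2 hQ x = Sum.inl (flipD (chg p x.2) (dat h2 hQ x.1.out)) := by
  unfold Φ
  split
  · rename_i p' hp'
    rw [h, Option.some.injEq] at hp'
    rw [hp']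
  · rename_i hp'
    rw [h] at hp'
    exact absurd hp' (Option.some_ne_none _)

theorem Φ_none {x : ConjClasses (OQ Q) × Bool} (h : slot (polys (dat h2 hQ x.1.out)) = none) :
    (x.2 = false ∧ Φ h2 hQ x = Sum.inl (dat h2 hQ x.1.out)) ∨
      (x.2 = true ∧ ∃ hn, Φ h2 hQ x = Sum.inr ⟨dat h2 hQ x.1.out, hn⟩) := by
  unfold Φ
  split
  · rename_i p' hp'
    rw [h] at hp'
    exact absurd hp'.symm (Option.some_ne_none _)
  · rcases hb : x.2
    · exact Or.inl ⟨rfl, if_neg Bool.false_ne_true⟩
    · exact Or.inr ⟨rfl, noSlot_of_slot_none _ h, if_pos rfl⟩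

theorem polys_Φ (x : ConjClasses (OQ Q) × Bool) :
    Sum.elim polys (fun f => polys f.1) (Φ h2 hQ x) = polys (dat h2 hQ x.1.out) := by
  rcases h : slot (polys (dat h2 hQ x.1.out)) with _ | p
  · rcases Φ_none h2 hQ h with ⟨-, e⟩ | ⟨-, _, e⟩ <;> rw [e] <;> rfl
  · rw [Φ_some h2 hQ h]
    exact polys_flipD _ _

theorem Φ_injective : Function.Injective (Φ h2 hQ) := by
  intro x y hxy
  have hP : polys (dat h2 hQ x.1.out) = polys (dat h2 hQ y.1.out) := by
    rw [← polys_Φ h2 hQ x, ← polys_Φ h2 hQ y, hxy]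
  suffices hc : IsConj x.1.out y.1.out ∧ (x.1 = y.1 → x.2 = y.2) from
    have h1 : x.1 = y.1 := (Quotient.out_eq x.1).symm.trans
      ((ConjClasses.mk_eq_mk_iff_isConj.2 hc.1).trans (Quotient.out_eq y.1))
    Prod.ext h1 (hc.2 h1)
  rcases h : slot (polys (dat h2 hQ x.1.out)) with _ | p
  · have h' : slot (polys (dat h2 hQ y.1.out)) = none := hP ▸ h
    rcases Φ_none h2 hQ h with ⟨e1, e⟩ | ⟨e1, _, e⟩ <;> rcases Φ_none h2 hQ h' with ⟨e2, e'⟩ | ⟨e2, _, e'⟩ <;>
      rw [e, e'] at hxy
    · exact ⟨isConj_of_flip h2 hQ h hP fun r _ => by rw [Sum.inl.inj hxy], fun _ => e1.trans e2.symm⟩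
    · exact absurd hxy Sum.inl_ne_inr
    · exact absurd hxy Sum.inr_ne_inl
    · exact ⟨isConj_of_flip h2 hQ h hP fun r _ =>
        congrArg (fun d => sgnAt d r) (congrArg Subtype.val (Sum.inr.inj hxy)),
        fun _ => e1.trans e2.symm⟩
  · have h' : slot (polys (dat h2 hQ y.1.out)) = some p := hP ▸ h
    rw [Φ_some h2 hQ h, Φ_some h2 hQ h'] at hxy
    have hs := Sum.inl.inj hxy
    refine ⟨isConj_of_flip h2 hQ h hP fun r hr => ?_, fun heq => ?_⟩
    · have hrp : r ≠ p := fun e => hr (e ▸ rfl)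
      rw [← sgnAt_flip_ne hrp x.2, hs, sgnAt_flip_ne hrp y.2]
    · have e := congrArg (fun f => sgnAt f p) hs
      simp only [sgnAt_flip_self _ _ (slot_some h), sgnAt_flip_self _ _ (slot_some h')] at e
      rw [heq] at e
      exact Bool.bne_right_inj.1 e

include h2 hQ in
/-- Twice the number of classes is at most the number of data with and without signs. -/
theorem two_mul_le : 2 * Nat.card (ConjClasses (OQ Q)) ≤
    totO (Fintype.card F) N N + totT (Fintype.card F) N N := by
  haveI := (card_dat_all (F := F) h2 N N).1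
  have h := Nat.card_le_card_of_injective _ (Φ_injective h2 hQ)
  rw [Nat.card_prod, Nat.card_eq_fintype_card (α := Bool), Fintype.card_bool, mul_comm, Nat.card_sum] at h
  exact h.trans (Nat.add_le_add (card_dat_all h2 N N).2 (card_dat_noSlot h2 N N))

include h2 hQ in
/-- In odd dimension every datum has a place for a sign. -/
theorem two_mul_le_odd (hN : Odd N) : 2 * Nat.card (ConjClasses (OQ Q)) ≤ totO (Fintype.card F) N N ∧
    2 * Nat.card {c : ConjClasses (OQ Q) // Simple (dat h2 hQ c.out).1.1} ≤ totR (Fintype.card F) N N := by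
  haveI := (card_dat_all (F := F) h2 N N).1
  have hinl : ∀ x, ∃ f, Φ h2 hQ x = Sum.inl f ∧ f.1.1.1.1 = (dat h2 hQ x.1.out).1.1.1.1 := fun x => by
    obtain ⟨p, hp⟩ := exists_slot_of_odd h2 hN (dat h2 hQ x.1.out)
    exact ⟨_, Φ_some h2 hQ hp, rfl⟩
  choose f hf hf1 using hinl
  have hinj : Function.Injective f := fun x y h => Φ_injective h2 hQ (by rw [hf, hf, h])
  constructor
  · have h := Nat.card_le_card_of_injective f hinj
    rw [Nat.card_prod, Nat.card_eq_fintype_card (α := Bool), Fintype.card_bool, mul_comm] at h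
    exact h.trans (card_dat_all h2 N N).2
  · let f' : {c : ConjClasses (OQ Q) // Simple (dat h2 hQ c.out).1.1} × Bool → {d : Dat F N N // Simple d.1.1} :=
      fun x => ⟨f (x.1.1, x.2), by have := x.1.2; unfold Simple at this ⊢; rwa [hf1]⟩
    have hinj' : Function.Injective f' := fun x y h => by
      have := hinj (congrArg Subtype.val h)
      exact Prod.ext (Subtype.ext (congrArg (fun t : ConjClasses (OQ Q) × Bool => t.1) this))
        (congrArg (fun t : ConjClasses (OQ Q) × Bool => t.2) this)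
    have h := Nat.card_le_card_of_injective f' hinj'
    rw [Nat.card_prod, Nat.card_eq_fintype_card (α := Bool), Fintype.card_bool, mul_comm] at h
    exact h.trans (card_dat_simple h2 N N)

end Cfsg.Agent.OClassCount
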